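import Mathlib
import Cfsg.Agent.Lib.Helper25.ACStmt

/-!
# S3912 piece KEYSTEP (call of helper25): glue of KZero, CaseE, UniqSub, QuotOdd, QuotTwo
-/

set_option autoImplicit false

universe u

namespace Cfsg.Agent.Lib.Helper34.ACKEYSTEP

open Cfsg.Agent.Lib.Helper25.ACStmt

theorem main (h0 : KZero.{u}) (hE : CaseE.{u}) (hU : UniqSub.{u}) (hO : QuotOdd.{u})
    (hT : QuotTwo.{u}) : KeyStep.{u} := by
  intro G _ _ hsolv hB M hMn hMne
  obtain ⟨r, N₀, hr, hN₀n, hN₀p, hN₀ne, hN₀M⟩ := h0 G hsolv M hMn hMne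
  have : Fact r.Prime := ⟨hr⟩
  obtain ⟨R⟩ : Nonempty (Sylow r G) := inferInstance
  by_cases hexp : ∀ x ∈ (R : Subgroup G), x ^ r = 1
  · have := hN₀n
    exact ⟨N₀, hN₀n, hN₀ne, hN₀M, hE G hB r R N₀ hN₀p hN₀ne hexp⟩
  · push Not at hexp
    obtain ⟨Z₀, hZn, hZc, hZN, hZall⟩ := hU G hB r R N₀ hN₀n hN₀p hN₀ne hexp
    have hZne : Z₀ ≠ ⊥ := by
      rintro rfl
      rw [Subgroup.card_bot] at hZc
      exact hr.one_lt.ne' hZc.symm
    have := hZn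
    refine ⟨Z₀, hZn, hZne, hZN.trans hN₀M, ?_⟩
    by_cases h2 : r = 2
    · subst h2
      exact hT G hsolv hB Z₀ hZc hZall
    · exact hO G hB r h2 Z₀ hZc hZall

end Cfsg.Agent.Lib.Helper34.ACKEYSTEP
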