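import Mathlib
import Cfsg.Agent.Lib.Helper25.ACStmt

/-!
# S3912 piece QNORMAL (call of helper25): from VCore

`X = V.comap mk`: normal, of order `8 * #K`; a nonabelian `P` of order 8 has exponent 4, so its
image lies in `V`.
-/

set_option autoImplicit false

universe u

namespace Cfsg.Agent.Lib.Helper34.ACQNORMAL

open Cfsg.Agent.Lib.Helper25.ACStmt

/-- a nonabelian subgroup of order 8 has exponent dividing 4 -/
theorem pow_four {G : Type u} [Group G] [Finite G] (P : Subgroup G) (hP : Nat.card ↥P = 8)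
    (hnab : ∃ a ∈ P, ∃ b ∈ P, a * b ≠ b * a) (x : G) (hx : x ∈ P) : x ^ 4 = 1 := by
  have hd : orderOf x ∣ 2 ^ 3 := by
    have h := Subgroup.orderOf_dvd_natCard P hx
    rw [hP] at h
    exact h
  obtain ⟨k, hk, hk2⟩ := (Nat.dvd_prime_pow Nat.prime_two).1 hd
  by_cases hk3 : k = 3
  · exfalso
    subst hk3
    have hle : Subgroup.zpowers x ≤ P := by
      rw [Subgroup.zpowers_le]
      exact hx
    have hcard : Nat.card ↥(Subgroup.zpowers x) = 8 := by
      rw [Nat.card_zpowers, hk2]
      norm_num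
    have heq : Subgroup.zpowers x = P :=
      Subgroup.eq_of_le_of_card_ge hle (by rw [hcard, hP])
    obtain ⟨a, ha, b, hb, hab⟩ := hnab
    rw [← heq] at ha hb
    obtain ⟨i, rfl⟩ := Subgroup.mem_zpowers_iff.1 ha
    obtain ⟨j, rfl⟩ := Subgroup.mem_zpowers_iff.1 hb
    exact hab (Commute.zpow_zpow_self x i j).eq
  · have hk' : k ≤ 2 := by omega
    have h4 : orderOf x ∣ 4 := by
      rw [hk2]
      exact pow_dvd_pow 2 hk'
    exact orderOf_dvd_iff_pow_eq_one.1 h4

theorem main (hV : VCore.{u}) : QNormal.{u} := by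
  intro G _ _ hsolv hB huniq P₁ hP₁ hnab₁
  obtain ⟨K, hKn, hKodd, -, V, hVn, hVc, -, hVall⟩ := hV G hsolv hB huniq P₁ hP₁ hnab₁
  have := hKn
  have := hVn
  refine ⟨V.comap (QuotientGroup.mk' K), inferInstance, ⟨Nat.card ↥K, hKodd, ?_⟩, ?_⟩
  · have hidx : (V.comap (QuotientGroup.mk' K)).index = V.index :=
      Subgroup.index_comap_of_surjective V (QuotientGroup.mk'_surjective K)
    have h1 := Subgroup.card_mul_index (V.comap (QuotientGroup.mk' K))
    have h2 := Subgroup.card_mul_index V
    have h3 := Subgroup.card_eq_card_quotient_mul_card_subgroup K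
    rw [hidx] at h1
    have hpos : 0 < V.index := Nat.pos_of_ne_zero (Subgroup.index_ne_zero_of_finite)
    have h4 : Nat.card ↥(V.comap (QuotientGroup.mk' K)) * V.index
        = (8 * Nat.card ↥K) * V.index := by
      rw [h1, h3, ← h2, hVc]
      ring
    exact Nat.eq_of_mul_eq_mul_right hpos h4
  · intro P hP hnab x hx
    rw [Subgroup.mem_comap]
    apply hVall
    rw [← map_pow, pow_four P hP hnab x hx, map_one]

end Cfsg.Agent.Lib.Helper34.ACQNORMAL
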