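import Mathlib
import Cfsg.Agent.Lib.Helper44.BCStmt

/-!
# S2362 / CENT3 (helper34): in dimension 3, an isometry of order prime to `p` commuting with a
nontrivial unipotent isometry is `± 1`
-/

set_option autoImplicit false

namespace Cfsg.Agent.Lib.Helper34.BCCENT3

open Matrix Polynomial
open Cfsg.Agent.Lib.Helper44.QSpace Cfsg.Agent.Lib.Helper44.OGroup Cfsg.Agent.Lib.Helper44.OMat
open Cfsg.Agent.Lib.Helper44.OExt Cfsg.Agent.Lib.Helper44.BCStmt

universe u

variable {F : Type u} [Field F]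

/-- Gram identity of an isometry of `qN N` -/
theorem gram {κ : Type} [Fintype κ] [DecidableEq κ] (N S : Matrix κ κ F)
    (h : ∀ v : κ → F, qN N (S *ᵥ v) = qN N v) : Sᵀ * (N + Nᵀ) * S = N + Nᵀ := by
  have hp : ∀ x y : κ → F, (S *ᵥ x) ⬝ᵥ (N + Nᵀ) *ᵥ (S *ᵥ y) = x ⬝ᵥ (N + Nᵀ) *ᵥ y := by
    intro x y
    rw [← polar_qN, ← polar_qN]
    unfold QuadraticMap.polar
    rw [← mulVec_add, h, h, h]
  ext i j
  have h0 := hp (Pi.single i 1) (Pi.single j 1)
  rw [mulVec_dot, mulVec_mulVec, mulVec_mulVec] at h0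
  simpa [Matrix.mul_assoc, single_one_dotProduct, mulVec_single_one] using h0

/-- nilpotent `3 × 3` matrices have zero cube -/
theorem cube_zero (R : Matrix (Fin 3) (Fin 3) F) (k : ℕ) (h : R ^ k = 0) : R ^ 3 = 0 := by
  have hn : IsNilpotent R := ⟨k, h⟩
  have h1 := Matrix.isNilpotent_charpoly_sub_pow_of_isNilpotent hn
  have h2 : R.charpoly = X ^ 3 := by
    have h0 := h1.eq_zero
    rw [sub_eq_zero] at h0
    simpa using h0
  have h3 := Matrix.aeval_self_charpoly R
  rw [h2] at h3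
  simpa using h3

/-- a square-zero `3 × 3` matrix has rank at most one -/
theorem rank_one (R : Matrix (Fin 3) (Fin 3) F) (h : R * R = 0) :
    ∃ w φ : Fin 3 → F, R = Matrix.vecMulVec w φ := by
  have hle : LinearMap.range (Matrix.toLin' R) ≤ LinearMap.ker (Matrix.toLin' R) := by
    rintro _ ⟨x, rfl⟩
    rw [LinearMap.mem_ker, Matrix.toLin'_apply, Matrix.toLin'_apply, mulVec_mulVec, h,
      zero_mulVec]
  have h1 := LinearMap.finrank_range_add_finrank_ker (Matrix.toLin' R)
  have h2 : Module.finrank F (Fin 3 → F) = 3 := by simp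
  have h3 := Submodule.finrank_mono hle
  have h4 : Module.finrank F (LinearMap.range (Matrix.toLin' R)) ≤ 1 := by omega
  obtain ⟨v₀, hv₀⟩ := finrank_le_one_iff.1 h4
  have hc : ∀ j : Fin 3, ∃ c : F, c • (v₀ : Fin 3 → F) = R *ᵥ Pi.single j 1 := by
    intro j
    obtain ⟨c, hc⟩ := hv₀ ⟨R *ᵥ Pi.single j 1, ⟨Pi.single j 1, Matrix.toLin'_apply _ _⟩⟩
    exact ⟨c, congrArg Subtype.val hc⟩
  choose φ hφ using hc
  refine ⟨v₀, φ, ?_⟩
  ext i j
  have h0 := congrFun (hφ j) i
  rw [Matrix.vecMulVec_apply]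
  simp only [Pi.smul_apply, smul_eq_mul, mulVec_single_one, Matrix.col_apply] at h0
  rw [← h0, mul_comm]

theorem main (hR1 : RankOne.{u}) : Cent3.{u} := by
  intro F _ p _ _ h2 N S U M hdet hS hU hSU hUp hU1 hSM hcop
  have hp := (Fact.out : p.Prime)
  have hp3 : 3 ≤ p := by
    have h2le := hp.two_le
    have hne : p ≠ 2 := by
      rintro rfl
      apply h2
      have := CharP.cast_eq_zero F 2
      simpa using this
    omega
  have hGs : (N + Nᵀ)ᵀ = N + Nᵀ := by rw [transpose_add, transpose_transpose, add_comm]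
  have hSG : Sᵀ * (N + Nᵀ) * S = N + Nᵀ := gram N S hS
  have hUG : Uᵀ * (N + Nᵀ) * U = N + Nᵀ := gram N U hU
  have hRp : (U - 1) ^ p = 0 := by
    rw [sub_pow_char_of_commute p (Commute.one_right U), hUp, one_pow, sub_self]
  have hR3 : (U - 1) ^ 3 = 0 := cube_zero _ p hRp
  have hRR : (U - 1) * (U - 1) ≠ 0 := by
    intro h
    obtain ⟨w, φ, hw⟩ := rank_one _ h
    exact hU1 (hR1 F (Fin 3) (N + Nᵀ) U w φ p h2 hGs hdet hUG hw hRp)
  obtain ⟨v, hv⟩ : ∃ v : Fin 3 → F, (U - 1) *ᵥ ((U - 1) *ᵥ v) ≠ 0 := by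
    by_contra hcon
    push Not at hcon
    apply hRR
    apply matrix_ext_mulVec
    intro x
    rw [← mulVec_mulVec, hcon, zero_mulVec]
  have hSR : S * (U - 1) = (U - 1) * S := by
    rw [mul_sub, sub_mul, hSU, mul_one, one_mul]
  generalize U - 1 = R at hRp hR3 hRR hv hSR
  have hR3v : ∀ x, R *ᵥ (R *ᵥ (R *ᵥ x)) = 0 := by
    intro x
    rw [mulVec_mulVec, mulVec_mulVec, ← pow_three', hR3, zero_mulVec]
  have hli : ∀ a b c : F, a • v + b • R *ᵥ v + c • R *ᵥ (R *ᵥ v) = 0 →
      a = 0 ∧ b = 0 ∧ c = 0 := by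
    intro a b c h
    have ha : a = 0 := by
      have h0 := congrArg (fun y => R *ᵥ (R *ᵥ y)) h
      simp only [mulVec_add, mulVec_smul, hR3v, mulVec_zero, smul_zero, add_zero] at h0
      rcases smul_eq_zero.1 h0 with h1 | h1
      · exact h1
      · exact absurd h1 hv
    subst ha
    have hb : b = 0 := by
      have h0 := congrArg (fun y => R *ᵥ y) h
      simp only [zero_smul, zero_add, mulVec_add, mulVec_smul, hR3v, smul_zero,
        add_zero, mulVec_zero] at h0
      rcases smul_eq_zero.1 h0 with h1 | h1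
      · exact h1
      · exact absurd h1 hv
    subst hb
    have hc : c = 0 := by
      simp only [zero_smul, zero_add] at h
      rcases smul_eq_zero.1 h with h1 | h1
      · exact h1
      · exact absurd h1 hv
    exact ⟨rfl, rfl, hc⟩
  have hLI : LinearIndependent F ![v, R *ᵥ v, R *ᵥ (R *ᵥ v)] := by
    rw [Fintype.linearIndependent_iff]
    intro g hg
    rw [Fin.sum_univ_three] at hg
    have h0 := hli (g 0) (g 1) (g 2) (by simpa using hg)
    intro i
    fin_cases i
    · exact h0.1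
    · exact h0.2.1
    · exact h0.2.2
  have hspan : ∀ y : Fin 3 → F, ∃ a b c : F,
      y = a • v + b • R *ᵥ v + c • R *ᵥ (R *ᵥ v) := by
    intro y
    let B := basisOfLinearIndependentOfCardEqFinrank hLI (by simp)
    have h0 := (B.sum_repr y).symm
    rw [Fin.sum_univ_three] at h0
    refine ⟨B.repr y 0, B.repr y 1, B.repr y 2, ?_⟩
    simpa [B, coe_basisOfLinearIndependentOfCardEqFinrank] using h0
  obtain ⟨a, b, c, habc⟩ := hspan (S *ᵥ v)
  -- `S = a + b R + c R²`
  have hS : S = a • (1 : Matrix (Fin 3) (Fin 3) F) + (b • R + c • (R * R)) := by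
    have hAR : (S - (a • (1 : Matrix (Fin 3) (Fin 3) F) + (b • R + c • (R * R)))) * R =
        R * (S - (a • (1 : Matrix (Fin 3) (Fin 3) F) + (b • R + c • (R * R)))) := by
      rw [sub_mul, mul_sub, hSR]
      congr 1
      simp only [add_mul, mul_add, smul_mul_assoc, mul_smul_comm, one_mul, mul_one,
        Matrix.mul_assoc]
    have hAv : (S - (a • (1 : Matrix (Fin 3) (Fin 3) F) + (b • R + c • (R * R)))) *ᵥ v = 0 := by
      rw [sub_mulVec, add_mulVec, add_mulVec, smul_mulVec, smul_mulVec, smul_mulVec,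
        one_mulVec, ← mulVec_mulVec, habc, ← add_assoc, sub_self]
    have hARv : ∀ x, (S - (a • (1 : Matrix (Fin 3) (Fin 3) F) + (b • R + c • (R * R)))) *ᵥ x = 0 →
        (S - (a • (1 : Matrix (Fin 3) (Fin 3) F) + (b • R + c • (R * R)))) *ᵥ (R *ᵥ x) = 0 := by
      intro x hx
      rw [mulVec_mulVec, hAR, ← mulVec_mulVec, hx, mulVec_zero]
    have hA0 : S - (a • (1 : Matrix (Fin 3) (Fin 3) F) + (b • R + c • (R * R))) = 0 := by
      apply matrix_ext_mulVec
      intro y
      obtain ⟨a', b', c', rfl⟩ := hspan y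
      rw [mulVec_add, mulVec_add, mulVec_smul, mulVec_smul, mulVec_smul, hAv, hARv v hAv,
        hARv _ (hARv v hAv), zero_mulVec]
      simp
    exact sub_eq_zero.1 hA0
  -- the nilpotent part
  have hNl3 : (b • R + c • (R * R)) ^ 3 = 0 := by
    have e : b • R + c • (R * R) = R * (b • (1 : Matrix (Fin 3) (Fin 3) F) + c • R) := by
      simp only [mul_add, mul_smul_comm, mul_one]
    have hc : Commute R (b • (1 : Matrix (Fin 3) (Fin 3) F) + c • R) :=
      Commute.add_right (Commute.smul_right (Commute.one_right R) b)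
        (Commute.smul_right (Commute.refl R) c)
    rw [e, hc.mul_pow, hR3, zero_mul]
  have hNlp : (b • R + c • (R * R)) ^ p = 0 := pow_eq_zero_of_le hp3 hNl3
  have hSp : S ^ p = (a ^ p) • (1 : Matrix (Fin 3) (Fin 3) F) := by
    have hc : Commute (a • (1 : Matrix (Fin 3) (Fin 3) F)) (b • R + c • (R * R)) :=
      Commute.smul_left (Commute.one_left _) a
    rw [hS, add_pow_char_of_commute p hc, hNlp, add_zero, _root_.smul_pow, one_pow]
  -- `S` is a scalar
  have hM0 : M ≠ 0 := by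
    rintro rfl
    rw [Nat.coprime_zero_left] at hcop
    exact hp.one_lt.ne' hcop
  obtain ⟨μ, hμ⟩ : ∃ μ : F, S = μ • (1 : Matrix (Fin 3) (Fin 3) F) := by
    rcases Nat.lt_or_ge 1 M with hM1 | hM1
    · obtain ⟨m, -, hm⟩ := Nat.exists_mul_mod_eq_one_of_coprime hcop.symm hM1
      refine ⟨(a ^ p) ^ m, ?_⟩
      have h1 : S ^ (p * m) = ((a ^ p) ^ m) • (1 : Matrix (Fin 3) (Fin 3) F) := by
        rw [pow_mul, hSp, _root_.smul_pow, one_pow]
      have h2 : S ^ (p * m) = S := by
        have e : p * m = M * (p * m / M) + 1 := by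
          have := Nat.div_add_mod (p * m) M
          omega
        rw [e, pow_succ, pow_mul, hSM, one_pow, one_mul]
      rw [← h2, h1]
    · have hM : M = 1 := by omega
      refine ⟨1, ?_⟩
      rw [one_smul, ← hSM, hM, pow_one]
  have hμ2 : μ * μ = 1 := by
    rw [hμ] at hSG
    have h0 : (μ * μ) • (N + Nᵀ) = N + Nᵀ := by
      have e : (μ • (1 : Matrix (Fin 3) (Fin 3) F))ᵀ * (N + Nᵀ) * (μ • (1 : Matrix (Fin 3) (Fin 3) F))
          = (μ * μ) • (N + Nᵀ) := by
        rw [transpose_smul, transpose_one, smul_mul_assoc, one_mul, mul_smul_comm, mul_one,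
          smul_smul]
      rw [← e]; exact hSG
    by_contra hne
    have h1 : (μ * μ - 1) • (N + Nᵀ) = 0 := by
      rw [sub_smul, one_smul, h0, sub_self]
    rcases smul_eq_zero.1 h1 with h3 | h3
    · exact hne (sub_eq_zero.1 h3)
    · apply hdet
      rw [h3]
      simp
  rcases mul_self_eq_one_iff.1 hμ2 with h | h
  · left; rw [hμ, h, one_smul]
  · right; rw [hμ, h, neg_smul, one_smul]

end Cfsg.Agent.Lib.Helper34.BCCENT3
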