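import Mathlib
import Cfsg.Agent.Lib.Helper88.CESStmt
import Cfsg.Agent.H85.Invariant2
import Cfsg.Agent.Lib.Helper87.FSSat

/-! Piece TRANS of S5127: transport of `E`-central subgroups of `C_S(T)` by a map of `F` defined
on `T X`. -/

set_option autoImplicit false

namespace Cfsg.Agent.Lib.Helper34.CETRANS

open Cfsg Cfsg.FusionSystem Cfsg.Agent.H85 Cfsg.Agent.Lib.Helper88.FCStmt
  Cfsg.Agent.Lib.Helper88.CESStmt

universe u

/-- a homomorphism on `A ⊔ B` mapping `A` and `B` into `K` maps everything into `K` -/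
theorem map_sup_mem {Ω : Type u} [Group Ω] {A B K : Subgroup Ω} (f : ↥(A ⊔ B) →* Ω)
    (hA : ∀ a : A, f (Subgroup.inclusion le_sup_left a) ∈ K)
    (hB : ∀ b : B, f (Subgroup.inclusion le_sup_right b) ∈ K) (z : ↥(A ⊔ B)) : f z ∈ K := by
  have h : (A ⊔ B) ≤ (K.comap f).map (A ⊔ B).subtype := by
    apply sup_le
    · intro a ha
      exact ⟨⟨a, (le_sup_left : A ≤ A ⊔ B) ha⟩, hA ⟨a, ha⟩, rfl⟩
    · intro b hb
      exact ⟨⟨b, (le_sup_right : B ≤ A ⊔ B) hb⟩, hB ⟨b, hb⟩, rfl⟩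
  obtain ⟨z', hz', hzz⟩ := h z.2
  have e : z' = z := Subtype.ext hzz
  rw [← e]
  exact hz'

theorem main : TransCentral.{u} := by
  intro Ω _ S _ p _ hS F hF T E hE X hX hXc β hβ X' hX'
  have hEF : E.IsSubsystemOf F := hE.1.2.2.1
  have hTcl : F.StronglyClosed T := hE.1.2.2.2.1
  have hTS : T ≤ S := hTcl.1
  have hSI : StrongInv E F := (invariant_iff_strongInv p hS F hF E hEF hTcl).1 hE.1.2.2
  have hfinT : Finite T := Cfsg.Agent.Lib.Helper87.FSSat.finite_of_le hTS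
  have hβT : β.comp (Subgroup.inclusion (le_sup_left : T ≤ T ⊔ X)) ∈ F.Hom T :=
    restrict_mem F hβ le_sup_left
  obtain ⟨βT, hβTdef⟩ : ∃ βT : T →* Ω,
      βT = β.comp (Subgroup.inclusion (le_sup_left : T ≤ T ⊔ X)) := ⟨_, rfl⟩
  rw [← hβTdef] at hβT
  have hβTapp : ∀ t : T, βT t = β (Subgroup.inclusion le_sup_left t) := by
    intro t; rw [hβTdef]; rfl
  have hβTT : ∀ t : T, βT t ∈ T := fun t => hTcl.2 T le_rfl βT hβT t
  have hβTinj : Function.Injective βT := F.injective_of_mem hβT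
  have hβTsurj : ∀ y ∈ T, ∃ t : T, βT t = y := by
    have hf : Function.Injective (fun t : T => (⟨βT t, hβTT t⟩ : T)) :=
      fun a b h => hβTinj (congrArg Subtype.val h)
    have hs := Finite.surjective_of_injective hf
    intro y hy
    obtain ⟨t, ht⟩ := hs ⟨y, hy⟩
    exact ⟨t, congrArg Subtype.val ht⟩
  have part1 : X' ≤ centralizerIn S T := by
    intro y hy
    obtain ⟨x, hxX, rfl⟩ := (hX' y).1 hy
    refine ⟨(F.le_of_mem hβ).2 x, ?_⟩
    show β x ∈ Subgroup.centralizer (T : Set Ω)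
    rw [Subgroup.mem_centralizer_iff]
    intro t ht
    obtain ⟨t₀, rfl⟩ := hβTsurj t ht
    rw [hβTapp, ← map_mul, ← map_mul]
    congr 1
    apply Subtype.ext
    show (t₀ : Ω) * (x : Ω) = (x : Ω) * (t₀ : Ω)
    exact (Subgroup.mem_centralizer_iff.1 (hX hxX).2) (t₀ : Ω) t₀.2
  refine ⟨part1, ?_⟩
  intro P φ hφ
  have hPT : P ≤ T := (E.le_of_mem hφ).1
  have hφT : ∀ x : P, φ x ∈ T := (E.le_of_mem hφ).2
  refine ⟨hEF P hφ, ?_, ?_, ?_⟩
  · intro y hy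
    refine ⟨hTS (hPT hy), ?_⟩
    show y ∈ Subgroup.centralizer (X' : Set Ω)
    rw [Subgroup.mem_centralizer_iff]
    intro x' hx'
    exact ((Subgroup.mem_centralizer_iff.1 (part1 hx').2) y (hPT hy)).symm
  · intro x
    refine ⟨hTS (hφT x), ?_⟩
    show φ x ∈ Subgroup.centralizer (X' : Set Ω)
    rw [Subgroup.mem_centralizer_iff]
    intro x' hx'
    exact ((Subgroup.mem_centralizer_iff.1 (part1 hx').2) (φ x) (hφT x)).symm
  · -- the inverse `δ` of `β|T`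
    obtain ⟨δ, hδ, hδx⟩ := inv_mem' F hβT (Q := T) (by
      intro y hy
      obtain ⟨t, ht⟩ := hβTsurj y hy
      exact ⟨t, ht⟩)
    have hδT : ∀ t : T, δ t ∈ T := fun t => hTcl.2 T le_rfl δ hδ t
    have hβδ : ∀ t : T, βT ⟨δ t, hδT t⟩ = t := by
      intro t
      obtain ⟨t₀, ht₀⟩ := hβTsurj t t.2
      have e : t = ⟨βT t₀, hβTT t₀⟩ := Subtype.ext ht₀.symm
      have h1 : δ t = t₀ := by rw [e]; exact hδx t₀ _
      have h2 : (⟨δ t, hδT t⟩ : T) = t₀ := Subtype.ext h1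
      rw [h2, ht₀]
    -- `χ = δ φ δ⁻¹` on `P₀ = δ(P)`
    obtain ⟨χ, hχ, hχx⟩ := hSI P T hPT le_rfl φ hφ hφT δ hδ
    have hP₀mem : ∀ x : P, δ (Subgroup.inclusion hPT x) ∈ (P.subgroupOf T).map δ :=
      fun x => ⟨Subgroup.inclusion hPT x, Subgroup.mem_subgroupOf.2 x.2, rfl⟩
    generalize hP₀ : (P.subgroupOf T).map δ = P₀ at χ hχ hχx hP₀mem
    obtain ⟨-, -, -, ψ₀, hψ₀, hψ₀P, hψ₀X⟩ := hXc P₀ hχ
    have hψ₀in : ∀ z : ↥(P₀ ⊔ X), ψ₀ z ∈ T ⊔ X := by
      apply map_sup_mem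
      · intro a
        rw [hψ₀P]
        exact (le_sup_left : T ≤ T ⊔ X) ((E.le_of_mem hχ).2 a)
      · intro b
        rw [hψ₀X]
        exact (le_sup_right : X ≤ T ⊔ X) b.2
    have hPX'range : P ⊔ X' ≤ β.range := by
      apply sup_le
      · intro y hy
        refine ⟨Subgroup.inclusion le_sup_left ⟨δ ⟨y, hPT hy⟩, hδT _⟩, ?_⟩
        rw [← hβTapp]
        exact hβδ ⟨y, hPT hy⟩
      · intro y hy
        obtain ⟨x, -, rfl⟩ := (hX' y).1 hy
        exact ⟨x, rfl⟩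
    obtain ⟨ε, hε, hεx⟩ := inv_mem' F hβ hPX'range
    have hεP : ∀ y : P, ε (Subgroup.inclusion le_sup_left y) =
        δ (Subgroup.inclusion hPT y) := by
      intro y
      have h1 : β (Subgroup.inclusion le_sup_left
          ⟨δ (Subgroup.inclusion hPT y), hδT _⟩) = (y : Ω) := by
        rw [← hβTapp]
        exact hβδ (Subgroup.inclusion hPT y)
      have hx : β (Subgroup.inclusion le_sup_left
          ⟨δ (Subgroup.inclusion hPT y), hδT _⟩) ∈ P ⊔ X' := by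
        rw [h1]
        exact (le_sup_left : P ≤ P ⊔ X') y.2
      have h2 := hεx _ hx
      have e : (Subgroup.inclusion le_sup_left y : ↥(P ⊔ X')) =
          ⟨β (Subgroup.inclusion le_sup_left ⟨δ (Subgroup.inclusion hPT y), hδT _⟩), hx⟩ :=
        Subtype.ext h1.symm
      rw [e, h2]
      rfl
    have hεX : ∀ (b : X') (x : ↥(T ⊔ X)), β x = b →
        ε (Subgroup.inclusion le_sup_right b) = x := by
      intro b x hxb
      have hx : β x ∈ P ⊔ X' := by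
        rw [hxb]
        exact (le_sup_right : X' ≤ P ⊔ X') b.2
      have e : (Subgroup.inclusion le_sup_right b : ↥(P ⊔ X')) = ⟨β x, hx⟩ :=
        Subtype.ext hxb.symm
      rw [e, hεx x hx]
    have hεin : ∀ z : ↥(P ⊔ X'), ε z ∈ P₀ ⊔ X := by
      apply map_sup_mem
      · intro a
        rw [hεP]
        exact (le_sup_left : P₀ ≤ P₀ ⊔ X) (hP₀mem a)
      · intro b
        obtain ⟨x, hxX, hxb⟩ := (hX' b).1 b.2
        rw [hεX b x hxb]
        exact (le_sup_right : X ≤ P₀ ⊔ X) hxX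
    have hψ : β.comp ((ψ₀.codRestrict (T ⊔ X) hψ₀in).comp (ε.codRestrict (P₀ ⊔ X) hεin)) ∈
        F.Hom (P ⊔ X') := by
      have h1 : ψ₀.comp (ε.codRestrict (P₀ ⊔ X) hεin) ∈ F.Hom (P ⊔ X') :=
        F.comp_mem hε hψ₀ hεin
      have h2 := F.comp_mem h1 hβ (fun z => hψ₀in _)
      exact hom_congr F h2 (fun z => rfl)
    refine ⟨_, hψ, ?_, ?_⟩
    · intro x
      show β ⟨ψ₀ ⟨ε (Subgroup.inclusion le_sup_left x), hεin _⟩, hψ₀in _⟩ = φ x
      have e1 : (⟨ε (Subgroup.inclusion le_sup_left x), hεin _⟩ : ↥(P₀ ⊔ X)) =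
          Subgroup.inclusion le_sup_left ⟨δ (Subgroup.inclusion hPT x), hP₀mem x⟩ :=
        Subtype.ext (hεP x)
      have e2 : ψ₀ (Subgroup.inclusion le_sup_left
          ⟨δ (Subgroup.inclusion hPT x), hP₀mem x⟩) = δ ⟨φ x, hφT x⟩ := by
        rw [hψ₀P]
        exact hχx x (hP₀mem x)
      have e3 : (⟨ψ₀ ⟨ε (Subgroup.inclusion le_sup_left x), hεin _⟩, hψ₀in _⟩ : ↥(T ⊔ X)) =
          Subgroup.inclusion le_sup_left ⟨δ ⟨φ x, hφT x⟩, hδT _⟩ := by
        apply Subtype.ext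
        show ψ₀ ⟨ε (Subgroup.inclusion le_sup_left x), hεin _⟩ = δ ⟨φ x, hφT x⟩
        rw [e1, e2]
      rw [e3, ← hβTapp]
      exact hβδ ⟨φ x, hφT x⟩
    · intro x'
      obtain ⟨x, hxX, hxb⟩ := (hX' x').1 x'.2
      show β ⟨ψ₀ ⟨ε (Subgroup.inclusion le_sup_right x'), hεin _⟩, hψ₀in _⟩ = x'
      have e1 : (⟨ε (Subgroup.inclusion le_sup_right x'), hεin _⟩ : ↥(P₀ ⊔ X)) =
          Subgroup.inclusion le_sup_right ⟨(x : Ω), hxX⟩ :=
        Subtype.ext (hεX x' x hxb)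
      have e3 : (⟨ψ₀ ⟨ε (Subgroup.inclusion le_sup_right x'), hεin _⟩, hψ₀in _⟩ : ↥(T ⊔ X)) =
          x := by
        apply Subtype.ext
        show ψ₀ ⟨ε (Subgroup.inclusion le_sup_right x'), hεin _⟩ = (x : Ω)
        rw [e1, hψ₀X]
      rw [e3, hxb]

end Cfsg.Agent.Lib.Helper34.CETRANS
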