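import Mathlib
import Cfsg.Agent.Lib.Helper88.CESStmt
import Cfsg.Agent.Lib.Helper87.FSSat
import Cfsg.Agent.Lib.Helper89.WNAUTX
import Cfsg.Agent.Lib.Helper34.CETRANS

/-! Piece MU of S5127: for `X` an `E`-central subgroup of `C_S(T)`, `R' = φ(X)` and
`C₁ ≤ C_T(R')`, a map `μ` of `F` on `R' C₁` that is the identity on `C₁` and maps `R'` into
`C_S(T)`. -/

set_option autoImplicit false

namespace Cfsg.Agent.Lib.Helper34.CEMU

open Cfsg Cfsg.FusionSystem Cfsg.Agent.H85 Cfsg.Agent.Lib.Helper88.FCStmt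
  Cfsg.Agent.Lib.Helper88.CESStmt Cfsg.Agent.Lib.Helper88.WNStmt

universe u

theorem main (hRecv : RecvCentral.{u}) (hTrans : TransCentral.{u}) : MuExists.{u} := by
  intro Ω _ S _ p _ hS F hF T E hE X hX hXc φ hφ C₁ hC₁
  have hEF : E.IsSubsystemOf F := hE.1.2.2.1
  have hTcl : F.StronglyClosed T := hE.1.2.2.2.1
  have hTS : T ≤ S := hTcl.1
  have hfrat := hE.1.2.2.2.2.2
  have hR'S : φ.range ≤ S := by
    rintro _ ⟨x, rfl⟩
    exact (F.le_of_mem hφ).2 x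
  obtain ⟨σ, hσ, hfa, hrec⟩ := Cfsg.Agent.Lib.Helper87.FSSat.exists_far F hF hR'S
  -- `ρ = σ ∘ φ`
  have hρ : σ.comp φ.rangeRestrict ∈ F.Hom X :=
    hom_congr F (F.comp_mem hφ hσ (fun x => ⟨x, rfl⟩)) (fun x => rfl)
  have hρrange : (σ.comp φ.rangeRestrict).range = σ.range := by
    ext y
    constructor
    · rintro ⟨x, rfl⟩
      exact ⟨φ.rangeRestrict x, rfl⟩
    · rintro ⟨⟨_, x, rfl⟩, rfl⟩
      exact ⟨x, rfl⟩
  have hrec' : F.IsReceptive (σ.comp φ.rangeRestrict).range := by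
    rw [hρrange]; exact hrec
  obtain ⟨hR''C0, hR''c0⟩ := hRecv p hS F hF E hE X hX hXc _ hρ hrec'
  rw [hρrange] at hR''C0 hR''c0
  obtain ⟨σh, hσh, hσhx⟩ := receptive_extend_sup F hrec hσ rfl
  have hC₁T : C₁ ≤ T := fun c hc => (hC₁ hc).1
  have hC₁S : C₁ ≤ centralizerIn S φ.range := fun c hc => ⟨hTS (hC₁ hc).1, (hC₁ hc).2⟩
  have hle : φ.range ⊔ C₁ ≤ φ.range ⊔ centralizerIn S φ.range := sup_le_sup_left hC₁S _
  have hC₁le : C₁ ≤ φ.range ⊔ centralizerIn S φ.range := hC₁S.trans le_sup_right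
  have hσ₁ : σh.comp (Subgroup.inclusion hC₁le) ∈ F.Hom C₁ := restrict_mem F hσh hC₁le
  obtain ⟨γ, hγ, e, he, hγe⟩ := hfrat C₁ hC₁T _ hσ₁
  have heT : ∀ x : C₁, e x ∈ T := (E.le_of_mem he).2
  obtain ⟨γh, hγh, hγhx⟩ := Cfsg.Agent.Lib.Helper89.WNAUTX.main p hS F hF T hTcl γ hγ
  have hTC₀S : T ⊔ centralizerIn S T ≤ S := sup_le hTS inf_le_left
  have hγi : (T ⊔ centralizerIn S T).subtype.comp (γh⁻¹).toMonoidHom ∈
      F.Hom (T ⊔ centralizerIn S T) :=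
    (mem_autGroup_iff F hTC₀S γh⁻¹).1 (Subgroup.inv_mem _ hγh)
  have hTR'' : T ⊔ σ.range ≤ T ⊔ centralizerIn S T := sup_le_sup_left hR''C0 _
  have hβ := restrict_mem F hγi hTR''
  obtain ⟨β, hβdef⟩ : ∃ β : ↥(T ⊔ σ.range) →* Ω,
      β = ((T ⊔ centralizerIn S T).subtype.comp (γh⁻¹).toMonoidHom).comp
        (Subgroup.inclusion hTR'') := ⟨_, rfl⟩
  rw [← hβdef] at hβ
  have hβapp : ∀ x : ↥(T ⊔ σ.range),
      β x = ((γh⁻¹ (Subgroup.inclusion hTR'' x) : ↥(T ⊔ centralizerIn S T)) : Ω) := by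
    intro x; rw [hβdef]; rfl
  obtain ⟨X₂, hX₂def⟩ : ∃ X₂ : Subgroup Ω,
      X₂ = (σ.range.subgroupOf (T ⊔ σ.range)).map β := ⟨_, rfl⟩
  have hX₂ : ∀ y, y ∈ X₂ ↔ ∃ x : ↥(T ⊔ σ.range), (x : Ω) ∈ σ.range ∧ β x = y := by
    intro y
    rw [hX₂def]
    constructor
    · rintro ⟨x, hx, rfl⟩
      exact ⟨x, Subgroup.mem_subgroupOf.1 hx, rfl⟩
    · rintro ⟨x, hx, rfl⟩
      exact ⟨x, Subgroup.mem_subgroupOf.2 hx, rfl⟩
  obtain ⟨hX₂C, hX₂c⟩ := hTrans p hS F hF E hE σ.range hR''C0 hR''c0 β hβ X₂ hX₂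
  obtain ⟨ei, hei, heix⟩ := E.inv_mem he
  obtain ⟨-, -, -, eh, heh, hehP, hehX⟩ := hX₂c e.range hei
  have hτ : σh.comp (Subgroup.inclusion hle) ∈ F.Hom (φ.range ⊔ C₁) := restrict_mem F hσh hle
  have hσR : ∀ r : φ.range,
      σh (Subgroup.inclusion hle (Subgroup.inclusion le_sup_left r)) = σ r := fun r => hσhx r
  have hσC : ∀ c : C₁, σh (Subgroup.inclusion hle (Subgroup.inclusion le_sup_right c)) =
      ((γ ⟨e c, heT c⟩ : T) : Ω) := fun c => hγe c (heT c)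
  have hτin : ∀ z : ↥(φ.range ⊔ C₁),
      (σh.comp (Subgroup.inclusion hle)) z ∈ T ⊔ centralizerIn S T := by
    apply CETRANS.map_sup_mem
    · intro a
      show σh (Subgroup.inclusion hle (Subgroup.inclusion le_sup_left a)) ∈ _
      rw [hσR]
      exact (le_sup_right : centralizerIn S T ≤ T ⊔ centralizerIn S T) (hR''C0 ⟨a, rfl⟩)
    · intro c
      show σh (Subgroup.inclusion hle (Subgroup.inclusion le_sup_right c)) ∈ _
      rw [hσC]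
      exact (le_sup_left : T ≤ T ⊔ centralizerIn S T) (γ ⟨e c, heT c⟩).2
  have hκ := F.comp_mem hτ hγi hτin
  obtain ⟨κ, hκdef⟩ : ∃ κ : ↥(φ.range ⊔ C₁) →* Ω,
      κ = ((T ⊔ centralizerIn S T).subtype.comp (γh⁻¹).toMonoidHom).comp
        ((σh.comp (Subgroup.inclusion hle)).codRestrict _ hτin) := ⟨_, rfl⟩
  rw [← hκdef] at hκ
  have hκapp : ∀ z, κ z = ((γh⁻¹ ⟨σh (Subgroup.inclusion hle z), hτin z⟩ :
      ↥(T ⊔ centralizerIn S T)) : Ω) := by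
    intro z; rw [hκdef]; rfl
  have hκC : ∀ c : C₁, κ (Subgroup.inclusion le_sup_right c) = e c := by
    intro c
    rw [hκapp]
    have e1 : (⟨σh (Subgroup.inclusion hle (Subgroup.inclusion le_sup_right c)), hτin _⟩ :
        ↥(T ⊔ centralizerIn S T)) = γh (Subgroup.inclusion le_sup_left ⟨e c, heT c⟩) := by
      apply Subtype.ext
      rw [hγhx]
      exact hσC c
    rw [e1, MulAut.inv_apply_self]
    rfl
  have hκR : ∀ r : φ.range, κ (Subgroup.inclusion le_sup_left r) =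
      β ⟨σ r, (le_sup_right : σ.range ≤ T ⊔ σ.range) ⟨r, rfl⟩⟩ := by
    intro r
    rw [hκapp, hβapp]
    have e1 : (⟨σh (Subgroup.inclusion hle (Subgroup.inclusion le_sup_left r)), hτin _⟩ :
        ↥(T ⊔ centralizerIn S T)) =
        Subgroup.inclusion hTR'' ⟨σ r, (le_sup_right : σ.range ≤ T ⊔ σ.range) ⟨r, rfl⟩⟩ :=
      Subtype.ext (hσR r)
    rw [e1]
  have hκRmem : ∀ r : φ.range, κ (Subgroup.inclusion le_sup_left r) ∈ X₂ := by
    intro r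
    rw [hκR]
    exact (hX₂ _).2 ⟨⟨σ r, (le_sup_right : σ.range ≤ T ⊔ σ.range) ⟨r, rfl⟩⟩, ⟨r, rfl⟩, rfl⟩
  have hκin : ∀ z, κ z ∈ e.range ⊔ X₂ := by
    apply CETRANS.map_sup_mem
    · intro a
      exact (le_sup_right : X₂ ≤ e.range ⊔ X₂) (hκRmem a)
    · intro c
      rw [hκC]
      exact (le_sup_left : e.range ≤ e.range ⊔ X₂) ⟨c, rfl⟩
  have hμ : eh.comp (κ.codRestrict (e.range ⊔ X₂) hκin) ∈ F.Hom (φ.range ⊔ C₁) :=
    F.comp_mem hκ heh hκin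
  refine ⟨_, hμ, ?_, ?_⟩
  · intro c
    show eh ⟨κ (Subgroup.inclusion le_sup_right c), hκin _⟩ = c
    have e1 : (⟨κ (Subgroup.inclusion le_sup_right c), hκin _⟩ : ↥(e.range ⊔ X₂)) =
        Subgroup.inclusion le_sup_left (⟨e c, ⟨c, rfl⟩⟩ : e.range) := Subtype.ext (hκC c)
    rw [e1, hehP]
    exact heix c
  · intro r
    show eh ⟨κ (Subgroup.inclusion le_sup_left r), hκin _⟩ ∈ centralizerIn S T
    have e1 : (⟨κ (Subgroup.inclusion le_sup_left r), hκin _⟩ : ↥(e.range ⊔ X₂)) =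
        Subgroup.inclusion le_sup_right ⟨κ (Subgroup.inclusion le_sup_left r), hκRmem r⟩ := rfl
    rw [e1, hehX]
    exact hX₂C (hκRmem r)

end Cfsg.Agent.Lib.Helper34.CEMU
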