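import Mathlib
import Cfsg.Agent.Lib.Helper68.FixStmt

/-!
# S4414 piece EIG (call of helper68): common eigenvector with nontrivial character

`N = ∑_{v ∈ V} ρ v`; `W = ker N` is `V`-invariant and nonzero (it contains `ρ v₀ m - m`).  A
finite commuting family of endomorphisms has a common eigenvector in every nonzero invariant
subspace (induction on the family).  A common eigenvector `w ∈ W` with trivial character would
give `0 = N w = |V| • w = w` (`|V|` odd, characteristic 2).
-/

set_option autoImplicit false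

universe u v

namespace Cfsg.Agent.Lib.Helper34.FixEIG

open Cfsg.Agent.Lib.Helper68.FixStmt

/-- common eigenvector of a finite commuting family inside a nonzero invariant subspace -/
theorem common_eig {k : Type} [Field k] [IsAlgClosed k] {S : Type u} [Group S]
    {M : Type v} [AddCommGroup M] [Module k M] [FiniteDimensional k M]
    (ρ : Representation k S M) (V : Subgroup S)
    (hcomm : ∀ x ∈ V, ∀ y ∈ V, x * y = y * x) (t : Finset S) :
    (∀ v ∈ t, v ∈ V) → ∀ W : Submodule k M, W ≠ ⊥ →
      (∀ v ∈ V, ∀ x ∈ W, ρ v x ∈ W) →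
      ∃ w ∈ W, w ≠ 0 ∧ ∀ v ∈ t, ∃ c : k, ρ v w = c • w := by
  classical
  induction t using Finset.induction_on with
  | empty =>
    intro _ W hW _
    obtain ⟨w, hw, hw0⟩ := (Submodule.ne_bot_iff W).1 hW
    exact ⟨w, hw, hw0, by simp⟩
  | insert a t ha ih =>
    intro hat W hW hinv
    have haV : a ∈ V := hat a (Finset.mem_insert_self a t)
    have : Nontrivial W := Submodule.nontrivial_iff_ne_bot.2 hW
    let f : Module.End k W := (ρ a).restrict (hinv a haV)
    obtain ⟨μ, hμ⟩ := Module.End.exists_eigenvalue f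
    obtain ⟨x, hx⟩ := hμ.exists_hasEigenvector
    have hx1 : ρ a x.1 = μ • x.1 := by
      have h2 := congrArg Subtype.val hx.apply_eq_smul
      simpa [f] using h2
    have hx0 : x.1 ≠ 0 := fun h => hx.2 (Subtype.ext h)
    let W' : Submodule k M := W ⊓ Module.End.eigenspace (ρ a) μ
    have hW' : W' ≠ ⊥ := by
      intro h
      have hmem : x.1 ∈ W' := ⟨x.2, Module.End.mem_eigenspace_iff.2 hx1⟩
      rw [h] at hmem
      exact hx0 ((Submodule.mem_bot k).1 hmem)
    have hinv' : ∀ v ∈ V, ∀ y ∈ W', ρ v y ∈ W' := by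
      intro v hv y hy
      refine ⟨hinv v hv y hy.1, ?_⟩
      apply Module.End.mem_eigenspace_iff.2
      have h1 : ρ a y = μ • y := Module.End.mem_eigenspace_iff.1 hy.2
      have h2 : ρ a (ρ v y) = ρ v (ρ a y) := by
        rw [← Module.End.mul_apply, ← Module.End.mul_apply, ← map_mul, ← map_mul,
          hcomm a haV v hv]
      rw [h2, h1, map_smul]
    obtain ⟨w, hw, hw0, hwt⟩ :=
      ih (fun v hv => hat v (Finset.mem_insert_of_mem hv)) W' hW' hinv'
    refine ⟨w, hw.1, hw0, ?_⟩
    intro v hv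
    rcases Finset.mem_insert.1 hv with rfl | hv
    · exact ⟨μ, Module.End.mem_eigenspace_iff.1 hw.2⟩
    · exact hwt v hv

theorem main : EIG.{u, v} := by
  intro k _ _ _ S _ _ M _ _ _ ρ V hcomm hodd ⟨v0, hv0, hne⟩
  classical
  have : Fintype S := Fintype.ofFinite S
  let s : Finset S := Finset.univ.filter (· ∈ V)
  have hs : ∀ v, v ∈ s ↔ v ∈ V := fun v => by simp [s]
  let N : Module.End k M := ∑ v ∈ s, ρ v
  have hNρ : ∀ v ∈ V, ∀ m, N (ρ v m) = N m := by
    intro v hv m
    simp only [N, LinearMap.sum_apply]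
    refine Finset.sum_equiv (Equiv.mulRight v) ?_ ?_
    · intro u
      simp only [hs, Equiv.coe_mulRight]
      exact (Subgroup.mul_mem_cancel_right V hv).symm
    · intro u _
      simp only [Equiv.coe_mulRight, map_mul, Module.End.mul_apply]
  let W : Submodule k M := LinearMap.ker N
  have hWinv : ∀ v ∈ V, ∀ x ∈ W, ρ v x ∈ W := by
    intro v hv x hx
    have hx' : N x = 0 := LinearMap.mem_ker.1 hx
    exact LinearMap.mem_ker.2 (by rw [hNρ v hv, hx'])
  have hWne : W ≠ ⊥ := by
    have hex : ∃ m, ρ v0 m ≠ m := by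
      by_contra hcon
      push Not at hcon
      exact hne (LinearMap.ext fun m => (hcon m).trans (Module.End.one_apply m).symm)
    obtain ⟨m, hm⟩ := hex
    intro hbot
    have hmem : ρ v0 m - m ∈ W :=
      LinearMap.mem_ker.2 (by rw [map_sub, hNρ v0 hv0, sub_self])
    rw [hbot, Submodule.mem_bot, sub_eq_zero] at hmem
    exact hm hmem
  obtain ⟨w, hwW, hw0, hw⟩ := common_eig ρ V hcomm s (fun v hv => (hs v).1 hv) W hWne hWinv
  have hw' : ∀ v, v ∈ V → ∃ c : k, ρ v w = c • w := fun v hv => hw v ((hs v).2 hv)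
  choose! lam hlam using hw'
  refine ⟨lam, w, hw0, hlam, ?_⟩
  by_contra hcon
  push Not at hcon
  have hNw : N w = (s.card : k) • w := by
    simp only [N, LinearMap.sum_apply]
    rw [Finset.sum_congr rfl (fun v hv => by
      rw [hlam v ((hs v).1 hv), hcon v ((hs v).1 hv), one_smul] : ∀ v ∈ s, ρ v w = w)]
    rw [Finset.sum_const, Nat.cast_smul_eq_nsmul]
  have hcard : s.card = Nat.card V := by
    rw [Nat.card_eq_fintype_card, Fintype.card_subtype]
  have h1 : (s.card : k) = 1 := by
    rw [hcard]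
    obtain ⟨m, hm⟩ := hodd
    rw [hm]
    push_cast
    rw [CharTwo.two_eq_zero]
    simp
  rw [LinearMap.mem_ker.1 hwW, h1, one_smul] at hNw
  exact hw0 hNw.symm

end Cfsg.Agent.Lib.Helper34.FixEIG
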