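import Mathlib
import Cfsg.Prelude.Def_FusionSystem
import Cfsg.Agent.Lib.Helper88.FSBase

/-!
# Control of transfer by a characteristic functor: basic notions

`Wsub W T` is `W(T)` inside the ambient group, `Stab 𝔇 φ` says that all quotients `x⁻¹ φ(x)` lie in
`𝔇`, and `focN F U` is the subgroup generated by the quotients `x⁻¹ φ(x)` of the maps of the
normalizer system of `U` in `F` (no system needs to be chosen).
-/

set_option autoImplicit false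
open Cfsg Cfsg.FusionSystem

namespace Cfsg.Agent.Lib.Helper34.FocBase

open Cfsg.Agent.Lib.Helper88.FSBase

universe u

/-- `W(T)` as a subgroup of the ambient group. -/
def Wsub (W : ∀ (Q : Type u) [Group Q], Subgroup Q) {Ω : Type u} [Group Ω] (T : Subgroup Ω) :
    Subgroup Ω :=
  (W ↥T).map T.subtype

section general

variable {Ω : Type*} [Group Ω] {S : Subgroup Ω}

/-- All quotients `x⁻¹ φ(x)` of the homomorphism `φ` lie in `𝔇`. -/
def Stab (𝔇 : Subgroup Ω) {P : Subgroup Ω} (φ : P →* Ω) : Prop :=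
  ∀ x : P, (x : Ω)⁻¹ * φ x ∈ 𝔇

/-- The subgroup generated by the quotients `x⁻¹ φ(x)` of the maps of `N_F(U)`. -/
def focN (F : FusionSystem S) (U : Subgroup Ω) : Subgroup Ω :=
  Subgroup.closure {y : Ω | ∃ (P : Subgroup Ω) (φ : P →* Ω) (x : P),
    φ ∈ F.normalizerHom U P ∧ y = (x : Ω)⁻¹ * φ x}

theorem Stab.mono {𝔇 𝔇' : Subgroup Ω} (h : 𝔇 ≤ 𝔇') {P : Subgroup Ω} {φ : P →* Ω}
    (hφ : Stab 𝔇 φ) : Stab 𝔇' φ := fun x => h (hφ x)

theorem Stab.restrict {𝔇 : Subgroup Ω} {P R : Subgroup Ω} {φ : P →* Ω} (hφ : Stab 𝔇 φ)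
    (h : R ≤ P) : Stab 𝔇 (φ.comp (Subgroup.inclusion h)) := fun x => hφ (Subgroup.inclusion h x)

theorem Stab.comp {𝔇 : Subgroup Ω} {P Q : Subgroup Ω} {φ : P →* Ω} {ψ : Q →* Ω}
    (hφ : Stab 𝔇 φ) (hψ : Stab 𝔇 ψ) (h : ∀ x, φ x ∈ Q) :
    Stab 𝔇 (ψ.comp (φ.codRestrict Q h)) := by
  intro x
  have h1 := hφ x
  have h2 := hψ ⟨φ x, h x⟩
  have e : (x : Ω)⁻¹ * (ψ.comp (φ.codRestrict Q h)) x =
      ((x : Ω)⁻¹ * φ x) * ((φ x)⁻¹ * ψ ⟨φ x, h x⟩) := by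
    show (x : Ω)⁻¹ * ψ ⟨φ x, h x⟩ = _
    group
  rw [e]
  exact 𝔇.mul_mem h1 h2

/-- Element form of stability of a composite. -/
theorem Stab.of_eq {𝔇 : Subgroup Ω} {P Q : Subgroup Ω} {φ : P →* Ω} {ψ : Q →* Ω}
    {χ : P →* Ω} (hφ : Stab 𝔇 φ) (hψ : Stab 𝔇 ψ) (h : ∀ x, φ x ∈ Q)
    (hχ : ∀ x : P, χ x = ψ ⟨φ x, h x⟩) : Stab 𝔇 χ := by
  intro x
  have h1 := hφ x
  have h2 := hψ ⟨φ x, h x⟩
  have e : (x : Ω)⁻¹ * χ x = ((x : Ω)⁻¹ * φ x) * ((φ x)⁻¹ * ψ ⟨φ x, h x⟩) := by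
    rw [hχ x]
    group
  rw [e]
  exact 𝔇.mul_mem h1 h2

/-- Stability of an inverse map. -/
theorem Stab.inv {𝔇 : Subgroup Ω} {P Q : Subgroup Ω} {φ : P →* Ω} {ψ : Q →* Ω}
    (hφ : Stab 𝔇 φ) (hsurj : ∀ y : Q, ∃ x : P, φ x = y)
    (hψ : ∀ (x : P) (hx : φ x ∈ Q), ψ ⟨φ x, hx⟩ = (x : Ω)) : Stab 𝔇 ψ := by
  intro y
  obtain ⟨x, hx⟩ := hsurj y
  have hxQ : φ x ∈ Q := by rw [hx]; exact y.2
  have e : y = ⟨φ x, hxQ⟩ := Subtype.ext hx.symm
  have h1 := 𝔇.inv_mem (hφ x)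
  have e2 : (y : Ω)⁻¹ * ψ y = ((x : Ω)⁻¹ * φ x)⁻¹ := by
    rw [e, hψ x hxQ]
    group
  rw [e2]
  exact h1

theorem mem_focN (F : FusionSystem S) {U P : Subgroup Ω} {φ : P →* Ω}
    (hφ : φ ∈ F.normalizerHom U P) : Stab (focN F U) φ :=
  fun x => Subgroup.subset_closure ⟨P, φ, x, hφ, rfl⟩

theorem focN_le_iff (F : FusionSystem S) (U 𝔇 : Subgroup Ω) :
    focN F U ≤ 𝔇 ↔ ∀ (P : Subgroup Ω) (φ : P →* Ω), φ ∈ F.normalizerHom U P → Stab 𝔇 φ := by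
  constructor
  · intro h P φ hφ
    exact (mem_focN F hφ).mono h
  · intro h
    rw [focN, Subgroup.closure_le]
    rintro y ⟨P, φ, x, hφ, rfl⟩
    exact h P φ hφ x

theorem normalizerHom_mono {E F : FusionSystem S} (h : ∀ P : Subgroup Ω, E.Hom P ⊆ F.Hom P)
    (U P : Subgroup Ω) : E.normalizerHom U P ⊆ F.normalizerHom U P := by
  rintro φ ⟨h1, h2, h3, ψ, h4, h5, h6⟩
  exact ⟨h P h1, h2, h3, ψ, h _ h4, h5, h6⟩

theorem focN_mono {E F : FusionSystem S} (h : ∀ P : Subgroup Ω, E.Hom P ⊆ F.Hom P)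
    (U : Subgroup Ω) : focN E U ≤ focN F U := by
  rw [focN_le_iff]
  intro P φ hφ
  exact mem_focN F (normalizerHom_mono h U P hφ)

theorem focal_le_iff (F : FusionSystem S) (𝔇 : Subgroup Ω) :
    F.focalSubgroup ≤ 𝔇 ↔ ∀ (P : Subgroup Ω) (φ : P →* Ω), φ ∈ F.Hom P → Stab 𝔇 φ := by
  constructor
  · intro h P φ hφ x
    exact h (Subgroup.subset_closure ⟨P, φ, x, hφ, rfl⟩)
  · intro h
    rw [FusionSystem.focalSubgroup, Subgroup.closure_le]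
    rintro y ⟨P, φ, x, hφ, rfl⟩
    exact h P φ hφ x

theorem focN_le_focal (F : FusionSystem S) (U : Subgroup Ω) : focN F U ≤ F.focalSubgroup := by
  rw [focN_le_iff]
  intro P φ hφ x
  exact Subgroup.subset_closure ⟨P, φ, x, hφ.1, rfl⟩

theorem focal_le (F : FusionSystem S) : F.focalSubgroup ≤ S := by
  rw [FusionSystem.focalSubgroup, Subgroup.closure_le]
  rintro y ⟨P, φ, x, hφ, rfl⟩
  exact S.mul_mem (S.inv_mem (dom_le F hφ x.2)) (val_mem F hφ x)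

/-- A map of `F` whose source contains `U`, lies in `N_S(U)`, and which carries `U` into `U` is a
map of the normalizer system of `U`. -/
theorem normalizerHom_of_le (F : FusionSystem S) {U P : Subgroup Ω} [Finite U] {φ : P →* Ω}
    (hφ : φ ∈ F.Hom P) (hUP : U ≤ P) (hPN : P ≤ normalizerIn S U)
    (hU : ∀ x : P, (x : Ω) ∈ U → φ x ∈ U) : φ ∈ F.normalizerHom U P := by
  have hinj := F.injective_of_mem hφ
  -- surjectivity on `U`
  have hsurj : ∀ u ∈ U, ∃ x : P, (x : Ω) ∈ U ∧ φ x = u := by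
    let f : U → U := fun u => ⟨φ ⟨u, hUP u.2⟩, hU ⟨u, hUP u.2⟩ u.2⟩
    have hf : Function.Injective f := by
      intro a b hab
      have h1 : φ ⟨a, hUP a.2⟩ = φ ⟨b, hUP b.2⟩ := congrArg Subtype.val hab
      have h2 := hinj h1
      have h3 : (a : Ω) = b := congrArg (fun z : P => (z : Ω)) h2
      exact Subtype.ext h3
    have hs := Finite.surjective_of_injective hf
    intro u hu
    obtain ⟨a, ha⟩ := hs ⟨u, hu⟩
    exact ⟨⟨a, hUP a.2⟩, a.2, congrArg Subtype.val ha⟩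
  have hPS : P ≤ S := dom_le F hφ
  have hval : ∀ x : P, φ x ∈ normalizerIn S U := by
    intro x
    refine ⟨val_mem F hφ x, ?_⟩
    show φ x ∈ Subgroup.normalizer (U : Set Ω)
    have key : ∀ y : P, ∀ u ∈ U, φ y * u * (φ y)⁻¹ ∈ U := by
      intro y u hu
      obtain ⟨z, hzU, hz⟩ := hsurj u hu
      have h1 : (y : Ω) * z * (y : Ω)⁻¹ ∈ U :=
        ((Subgroup.mem_normalizer_iff.mp (hPN y.2).2) z).mp hzU
      have h2 := hU (y * z * y⁻¹) h1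
      rw [map_mul, map_mul, map_inv, hz] at h2
      exact h2
    rw [Subgroup.mem_normalizer_iff]
    intro u
    constructor
    · exact key x u
    · intro hu
      have h1 := key x⁻¹ _ hu
      rw [map_inv] at h1
      have e : (φ x)⁻¹ * (φ x * u * (φ x)⁻¹) * (φ x)⁻¹⁻¹ = u := by group
      rwa [e] at h1
  have hsup : P = P ⊔ U := (sup_eq_left.mpr hUP).symm
  obtain ⟨ψ, hψ, hψx⟩ := transport_mem F hsup hφ
  refine ⟨hφ, hPN, hval, ψ, hψ, fun x => hψx x x.2 _, ?_⟩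
  apply le_antisymm
  · rintro _ ⟨y, hy, rfl⟩
    have hyP : (y : Ω) ∈ P := (sup_le le_rfl hUP : P ⊔ U ≤ P) y.2
    have h1 := hψx y hyP y.2
    show ψ y ∈ U
    have e : (⟨(y : Ω), y.2⟩ : ↥(P ⊔ U)) = y := rfl
    rw [e] at h1
    rw [h1]
    exact hU ⟨y, hyP⟩ (Subgroup.mem_subgroupOf.mp hy)
  · intro u hu
    obtain ⟨z, hzU, hz⟩ := hsurj u hu
    have hz' : (z : Ω) ∈ P ⊔ U := (le_sup_left : P ≤ P ⊔ U) z.2
    refine ⟨⟨z, hz'⟩, Subgroup.mem_subgroupOf.mpr hzU, ?_⟩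
    show ψ ⟨z, hz'⟩ = u
    rw [hψx z z.2 hz', ← hz]

/-- Stability of a map of the normalizer system follows from that of its extension. -/
theorem stab_of_normalizerHom_ext {𝔇 : Subgroup Ω} {U P : Subgroup Ω} {φ : P →* Ω}
    {ψ : ↥(P ⊔ U) →* Ω} (hψφ : ∀ x : P, ψ (Subgroup.inclusion le_sup_left x) = φ x)
    (hψ : Stab 𝔇 ψ) : Stab 𝔇 φ := by
  intro x
  have h := hψ (Subgroup.inclusion le_sup_left x)
  rwa [hψφ x] at h

end general

end Cfsg.Agent.Lib.Helper34.FocBase
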