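import Mathlib
import Cfsg.Prelude.Def_FusionSystem
import Cfsg.Agent.Lib.Helper88.FSBase
import Cfsg.Agent.Lib.Helper34.FocBase

/-!
# Functoriality of `Wsub`

For an isomorphism-invariant functor `W` on `p`-groups: `Wsub W` of the range of an injective
homomorphism is the image of `W`; normalizers of `T` normalize `Wsub W T`; maps of a fusion system
with source `S` and `S`-conjugations are maps of the normalizer system of `Wsub W S`.
-/

set_option autoImplicit false
open Cfsg Cfsg.FusionSystem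

namespace Cfsg.Agent.Lib.Helper34.FocW

open Cfsg.Agent.Lib.Helper88.FSBase Cfsg.Agent.Lib.Helper34.FocBase

universe u

variable {p : ℕ} (W : ∀ (Q : Type u) [Group Q], Subgroup Q)

theorem Wsub_le {Γ : Type u} [Group Γ] (T : Subgroup Γ) : Wsub W T ≤ T :=
  Subgroup.map_subtype_le _

theorem mem_Wsub {Γ : Type u} [Group Γ] {T : Subgroup Γ} (x : T) :
    (x : Γ) ∈ Wsub W T ↔ x ∈ W ↥T := by
  constructor
  · rintro ⟨y, hy, hyx⟩
    have e : y = x := Subtype.ext hyx
    rwa [← e]
  · intro hx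
    exact ⟨x, hx, rfl⟩

theorem Wsub_range
    (hW2 : ∀ (Q R : Type u) [Group Q] [Group R] [Finite Q], IsPGroup p Q →
      ∀ φ : Q ≃* R, (W Q).map φ.toMonoidHom = W R)
    {Γ Γ' : Type u} [Group Γ] [Group Γ'] {T : Subgroup Γ} [Finite T] (hT : IsPGroup p T)
    (f : T →* Γ') (hf : Function.Injective f) : Wsub W f.range = (W ↥T).map f := by
  have h := hW2 ↥T ↥f.range hT (MonoidHom.ofInjective hf)
  rw [Wsub, ← h, Subgroup.map_map]
  rfl

theorem Wsub_ne_bot
    (hW1 : ∀ (Q : Type u) [Group Q] [Finite Q], IsPGroup p Q → Nontrivial Q → W Q ≠ ⊥)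
    {Γ : Type u} [Group Γ] {T : Subgroup Γ} [Finite T] (hT : IsPGroup p T) (hne : T ≠ ⊥) :
    Wsub W T ≠ ⊥ := by
  have hnt : Nontrivial T := (Subgroup.nontrivial_iff_ne_bot T).mpr hne
  have h := hW1 ↥T hT hnt
  intro h0
  apply h
  rw [Wsub] at h0
  exact (Subgroup.map_eq_bot_iff_of_injective _ T.subtype_injective).mp h0

/-- An element of `Γ` normalizing `T` normalizes `Wsub W T`. -/
theorem normalizer_le_normalizer_Wsub
    (hW2 : ∀ (Q R : Type u) [Group Q] [Group R] [Finite Q], IsPGroup p Q →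
      ∀ φ : Q ≃* R, (W Q).map φ.toMonoidHom = W R)
    {Γ : Type u} [Group Γ] {T : Subgroup Γ} [Finite T] (hT : IsPGroup p T) :
    Subgroup.normalizer (T : Set Γ) ≤ Subgroup.normalizer (Wsub W T : Set Γ) := by
  intro g hg
  have hgT : ∀ x : T, g * (x : Γ) * g⁻¹ ∈ T := fun x =>
    ((Subgroup.mem_normalizer_iff.mp hg) x).mp x.2
  let f : T →* Γ := (MulAut.conj g).toMonoidHom.comp T.subtype
  have hf : Function.Injective f := by
    intro a b hab
    have h1 : g * (a : Γ) * g⁻¹ = g * (b : Γ) * g⁻¹ := hab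
    have h2 : (a : Γ) = b := by
      have := congrArg (fun z => g⁻¹ * z * g) h1
      simpa [mul_assoc] using this
    exact Subtype.ext h2
  have hr : f.range = T := by
    apply le_antisymm
    · rintro _ ⟨x, rfl⟩
      exact hgT x
    · intro y hy
      have h1 : g⁻¹ * y * g ∈ T := by
        have := ((Subgroup.mem_normalizer_iff.mp (Subgroup.inv_mem _ hg)) y).mp hy
        rwa [inv_inv] at this
      refine ⟨⟨g⁻¹ * y * g, h1⟩, ?_⟩
      show g * (g⁻¹ * y * g) * g⁻¹ = y
      group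
  have key := Wsub_range W hW2 hT f hf
  rw [hr] at key
  -- `Wsub W T` is stable under conjugation by `g`
  have hc : ∀ w ∈ Wsub W T, g * w * g⁻¹ ∈ Wsub W T := by
    intro w hw
    obtain ⟨x, hx, rfl⟩ := hw
    rw [key]
    exact ⟨x, hx, rfl⟩
  have hc' : ∀ w ∈ Wsub W T, g⁻¹ * w * g ∈ Wsub W T := by
    intro w hw
    rw [key] at hw
    obtain ⟨x, hx, rfl⟩ := hw
    have e : g⁻¹ * f x * g = (x : Γ) := by
      show g⁻¹ * (g * (x : Γ) * g⁻¹) * g = x
      group
    rw [e]
    exact ⟨x, hx, rfl⟩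
  rw [Subgroup.mem_normalizer_iff]
  intro w
  constructor
  · exact hc w
  · intro hw
    have h1 := hc' _ hw
    have e : g⁻¹ * (g * w * g⁻¹) * g = w := by group
    rwa [e] at h1

section fusion

variable {Ω : Type u} [Group Ω] {S : Subgroup Ω}

/-- A map of `F` carries `Wsub W` of its source onto `Wsub W` of its range. -/
theorem map_mem_Wsub
    (hW2 : ∀ (Q R : Type u) [Group Q] [Group R] [Finite Q], IsPGroup p Q →
      ∀ φ : Q ≃* R, (W Q).map φ.toMonoidHom = W R)
    [Finite S] (hS : IsPGroup p S) (F : FusionSystem S) {T : Subgroup Ω} {θ : T →* Ω}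
    (hθ : θ ∈ F.Hom T) (x : T) : (x : Ω) ∈ Wsub W T ↔ θ x ∈ Wsub W θ.range := by
  have hTS : T ≤ S := dom_le F hθ
  have : Finite T := Finite.of_injective (Subgroup.inclusion hTS) (Subgroup.inclusion_injective hTS)
  have hT : IsPGroup p T := hS.to_le hTS
  have hinj := F.injective_of_mem hθ
  rw [Wsub_range W hW2 hT θ hinj, mem_Wsub]
  exact (Subgroup.mem_map_iff_mem hinj).symm

/-- A map of `F` with source `S` is a map of the normalizer system of `Wsub W S`. -/
theorem normalizerHom_of_source_top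
    (hW2 : ∀ (Q R : Type u) [Group Q] [Group R] [Finite Q], IsPGroup p Q →
      ∀ φ : Q ≃* R, (W Q).map φ.toMonoidHom = W R)
    [Finite S] (hS : IsPGroup p S) (F : FusionSystem S) {φ : S →* Ω} (hφ : φ ∈ F.Hom S) :
    φ ∈ F.normalizerHom (Wsub W S) S := by
  have hinj := F.injective_of_mem hφ
  have hr : φ.range = S := by
    apply Subgroup.eq_of_le_of_card_ge (range_le F hφ)
    rw [Nat.card_congr (Equiv.ofInjective φ hinj)]
    rfl
  have : Finite ↥(Wsub W S) :=
    Finite.of_injective (Subgroup.inclusion (Wsub_le W S)) (Subgroup.inclusion_injective _)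
  refine normalizerHom_of_le F hφ (Wsub_le W S) ?_ ?_
  · intro x hx
    exact ⟨hx, normalizer_le_normalizer_Wsub W hW2 hS (Subgroup.le_normalizer hx)⟩
  · intro x hx
    have h := (map_mem_Wsub W hW2 hS F hφ x).mp hx
    rwa [hr] at h

/-- Commutators of elements of `S` lie in `focN F (Wsub W S)`. -/
theorem conj_mem_focN
    (hW2 : ∀ (Q R : Type u) [Group Q] [Group R] [Finite Q], IsPGroup p Q →
      ∀ φ : Q ≃* R, (W Q).map φ.toMonoidHom = W R)
    [Finite S] (hS : IsPGroup p S) (F : FusionSystem S) {s x : Ω} (hs : s ∈ S) (hx : x ∈ S) :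
    x⁻¹ * (s * x * s⁻¹) ∈ focN F (Wsub W S) := by
  have h1 : conjHom S s ∈ F.Hom S := F.conj_mem le_rfl hs
  have h2 := normalizerHom_of_source_top W hW2 hS F h1
  exact mem_focN F h2 ⟨x, hx⟩

/-- Every map of `F` all of whose extensions to `S` exist is stable: if `S` is normal in `F`. -/
theorem stab_of_le_top
    (hW2 : ∀ (Q R : Type u) [Group Q] [Group R] [Finite Q], IsPGroup p Q →
      ∀ φ : Q ≃* R, (W Q).map φ.toMonoidHom = W R)
    [Finite S] (hS : IsPGroup p S) (F : FusionSystem S) {P : Subgroup Ω} {φ : P →* Ω}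
    {ψ : S →* Ω} (hψ : ψ ∈ F.Hom S) (hP : P ≤ S) (hψφ : ∀ x : P, ψ ⟨x, hP x.2⟩ = φ x) :
    Stab (focN F (Wsub W S)) φ := by
  intro x
  have h := mem_focN F (normalizerHom_of_source_top W hW2 hS F hψ) ⟨x, hP x.2⟩
  rwa [hψφ x] at h

end fusion

end Cfsg.Agent.Lib.Helper34.FocW
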