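import Mathlib
import Cfsg.Prelude.Def_FusionSystem
import Cfsg.Agent.Lib.Helper88.FSBase
import Cfsg.Agent.H85.Alperin
import Cfsg.Agent.H85.FullyNorm
import Cfsg.Agent.H85.Sat
import Cfsg.Agent.H84.FusSat
import Cfsg.Agent.S5077
import Cfsg.Agent.S5096
import Cfsg.Agent.S5098
import Cfsg.Agent.Lib.Helper34.FocBase
import Cfsg.Agent.Lib.Helper34.FocW

/-!
# Control of transfer: the Alperin–Gorenstein climb

If, in a saturated system `E` over `S`, the normalizer systems of all nontrivial normal subgroups of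
`S` are `𝔇`-stable, `𝔇` contains the focal subgroup of the normalizer system of `W(S)`, and the
theorem holds over smaller groups, then `E` is `𝔇`-stable.
-/

set_option autoImplicit false
open Cfsg Cfsg.FusionSystem

namespace Cfsg.Agent.Lib.Helper34.FocClimb

open Cfsg.Agent.Lib.Helper88.FSBase Cfsg.Agent.Lib.Helper34.FocBase Cfsg.Agent.Lib.Helper34.FocW

universe u

/-- The property to be proved: every map of `F` is stable for the focal subgroup of the normalizer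
system of `W(S)`. -/
def Gd (W : ∀ (Q : Type u) [Group Q], Subgroup Q) {Ω : Type u} [Group Ω] {S : Subgroup Ω}
    (F : FusionSystem S) : Prop :=
  ∀ (P : Subgroup Ω) (φ : P →* Ω), φ ∈ F.Hom P → Stab (focN F (Wsub W S)) φ

/-- The induction hypothesis: `Gd` over all groups of order at most `n`. -/
def IHn (p : ℕ) (W : ∀ (Q : Type u) [Group Q], Subgroup Q) (n : ℕ) : Prop :=
  ∀ (Ω : Type u) [Group Ω] (S : Subgroup Ω) [Finite S], Nat.card S ≤ n → IsPGroup p S →
    ∀ F : FusionSystem S, F.IsSaturated p → Gd W F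

theorem fin_of_le {Ω : Type*} [Group Ω] {S P : Subgroup Ω} [Finite S] (h : P ≤ S) : Finite P :=
  Finite.of_injective (Subgroup.inclusion h) (Subgroup.inclusion_injective h)

theorem normalizerHom_sub {Ω : Type*} [Group Ω] {S S' : Subgroup Ω} (E : FusionSystem S)
    (N : FusionSystem S') (hS' : S' ≤ S) (h : ∀ P : Subgroup Ω, N.Hom P ⊆ E.Hom P)
    (V P : Subgroup Ω) : N.normalizerHom V P ⊆ E.normalizerHom V P := by
  rintro φ ⟨h1, h2, h3, ψ, h4, h5, h6⟩
  exact ⟨h P h1, fun x hx => ⟨hS' (h2 hx).1, (h2 hx).2⟩, fun x => ⟨hS' (h3 x).1, (h3 x).2⟩,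
    ψ, h _ h4, h5, h6⟩

theorem stab_bot {Ω : Type*} [Group Ω] (𝔇 : Subgroup Ω) {T : Subgroup Ω} (hT : T = ⊥)
    (φ : T →* Ω) : Stab 𝔇 φ := by
  subst hT
  intro x
  have hx : x = 1 := Subsingleton.elim _ _
  rw [hx, map_one]
  simp

theorem card_le_of_hom {Ω : Type*} [Group Ω] {S : Subgroup Ω} [Finite S] (E : FusionSystem S)
    {P Q : Subgroup Ω} {φ : P →* Ω} (hφ : φ ∈ E.Hom P) (hQ : Q ≤ S) (h : ∀ x, φ x ∈ Q) :
    Nat.card P ≤ Nat.card Q := by
  have hinj := E.injective_of_mem hφ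
  have : Finite Q := fin_of_le hQ
  exact Nat.card_le_card_of_injective (φ.codRestrict Q h)
    (fun a b hab => hinj (congrArg Subtype.val hab))

section climb

variable {p : ℕ} [Fact p.Prime] (W : ∀ (Q : Type u) [Group Q], Subgroup Q)

/-- Alperin step: stability of the normalizer systems of `W(T)` for `|T| > m` gives stability of all
maps on subgroups of order `> m`. -/
theorem climb_alperin
    (hW2 : ∀ (Q R : Type u) [Group Q] [Group R] [Finite Q], IsPGroup p Q →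
      ∀ φ : Q ≃* R, (W Q).map φ.toMonoidHom = W R)
    {n : ℕ} (ih : IHn p W n) {Ω : Type u} [Group Ω] {S : Subgroup Ω} [Finite S]
    (hcard : Nat.card S ≤ n + 1) (hS : IsPGroup p S) (E : FusionSystem S) (hE : E.IsSaturated p)
    (𝔇 : Subgroup Ω) (h𝔇 : focN E (Wsub W S) ≤ 𝔇)
    (hH : ∀ U : Subgroup Ω, U ≤ S → S ≤ Subgroup.normalizer (U : Set Ω) → U ≠ ⊥ →
      ∀ (P : Subgroup Ω) (φ : P →* Ω), φ ∈ E.normalizerHom U P → Stab 𝔇 φ)
    (m : ℕ)
    (hC : ∀ T : Subgroup Ω, T ≤ S → T ≠ ⊥ → m < Nat.card T →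
      ∀ (P : Subgroup Ω) (φ : P →* Ω), φ ∈ E.normalizerHom (Wsub W T) P → Stab 𝔇 φ) :
    ∀ (P : Subgroup Ω) (φ : P →* Ω), φ ∈ E.Hom P → m < Nat.card P → Stab 𝔇 φ := by
  have key := Cfsg.Agent.H85.alperin_induction hS E hE
    (fun P => {φ : P →* Ω | φ ∈ E.Hom P ∧ (Nat.card P ≤ m ∨ Stab 𝔇 φ)}) ?_ ?_ ?_ ?_
  · intro P φ hφ hm
    rcases (key P φ hφ).2 with h | h
    · omega
    · exact h
  · -- restriction
    intro P R φ hφ h
    have hPS := dom_le E hφ.1
    have : Finite P := fin_of_le hPS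
    refine ⟨restrict_mem E h hφ.1, ?_⟩
    rcases hφ.2 with h1 | h1
    · left; exact (Subgroup.card_le_of_le h).trans h1
    · right; exact h1.restrict h
  · -- composition
    intro P Q φ ψ hφ hψ h
    refine ⟨E.comp_mem hφ.1 hψ.1 h, ?_⟩
    rcases hφ.2 with h1 | h1
    · left; exact h1
    · rcases hψ.2 with h2 | h2
      · left
        have hle := card_le_of_hom E hφ.1 (dom_le E hψ.1) h
        omega
      · right; exact h1.comp h2 h
  · -- inverses
    intro P Q e he hmem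
    have hsymm := Cfsg.Agent.H85.isIso_symm E he
    refine ⟨hsymm, ?_⟩
    rcases hmem.2 with h1 | h1
    · left; rw [← Nat.card_congr e.toEquiv]; exact h1
    · right
      intro y
      have h2 := 𝔇.inv_mem (h1 (e.symm y))
      have e2 : (y : Ω)⁻¹ * (P.subtype.comp e.symm.toMonoidHom) y =
          (((e.symm y : P) : Ω)⁻¹ * (Q.subtype.comp e.toMonoidHom) (e.symm y))⁻¹ := by
        show (y : Ω)⁻¹ * ((e.symm y : P) : Ω) = (((e.symm y : P) : Ω)⁻¹ * ((e (e.symm y) : Q) : Ω))⁻¹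
        rw [e.apply_symm_apply]; group
      rw [e2]; exact h2
  · -- automorphisms
    intro T hfa hrec α hα hext hbig
    have hTS : T ≤ S := hfa.1
    have hφ : T.subtype.comp α.toMonoidHom ∈ E.Hom T := (mem_autGroup_iff E hTS α).mp hα
    refine ⟨hφ, ?_⟩
    by_cases hm : Nat.card T ≤ m
    · left; exact hm
    right
    by_cases hTbot : T = ⊥
    · exact stab_bot 𝔇 hTbot _
    by_cases hTtop : T = S
    · subst hTtop
      exact (mem_focN E (normalizerHom_of_source_top W hW2 hS E hφ)).mono h𝔇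
    have hfinT : Finite T := fin_of_le hTS
    have hTfn : E.IsFullyNormalized T := Cfsg.Agent.H84.fullyNormalized_of_fa_receptive hS E hfa hrec
    have hTN : T ≤ normalizerIn S T := fun x hx => ⟨hTS hx, Subgroup.le_normalizer hx⟩
    have hφN : T.subtype.comp α.toMonoidHom ∈ E.normalizerHom T T :=
      normalizerHom_of_le E hφ le_rfl hTN (fun x _ => (α x).2)
    by_cases hn : S ≤ Subgroup.normalizer (T : Set Ω)
    · exact hH T hTS hn hTbot T _ hφN
    · obtain ⟨N, hN⟩ := Cfsg.Agent.S5096.result E T hTS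
      have hNsat := Cfsg.Agent.S5098.result p hS E hE T hTfn N hN
      have hRS : normalizerIn S T ≤ S := inf_le_left
      have hfinR : Finite ↥(normalizerIn S T) := fin_of_le hRS
      have hRne : normalizerIn S T ≠ S := by
        intro h
        apply hn
        intro x hx
        have h1 : x ∈ normalizerIn S T := by rw [h]; exact hx
        exact h1.2
      have hRcard : Nat.card ↥(normalizerIn S T) < Nat.card S := by
        by_contra hcon
        exact hRne (Subgroup.eq_of_le_of_card_ge hRS (not_lt.mp hcon))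
      have hG := ih Ω (normalizerIn S T) (by omega) (hS.to_le hRS) N hNsat
      have h1 : Stab (focN N (Wsub W (normalizerIn S T))) (T.subtype.comp α.toMonoidHom) :=
        hG T _ (by rw [hN T]; exact hφN)
      refine h1.mono ?_
      rw [focN_le_iff]
      intro P φ' hφ'
      have hsub : ∀ P : Subgroup Ω, N.Hom P ⊆ E.Hom P := fun P => by
        rw [hN P]; exact fun _ h => h.1
      have h2 := normalizerHom_sub E N hRS hsub _ P hφ'
      have hRbot : normalizerIn S T ≠ ⊥ := by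
        intro h
        apply hTbot
        rw [eq_bot_iff, ← h]
        exact hTN
      have hcT : Nat.card T ≤ Nat.card ↥(normalizerIn S T) := Subgroup.card_le_of_le hTN
      exact hC _ hRS hRbot (by omega) P φ' h2

/-- Climbing step: stability of the normalizer system of `W(T)` from the larger cases. -/
theorem climb_step
    (hW1 : ∀ (Q : Type u) [Group Q] [Finite Q], IsPGroup p Q → Nontrivial Q → W Q ≠ ⊥)
    (hW2 : ∀ (Q R : Type u) [Group Q] [Group R] [Finite Q], IsPGroup p Q →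
      ∀ φ : Q ≃* R, (W Q).map φ.toMonoidHom = W R)
    {n : ℕ} (ih : IHn p W n) {Ω : Type u} [Group Ω] {S : Subgroup Ω} [Finite S]
    (hcard : Nat.card S ≤ n + 1) (hS : IsPGroup p S) (E : FusionSystem S) (hE : E.IsSaturated p)
    (𝔇 : Subgroup Ω)
    (hH : ∀ U : Subgroup Ω, U ≤ S → S ≤ Subgroup.normalizer (U : Set Ω) → U ≠ ⊥ →
      ∀ (P : Subgroup Ω) (φ : P →* Ω), φ ∈ E.normalizerHom U P → Stab 𝔇 φ)
    (T : Subgroup Ω) (hTS : T ≤ S) (hTbot : T ≠ ⊥) (hTne : T ≠ S)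
    (hA : ∀ (P : Subgroup Ω) (φ : P →* Ω), φ ∈ E.Hom P → Nat.card T < Nat.card P → Stab 𝔇 φ)
    (hC : ∀ T₁ : Subgroup Ω, T₁ ≤ S → T₁ ≠ ⊥ → Nat.card T < Nat.card T₁ →
      ∀ (P : Subgroup Ω) (φ : P →* Ω), φ ∈ E.normalizerHom (Wsub W T₁) P → Stab 𝔇 φ) :
    ∀ (P : Subgroup Ω) (φ : P →* Ω), φ ∈ E.normalizerHom (Wsub W T) P → Stab 𝔇 φ := by
  intro P φ hφN
  obtain ⟨hφ, hPN, hval, ψ, hψ, hψφ, hψV⟩ := hφN
  apply stab_of_normalizerHom_ext hψφ
  have hfinT : Finite T := fin_of_le hTS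
  have hTp : IsPGroup p T := hS.to_le hTS
  have hVT : Wsub W T ≤ T := Wsub_le W T
  have hVS : Wsub W T ≤ S := hVT.trans hTS
  have hVbot : Wsub W T ≠ ⊥ := Wsub_ne_bot W hW1 hTp hTbot
  have hfinV : Finite ↥(Wsub W T) := fin_of_le hVS
  have hNT : normalizerIn S T ≤ normalizerIn S (Wsub W T) := fun x hx =>
    ⟨hx.1, normalizer_le_normalizer_Wsub W hW2 hTp hx.2⟩
  have hfinNV : Finite ↥(normalizerIn S (Wsub W T)) := fin_of_le inf_le_left
  have hcardNV : Nat.card T < Nat.card ↥(normalizerIn S (Wsub W T)) :=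
    (Cfsg.Agent.H85.card_lt_card_normalizerIn hS hTS hTne).trans_le (Subgroup.card_le_of_le hNT)
  obtain ⟨V', hconj, hV'fn⟩ := Cfsg.Agent.S5077.exists_fullyNormalized E hVS
  obtain ⟨ξ, hξ, hξV, hξN⟩ :=
    Cfsg.Agent.H85.exists_hom_normalizer_of_fullyNormalized hS E hE hV'fn hconj
  have hξst : Stab 𝔇 ξ := hA _ ξ hξ hcardNV
  have hξinj := E.injective_of_mem hξ
  have hV'S : V' ≤ S := hV'fn.1
  have hfinV' : Finite V' := fin_of_le hV'S
  have hcardV : Nat.card ↥(Wsub W T) = Nat.card V' := isConj_card E hconj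
  have hVN : Wsub W T ≤ normalizerIn S (Wsub W T) := fun x hx =>
    ⟨hVS hx, Subgroup.le_normalizer hx⟩
  have hξsurj : ∀ v' ∈ V', ∃ v : ↥(normalizerIn S (Wsub W T)), (v : Ω) ∈ Wsub W T ∧ ξ v = v' := by
    let f : ↥(Wsub W T) → V' := fun v => ⟨ξ ⟨v, hVN v.2⟩, hξV ⟨v, hVN v.2⟩ v.2⟩
    have hf : Function.Injective f := by
      intro a b hab
      have h1 : ξ ⟨a, hVN a.2⟩ = ξ ⟨b, hVN b.2⟩ := congrArg Subtype.val hab
      have h2 := hξinj h1
      have h3 : (a : Ω) = b := congrArg (fun z : ↥(normalizerIn S (Wsub W T)) => (z : Ω)) h2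
      exact Subtype.ext h3
    have hbij : Function.Bijective f := (Nat.bijective_iff_injective_and_card f).mpr ⟨hf, hcardV⟩
    intro v' hv'
    obtain ⟨a, ha⟩ := hbij.2 ⟨v', hv'⟩
    exact ⟨⟨a, hVN a.2⟩, a.2, congrArg Subtype.val ha⟩
  have hξV_iff : ∀ v : ↥(normalizerIn S (Wsub W T)), ξ v ∈ V' → (v : Ω) ∈ Wsub W T := by
    intro v hv
    obtain ⟨w, hwV, hw⟩ := hξsurj _ hv
    have h1 := hξinj hw
    rw [← h1]; exact hwV
  have hP1 : P ⊔ Wsub W T ≤ normalizerIn S (Wsub W T) := sup_le hPN hVN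
  have hψV' : ∀ y : ↥(P ⊔ Wsub W T), (y : Ω) ∈ Wsub W T → ψ y ∈ Wsub W T := by
    intro y hy
    have h1 : ψ y ∈ ((Wsub W T).subgroupOf (P ⊔ Wsub W T)).map ψ :=
      ⟨y, Subgroup.mem_subgroupOf.mpr hy, rfl⟩
    rwa [hψV] at h1
  have hψsurj : ∀ v ∈ Wsub W T, ∃ y : ↥(P ⊔ Wsub W T), (y : Ω) ∈ Wsub W T ∧ ψ y = v := by
    intro v hv
    rw [← hψV] at hv
    obtain ⟨y, hy, rfl⟩ := hv
    exact ⟨y, Subgroup.mem_subgroupOf.mp hy, rfl⟩
  have hψN : ∀ y : ↥(P ⊔ Wsub W T), ψ y ∈ normalizerIn S (Wsub W T) := by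
    intro y
    refine ⟨val_mem E hψ y, ?_⟩
    have key : ∀ z : ↥(P ⊔ Wsub W T), ∀ v ∈ Wsub W T, ψ z * v * (ψ z)⁻¹ ∈ Wsub W T := by
      intro z v hv
      obtain ⟨w, hwV, hw⟩ := hψsurj v hv
      have h1 : (z : Ω) * w * (z : Ω)⁻¹ ∈ Wsub W T :=
        ((Subgroup.mem_normalizer_iff.mp (hP1 z.2).2) w).mp hwV
      have h2 := hψV' (z * w * z⁻¹) h1
      rw [map_mul, map_mul, map_inv, hw] at h2
      exact h2
    refine Cfsg.Agent.H85.mem_normalizer_of_forall (key y) (fun v hv => ?_)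
    have h1 := key y⁻¹ v hv
    rwa [map_inv, inv_inv] at h1
  -- the transported map
  have hξ₁ : ξ.comp (Subgroup.inclusion hP1) ∈ E.Hom (P ⊔ Wsub W T) := restrict_mem E hP1 hξ
  obtain ⟨ζ, hζ, hζx, hζr⟩ := inv_mem' E hξ₁ rfl
  have hζmem : ∀ x : ↥(ξ.comp (Subgroup.inclusion hP1)).range, ζ x ∈ P ⊔ Wsub W T := by
    intro x
    have h1 : ζ x ∈ ζ.range := ⟨x, rfl⟩
    exact hζr.le h1
  obtain ⟨χ₁, hχ₁, hχ₁x⟩ := comp_mem' E hζ hψ hζmem
  have hχ₁N : ∀ x, χ₁ x ∈ normalizerIn S (Wsub W T) := by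
    intro x
    rw [hχ₁x]
    exact hψN _
  obtain ⟨ψ', hψ', hψ'x⟩ := comp_mem' E hχ₁ hξ hχ₁N
  have hkey : ∀ y : ↥(P ⊔ Wsub W T),
      ψ' ⟨(ξ.comp (Subgroup.inclusion hP1)) y, ⟨y, rfl⟩⟩ = ξ ⟨ψ y, hψN y⟩ := by
    intro y
    rw [hψ'x]
    congr 1
    apply Subtype.ext
    show χ₁ ⟨(ξ.comp (Subgroup.inclusion hP1)) y, ⟨y, rfl⟩⟩ = ψ y
    rw [hχ₁x]
    congr 1
    apply Subtype.ext
    exact hζx y ⟨y, rfl⟩
  have hV'bot : V' ≠ ⊥ := by
    intro h
    have h1 : 1 < Nat.card ↥(Wsub W T) := (Subgroup.one_lt_card_iff_ne_bot _).mpr hVbot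
    rw [hcardV, h, Subgroup.card_bot] at h1
    omega
  have hψ'N : ψ' ∈ E.normalizerHom V' (ξ.comp (Subgroup.inclusion hP1)).range := by
    refine normalizerHom_of_le E hψ' ?_ ?_ ?_
    · intro v' hv'
      obtain ⟨v, hvV, hv⟩ := hξsurj v' hv'
      refine ⟨⟨v, (le_sup_right : Wsub W T ≤ P ⊔ Wsub W T) hvV⟩, ?_⟩
      rw [← hv]
      rfl
    · rintro _ ⟨y, rfl⟩
      exact hξN _
    · rintro ⟨_, y, rfl⟩ hx
      have h1 : (y : Ω) ∈ Wsub W T := hξV_iff ⟨y, hP1 y.2⟩ hx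
      have h2 := hψV' y h1
      rw [hkey y]
      exact hξV ⟨ψ y, hψN y⟩ h2
  have hψ'st : Stab 𝔇 ψ' := by
    by_cases hn : S ≤ Subgroup.normalizer (V' : Set Ω)
    · exact hH V' hV'S hn hV'bot _ ψ' hψ'N
    · obtain ⟨N, hN⟩ := Cfsg.Agent.S5096.result E V' hV'S
      have hNsat := Cfsg.Agent.S5098.result p hS E hE V' hV'fn N hN
      have hRS : normalizerIn S V' ≤ S := inf_le_left
      have hfinR : Finite ↥(normalizerIn S V') := fin_of_le hRS
      have hRne : normalizerIn S V' ≠ S := by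
        intro h
        apply hn
        intro x hx
        have h1 : x ∈ normalizerIn S V' := by rw [h]; exact hx
        exact h1.2
      have hRcard : Nat.card ↥(normalizerIn S V') < Nat.card S := by
        by_contra hcon
        exact hRne (Subgroup.eq_of_le_of_card_ge hRS (not_lt.mp hcon))
      have hG := ih Ω (normalizerIn S V') (by omega) (hS.to_le hRS) N hNsat
      have h1 : Stab (focN N (Wsub W (normalizerIn S V'))) ψ' :=
        hG _ _ (by rw [hN _]; exact hψ'N)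
      refine h1.mono ?_
      rw [focN_le_iff]
      intro P₂ φ₂ hφ₂
      have hsub : ∀ P : Subgroup Ω, N.Hom P ⊆ E.Hom P := fun P => by
        rw [hN P]; exact fun _ h => h.1
      have h2 := normalizerHom_sub E N hRS hsub _ P₂ hφ₂
      have hle : Nat.card ↥(normalizerIn S (Wsub W T)) ≤ Nat.card ↥(normalizerIn S V') :=
        card_le_of_hom E hξ hRS hξN
      have hRbot : normalizerIn S V' ≠ ⊥ := by
        intro h
        rw [h, Subgroup.card_bot] at hle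
        have := Nat.card_pos (α := T)
        omega
      exact hC _ hRS hRbot (by omega) P₂ φ₂ h2
  intro y
  have h1 := hξst ⟨y, hP1 y.2⟩
  have h2 := hξst ⟨ψ y, hψN y⟩
  have h3 := hψ'st ⟨(ξ.comp (Subgroup.inclusion hP1)) y, ⟨y, rfl⟩⟩
  rw [hkey y] at h3
  have e : (y : Ω)⁻¹ * ψ y = ((y : Ω)⁻¹ * ξ ⟨y, hP1 y.2⟩) *
      ((ξ ⟨y, hP1 y.2⟩)⁻¹ * ξ ⟨ψ y, hψN y⟩) * ((ψ y)⁻¹ * ξ ⟨ψ y, hψN y⟩)⁻¹ := by group
  rw [e]
  exact 𝔇.mul_mem (𝔇.mul_mem h1 h3) (𝔇.inv_mem h2)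

/-- **The climb.** -/
theorem climb
    (hW1 : ∀ (Q : Type u) [Group Q] [Finite Q], IsPGroup p Q → Nontrivial Q → W Q ≠ ⊥)
    (hW2 : ∀ (Q R : Type u) [Group Q] [Group R] [Finite Q], IsPGroup p Q →
      ∀ φ : Q ≃* R, (W Q).map φ.toMonoidHom = W R)
    {n : ℕ} (ih : IHn p W n) {Ω : Type u} [Group Ω] {S : Subgroup Ω} [Finite S]
    (hcard : Nat.card S ≤ n + 1) (hS : IsPGroup p S) (E : FusionSystem S) (hE : E.IsSaturated p)
    (𝔇 : Subgroup Ω) (h𝔇 : focN E (Wsub W S) ≤ 𝔇)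
    (hH : ∀ U : Subgroup Ω, U ≤ S → S ≤ Subgroup.normalizer (U : Set Ω) → U ≠ ⊥ →
      ∀ (P : Subgroup Ω) (φ : P →* Ω), φ ∈ E.normalizerHom U P → Stab 𝔇 φ) :
    ∀ (P : Subgroup Ω) (φ : P →* Ω), φ ∈ E.Hom P → Stab 𝔇 φ := by
  have key : ∀ k m : ℕ, m + k = Nat.card S → ∀ T : Subgroup Ω, T ≤ S → T ≠ ⊥ →
      m < Nat.card T → ∀ (P : Subgroup Ω) (φ : P →* Ω),
      φ ∈ E.normalizerHom (Wsub W T) P → Stab 𝔇 φ := by
    intro k
    induction k with
    | zero =>
      intro m hm T hTS hTbot hmT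
      have := Subgroup.card_le_of_le hTS
      omega
    | succ k ihk =>
      intro m hm T hTS hTbot hmT
      have hP1 := ihk (m + 1) (by omega)
      by_cases hlt : m + 1 < Nat.card T
      · exact hP1 T hTS hTbot hlt
      have hTcard : Nat.card T = m + 1 := by omega
      by_cases hTtop : T = S
      · rw [hTtop]
        intro P φ hφ
        exact (mem_focN E hφ).mono h𝔇
      have hA := climb_alperin W hW2 ih hcard hS E hE 𝔇 h𝔇 hH (m + 1) hP1
      exact climb_step W hW1 hW2 ih hcard hS E hE 𝔇 hH T hTS hTbot hTtop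
        (by rw [hTcard]; exact hA) (by rw [hTcard]; exact hP1)
  have hP0 := key (Nat.card S) 0 (by omega)
  have hA0 := climb_alperin W hW2 ih hcard hS E hE 𝔇 h𝔇 hH 0 hP0
  intro P φ hφ
  have : Finite P := fin_of_le (dom_le E hφ)
  exact hA0 P φ hφ Nat.card_pos

end climb

end Cfsg.Agent.Lib.Helper34.FocClimb
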