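import Mathlib
import Cfsg.Agent.Lib.Helper59.FxStmt

/-!
# S3390 / ORB (helper34): the orbits of `S` are `{α, β}` and regular ones
-/

set_option autoImplicit false

namespace Cfsg.Agent.Lib.Helper34.FxORB

open Cfsg.Agent.Lib.Helper59.FxStmt

universe u v

/-- the stabilizer in `↥S` -/
theorem stab_eq {G : Type u} [Group G] {Ω : Type v} [MulAction G Ω] (S : Subgroup G) (ω : Ω) :
    MulAction.stabilizer ↥S ω = (MulAction.stabilizer G ω).subgroupOf S := by
  ext x
  rw [Subgroup.mem_subgroupOf, MulAction.mem_stabilizer_iff, MulAction.mem_stabilizer_iff,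
    Subgroup.smul_def]

/-- orbit–stabilizer in `↥S` -/
theorem card_orbit {G : Type u} [Group G] {Ω : Type v} [MulAction G Ω] (S : Subgroup G) (ω : Ω) :
    Nat.card (MulAction.orbit ↥S ω) = (S ⊓ MulAction.stabilizer G ω).relIndex S := by
  rw [Subgroup.inf_relIndex_left, Subgroup.relIndex, ← stab_eq, MulAction.index_stabilizer,
    Nat.card_coe_set_eq]

theorem main : Orb.{u, v} := by
  intro G _ _ Ω _ S α β s hC hidx hreg
  refine ⟨by rw [card_orbit, hidx], ?_⟩
  intro ω' hω'
  have h1 : ω' ≠ α := by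
    rintro rfl
    exact hω' (MulAction.mem_orbit_self _)
  have h2 : ω' ≠ β := by
    rintro rfl
    exact hω' ⟨⟨s, hC.hs⟩, hC.sα⟩
  rw [card_orbit, hreg ω' h1 h2, Subgroup.relIndex, Subgroup.bot_subgroupOf, Subgroup.index_bot]

end Cfsg.Agent.Lib.Helper34.FxORB
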