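import Mathlib
import Cfsg.Agent.Lib.Helper59.FxStmt
import Cfsg.Agent.Lib.Helper34.FxORB

/-!
# S3390 / TWO (helper34): `|T| = 2`, the involution of `T` has centralizer of order 4 in `S`
-/

set_option autoImplicit false

namespace Cfsg.Agent.Lib.Helper34.FxTWO

open Cfsg.Agent.Lib.Helper59.FxStmt

universe u v

/-- the core, for a finite 2-group `H` acting with fixity 2 -/
theorem core {H : Type u} [Group H] [Finite H] {Ω : Type v} [MulAction H Ω] (hF : F3 H Ω)
    (h2 : IsPGroup 2 H) (α β : Ω) (s : H) (hαβ : α ≠ β) (hsα : s • α = β)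
    (hTβ : MulAction.stabilizer H β = MulAction.stabilizer H α)
    (hT2 : Nat.card ↥(MulAction.stabilizer H α) = 2) :
    ∃ x : H, orderOf x = 2 ∧ Nat.card ↥(Subgroup.centralizer ({x} : Set H)) = 4 := by
  have hp2 : Fact (Nat.Prime 2) := ⟨Nat.prime_two⟩
  obtain ⟨⟨t, ht⟩, ht1, htu⟩ := (Nat.card_eq_two_iff' (1 : ↥(MulAction.stabilizer H α))).1 hT2
  have ht1' : t ≠ 1 := fun h => ht1 (Subtype.ext h)
  have htα : t • α = α := ht
  have hTel : ∀ x : H, x • α = α → x ≠ 1 → x = t := by
    intro x hx hx1
    have h0 := htu ⟨x, hx⟩ (fun h => hx1 (congrArg Subtype.val h))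
    exact congrArg Subtype.val h0
  have htβ : t • β = β := by
    have h0 : t ∈ MulAction.stabilizer H β := by rw [hTβ]; exact ht
    exact h0
  have ht2 : t ^ 2 = 1 := by
    by_contra h
    have h0 := hTel (t ^ 2) (by rw [pow_two, mul_smul, htα, htα]) h
    apply ht1'
    have h1 : t * t = t := by rw [← pow_two]; exact h0
    simpa using h1
  have hord : orderOf t = 2 := orderOf_eq_prime ht2 ht1'
  refine ⟨t, hord, ?_⟩
  have hC : ∀ c : H, c ∈ Subgroup.centralizer ({t} : Set H) ↔ t * c = c * t := by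
    intro c
    rw [Subgroup.mem_centralizer_iff]
    constructor
    · intro h; exact h t rfl
    · intro h x hx
      rw [Set.mem_singleton_iff] at hx
      rw [hx]; exact h
  have hsC : s ∈ Subgroup.centralizer ({t} : Set H) := by
    rw [hC]
    have h0 : (s⁻¹ * t * s) • α = α := by
      rw [mul_smul, mul_smul, hsα, htβ, ← hsα, inv_smul_smul]
    have h1 : s⁻¹ * t * s ≠ 1 := by
      intro h
      apply ht1'
      have e : t = s * (s⁻¹ * t * s) * s⁻¹ := by group
      rw [e, h]; group
    have h2 := hTel _ h0 h1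
    calc t * s = s * (s⁻¹ * t * s) := by group
      _ = s * t := by rw [h2]
  have hsT : s • α ≠ α := by rw [hsα]; exact hαβ.symm
  have hs1 : s ≠ 1 := by
    rintro rfl
    exact hsT (one_smul _ _)
  have hst : s ≠ t := by
    rintro rfl
    exact hsT htα
  have htC : t ∈ Subgroup.centralizer ({t} : Set H) := (hC t).2 rfl
  have e' : Nat.card ↥(Subgroup.centralizer ({t} : Set H)) =
      (Subgroup.centralizer ({t} : Set H) : Set H).ncard :=
    Nat.card_coe_set_eq (Subgroup.centralizer ({t} : Set H) : Set H)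
  have h3 : 3 ≤ Nat.card ↥(Subgroup.centralizer ({t} : Set H)) := by
    have hs : ({1, t, s} : Set H) ⊆ (Subgroup.centralizer ({t} : Set H) : Set H) := by
      intro x hx
      rcases hx with rfl | rfl | rfl
      exacts [Subgroup.one_mem _, htC, hsC]
    have hn : ({1, t, s} : Set H).ncard = 3 :=
      Set.ncard_eq_three.2 ⟨1, t, s, ht1'.symm, hs1.symm, hst.symm, rfl⟩
    have h0 := Set.ncard_le_ncard hs (Set.toFinite _)
    rw [hn] at h0
    rw [e']; exact h0
  have hle4 : Nat.card ↥(Subgroup.centralizer ({t} : Set H)) ≤ 4 := by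
    have hsub : (Subgroup.centralizer ({t} : Set H) : Set H) ⊆
        (MulAction.stabilizer H α : Set H) ∪
          (fun x => s * x) '' (MulAction.stabilizer H α : Set H) := by
      intro c hc
      have hc' : t * c = c * t := (hC c).1 hc
      have hfix : t • (c • α) = c • α := by rw [← mul_smul, hc', mul_smul, htα]
      rcases hF t ht1' α β (c • α) htα htβ hfix with h | h | h
      · exact absurd h hαβ
      · left; exact h.symm
      · right
        refine ⟨s⁻¹ * c, ?_, by group⟩
        show (s⁻¹ * c) • α = α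
        rw [mul_smul, ← h, ← hsα, inv_smul_smul]
    have h0 := Set.ncard_le_ncard hsub (Set.toFinite _)
    have h1 := Set.ncard_union_le (MulAction.stabilizer H α : Set H)
      ((fun x => s * x) '' (MulAction.stabilizer H α : Set H))
    have h2 := Set.ncard_image_le (f := fun x => s * x)
      (s := (MulAction.stabilizer H α : Set H)) (Set.toFinite _)
    have e : (MulAction.stabilizer H α : Set H).ncard = 2 := by
      rw [← Nat.card_coe_set_eq]; exact hT2
    omega
  obtain ⟨k, hk⟩ := (h2.to_subgroup (Subgroup.centralizer ({t} : Set H))).exists_card_eq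
  rw [hk] at h3 hle4 ⊢
  have hk2 : k ≤ 2 := by
    by_contra hcon
    have : 2 ^ 3 ≤ 2 ^ k := Nat.pow_le_pow_right (by norm_num) (by omega)
    omega
  have hk2' : 2 ≤ k := by
    by_contra hcon
    have : 2 ^ k ≤ 2 ^ 1 := Nat.pow_le_pow_right (by norm_num) (by omega)
    omega
  have hk3 : k = 2 := by omega
  rw [hk3]
  norm_num

theorem main : Two.{u, v} := by
  intro G _ _ Ω _ S α β s hC hT2
  have hF : F3 ↥S Ω := by
    intro g hg a b c ha hb hc
    exact hC.f3 (g : G) (fun h => hg (Subtype.ext h)) a b c ha hb hc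
  have hTβ : MulAction.stabilizer ↥S β = MulAction.stabilizer ↥S α := by
    ext x
    constructor
    · intro hx
      have h0 : (x : G) ∈ S ⊓ MulAction.stabilizer G β := ⟨x.2, hx⟩
      rw [hC.Tβ] at h0
      exact h0.2
    · intro hx
      have h0 : (x : G) ∈ S ⊓ MulAction.stabilizer G α := ⟨x.2, hx⟩
      rw [← hC.Tβ] at h0
      exact h0.2
  have hT2' : Nat.card ↥(MulAction.stabilizer ↥S α) = 2 := by
    rw [FxORB.stab_eq, ← Subgroup.inf_subgroupOf_left,
      Nat.card_congr (Subgroup.subgroupOfEquivOfLe (inf_le_left :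
        S ⊓ MulAction.stabilizer G α ≤ S)).toEquiv]
    exact hT2
  exact core hF hC.p2 α β ⟨s, hC.hs⟩ hC.ne hC.sα hTβ hT2'

end Cfsg.Agent.Lib.Helper34.FxTWO
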