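import Mathlib
import Cfsg.Agent.Lib.Helper59.FxStmt
import Cfsg.Agent.Lib.Helper34.FxORB

/-!
# S3390 / UCENT (helper34): a point stabilizer `S_ω = ⟨u⟩` with `|C_S(u)| = 4`
-/

set_option autoImplicit false

namespace Cfsg.Agent.Lib.Helper34.FxUCENT

open Cfsg.Agent.Lib.Helper59.FxStmt

universe u v

/-- the core, for a finite 2-group `H` acting with fixity 2 -/
theorem core {H : Type u} [Group H] [Finite H] {Ω : Type v} [MulAction H Ω] (hF : F3 H Ω)
    (h2 : IsPGroup 2 H) (α β ω : Ω) (hαβ : α ≠ β) (hωα : ω ≠ α) (hωβ : ω ≠ β)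
    (hTβ : MulAction.stabilizer H α ≤ MulAction.stabilizer H β)
    (hidx : (MulAction.stabilizer H α).index = 2)
    (hT4 : 4 ≤ Nat.card ↥(MulAction.stabilizer H α))
    (hω : MulAction.stabilizer H ω ≠ ⊥) :
    ∃ x : H, orderOf x = 2 ∧ Nat.card ↥(Subgroup.centralizer ({x} : Set H)) = 4 := by
  have hp2 : Fact (Nat.Prime 2) := ⟨Nat.prime_two⟩
  have h1 : ∀ t : H, t • α = α → t • ω = ω → t = 1 := by
    intro t hα hω
    by_contra hne
    have hβ : t • β = β := hTβ hα
    rcases hF t hne α β ω hα hβ hω with h | h | h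
    · exact hαβ h
    · exact hωα h.symm
    · exact hωβ h.symm
  obtain ⟨u, huω, hu1⟩ : ∃ u : H, u • ω = ω ∧ u ≠ 1 := by
    obtain ⟨⟨u, hu⟩, hu1⟩ := (Subgroup.ne_bot_iff_exists_ne_one).1 hω
    exact ⟨u, hu, fun h => hu1 (Subtype.ext h)⟩
  have hu2 : u ^ 2 = 1 := by
    apply h1
    · exact Subgroup.sq_mem_of_index_two hidx u
    · rw [pow_two, mul_smul, huω, huω]
  have hord : orderOf u = 2 := orderOf_eq_prime hu2 hu1
  refine ⟨u, hord, ?_⟩
  have key : ∀ t1 t2 : H,
      t1 ∈ Subgroup.centralizer ({u} : Set H) ⊓ MulAction.stabilizer H α →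
      t2 ∈ Subgroup.centralizer ({u} : Set H) ⊓ MulAction.stabilizer H α →
      t1 ≠ 1 → t2 ≠ 1 → t1 = t2 := by
    intro t1 t2 ht1 ht2 h11 h21
    have hf : ∀ t : H, t ∈ Subgroup.centralizer ({u} : Set H) ⊓ MulAction.stabilizer H α →
        u • (t • ω) = t • ω := by
      intro t ht
      have hc : u * t = t * u := Subgroup.mem_centralizer_iff.1 ht.1 u rfl
      rw [← mul_smul, hc, mul_smul, huω]
    have hne : ∀ t : H, t ∈ Subgroup.centralizer ({u} : Set H) ⊓ MulAction.stabilizer H α →
        t ≠ 1 → t • ω ≠ ω := fun t ht ht1 h => ht1 (h1 t ht.2 h)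
    rcases hF u hu1 ω (t1 • ω) (t2 • ω) huω (hf t1 ht1) (hf t2 ht2) with h | h | h
    · exact absurd h.symm (hne t1 ht1 h11)
    · exact absurd h.symm (hne t2 ht2 h21)
    · have h0 : t1⁻¹ * t2 = 1 := by
        apply h1
        · exact (MulAction.stabilizer H α).mul_mem
            ((MulAction.stabilizer H α).inv_mem ht1.2) ht2.2
        · rw [mul_smul, ← h, inv_smul_smul]
      exact inv_mul_eq_one.1 h0
  have hCT : Nat.card ↥(Subgroup.centralizer ({u} : Set H) ⊓ MulAction.stabilizer H α) ≤ 2 := by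
    classical
    have hinj : Function.Injective
        (fun x : ↥(Subgroup.centralizer ({u} : Set H) ⊓ MulAction.stabilizer H α) =>
          decide ((x : H) = 1)) := by
      intro x y hxy
      simp only [decide_eq_decide] at hxy
      by_cases hx : (x : H) = 1
      · have hy := hxy.1 hx
        exact Subtype.ext (hx.trans hy.symm)
      · have hy : (y : H) ≠ 1 := fun h => hx (hxy.2 h)
        exact Subtype.ext (key x y x.2 y.2 hx hy)
    have h0 := Nat.card_le_card_of_injective _ hinj
    simpa using h0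
  -- upper bound
  have hle4 : Nat.card ↥(Subgroup.centralizer ({u} : Set H)) ≤ 4 := by
    have e1 := Subgroup.card_mul_index
      (Subgroup.centralizer ({u} : Set H) ⊓ MulAction.stabilizer H α)
    have e2 := Subgroup.index_inf_le (H := Subgroup.centralizer ({u} : Set H))
      (K := MulAction.stabilizer H α)
    have e3 := Subgroup.card_mul_index (Subgroup.centralizer ({u} : Set H))
    have e4 : (Subgroup.centralizer ({u} : Set H)).index ≠ 0 := Subgroup.index_ne_zero_of_finite
    rw [hidx] at e2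
    have e5 : Nat.card ↥(Subgroup.centralizer ({u} : Set H)) *
        (Subgroup.centralizer ({u} : Set H)).index ≤
        4 * (Subgroup.centralizer ({u} : Set H)).index := by
      rw [e3, ← e1]
      calc Nat.card ↥(Subgroup.centralizer ({u} : Set H) ⊓ MulAction.stabilizer H α) *
            (Subgroup.centralizer ({u} : Set H) ⊓ MulAction.stabilizer H α).index
          ≤ 2 * ((Subgroup.centralizer ({u} : Set H)).index * 2) := Nat.mul_le_mul hCT e2
        _ = 4 * (Subgroup.centralizer ({u} : Set H)).index := by ring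
    exact Nat.le_of_mul_le_mul_right e5 (Nat.pos_of_ne_zero e4)
  -- lower bound
  have huC : u ∈ Subgroup.centralizer ({u} : Set H) := by
    rw [Subgroup.mem_centralizer_iff]
    intro h hh
    rw [Set.mem_singleton_iff] at hh
    rw [hh]
  have hnt : Nontrivial H := ⟨⟨u, 1, hu1⟩⟩
  have hZ := h2.center_nontrivial
  obtain ⟨⟨z, hz⟩, hz1⟩ := exists_ne (1 : ↥(Subgroup.center H))
  have hz1' : z ≠ 1 := fun h => hz1 (Subtype.ext h)
  have hzC : z ∈ Subgroup.centralizer ({u} : Set H) := by
    rw [Subgroup.mem_centralizer_iff]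
    intro h _
    exact Subgroup.mem_center_iff.1 hz h
  have hzu : z ≠ u := by
    rintro rfl
    have htop : Subgroup.centralizer ({z} : Set H) = ⊤ := by
      rw [eq_top_iff]
      intro x _
      rw [Subgroup.mem_centralizer_iff]
      intro h hh
      rw [Set.mem_singleton_iff] at hh
      rw [hh]
      exact (Subgroup.mem_center_iff.1 hz x).symm
    rw [htop, Subgroup.card_top] at hle4
    have e := Subgroup.card_mul_index (MulAction.stabilizer H α)
    rw [hidx] at e
    omega
  have h3 : 3 ≤ Nat.card ↥(Subgroup.centralizer ({u} : Set H)) := by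
    have hs : ({1, u, z} : Set H) ⊆ (Subgroup.centralizer ({u} : Set H) : Set H) := by
      intro x hx
      rcases hx with rfl | rfl | rfl
      exacts [Subgroup.one_mem _, huC, hzC]
    have hn : ({1, u, z} : Set H).ncard = 3 :=
      Set.ncard_eq_three.2 ⟨1, u, z, hu1.symm, hz1'.symm, hzu.symm, rfl⟩
    have h0 := Set.ncard_le_ncard hs (Set.toFinite _)
    rw [hn] at h0
    have e : Nat.card ↥(Subgroup.centralizer ({u} : Set H)) =
        (Subgroup.centralizer ({u} : Set H) : Set H).ncard :=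
      Nat.card_coe_set_eq (Subgroup.centralizer ({u} : Set H) : Set H)
    rw [e]; exact h0
  obtain ⟨k, hk⟩ := (h2.to_subgroup (Subgroup.centralizer ({u} : Set H))).exists_card_eq
  rw [hk] at h3 hle4 ⊢
  have hk2 : k ≤ 2 := by
    by_contra hcon
    have : 2 ^ 3 ≤ 2 ^ k := Nat.pow_le_pow_right (by norm_num) (by omega)
    omega
  have hk2' : 2 ≤ k := by
    by_contra hcon
    have : 2 ^ k ≤ 2 ^ 1 := Nat.pow_le_pow_right (by norm_num) (by omega)
    omega
  have hk3 : k = 2 := by omega
  rw [hk3]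
  norm_num

theorem main : UCent.{u, v} := by
  intro G _ _ Ω _ S α β s hC hidx hT4 ω hωα hωβ hω
  have hF : F3 ↥S Ω := by
    intro g hg a b c ha hb hc
    exact hC.f3 (g : G) (fun h => hg (Subtype.ext h)) a b c ha hb hc
  have hTβ : MulAction.stabilizer ↥S α ≤ MulAction.stabilizer ↥S β := by
    intro x hx
    have h0 : (x : G) ∈ S ⊓ MulAction.stabilizer G α := ⟨x.2, hx⟩
    rw [← hC.Tβ] at h0
    exact h0.2
  have hidx' : (MulAction.stabilizer ↥S α).index = 2 := by
    rw [FxORB.stab_eq]
    rw [Subgroup.inf_relIndex_left] at hidx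
    exact hidx
  have hT4' : 4 ≤ Nat.card ↥(MulAction.stabilizer ↥S α) := by
    rw [FxORB.stab_eq, ← Subgroup.inf_subgroupOf_left,
      Nat.card_congr (Subgroup.subgroupOfEquivOfLe (inf_le_left :
        S ⊓ MulAction.stabilizer G α ≤ S)).toEquiv]
    exact hT4
  have hω' : MulAction.stabilizer ↥S ω ≠ ⊥ := by
    obtain ⟨⟨x, hx⟩, hx1⟩ := (Subgroup.ne_bot_iff_exists_ne_one).1 hω
    intro hbot
    have h0 : (⟨x, hx.1⟩ : ↥S) ∈ MulAction.stabilizer ↥S ω := hx.2
    rw [hbot, Subgroup.mem_bot] at h0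
    have h1 : x = 1 := congrArg Subtype.val h0
    exact hx1 (Subtype.ext h1)
  exact core hF hC.p2 α β ω hC.ne hωα hωβ hTβ hidx' hT4' hω'

end Cfsg.Agent.Lib.Helper34.FxUCENT
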