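import Mathlib
import Cfsg.Agent.Lib.Helper44.GFStmt

set_option autoImplicit false

/-!
# Piece SPC of S2717: the split count is invariant under conjugation by an element normalising
both groups
-/

namespace Cfsg.Agent.Lib.Helper34.GFSPC

universe u

theorem conj_mem_iff {X : Type u} [Group X] (H : Subgroup X) (c : X)
    (hH : ∀ h : X, h ∈ H ↔ c * h * c⁻¹ ∈ H) (h : X) : c⁻¹ * h * c ∈ H ↔ h ∈ H := by
  rw [hH (c⁻¹ * h * c)]
  have : c * (c⁻¹ * h * c) * c⁻¹ = h := by group
  rw [this]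

theorem isConjUnder_conj {X : Type u} [Group X] (H : Subgroup X) (c : X)
    (hH : ∀ h : X, h ∈ H ↔ c * h * c⁻¹ ∈ H) (y z : X) :
    Cfsg.IsConjUnder H y z ↔ Cfsg.IsConjUnder H (c * y * c⁻¹) (c * z * c⁻¹) := by
  constructor
  · rintro ⟨h, hh, rfl⟩
    refine ⟨c * h * c⁻¹, (hH h).1 hh, ?_⟩
    group
  · rintro ⟨h, hh, he⟩
    refine ⟨c⁻¹ * h * c, (conj_mem_iff H c hH h).2 hh, ?_⟩
    have h1 : z = c⁻¹ * (c * z * c⁻¹) * c := by group
    rw [h1, he]
    group

theorem main : Cfsg.Agent.Lib.Helper44.GFStmt.SplitConj.{u} := by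
  intro X _ H K c x hH hK
  let e : {y : X // Cfsg.IsConjUnder H x y} ≃ {y : X // Cfsg.IsConjUnder H (c * x * c⁻¹) y} :=
    { toFun := fun y => ⟨c * y.1 * c⁻¹, (isConjUnder_conj H c hH x y.1).1 y.2⟩
      invFun := fun y => ⟨c⁻¹ * y.1 * c, by
        apply (isConjUnder_conj H c hH x (c⁻¹ * y.1 * c)).2
        have h1 : c * (c⁻¹ * y.1 * c) * c⁻¹ = y.1 := by group
        rw [h1]
        exact y.2⟩
      left_inv := fun y => by
        apply Subtype.ext
        show c⁻¹ * (c * y.1 * c⁻¹) * c = y.1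
        group
      right_inv := fun y => by
        apply Subtype.ext
        show c * (c⁻¹ * y.1 * c) * c⁻¹ = y.1
        group }
  unfold Cfsg.splitClassCount
  exact (Nat.card_congr (Quot.congr e (fun y z => isConjUnder_conj K c hK y.1 z.1))).symm

end Cfsg.Agent.Lib.Helper34.GFSPC
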