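import Mathlib
import Cfsg.Agent.Lib.Helper44.GFStmt

set_option autoImplicit false

/-!
# Piece SPL of S2717: the split count as an index
-/

namespace Cfsg.Agent.Lib.Helper34.GFSPL

universe u

section
variable {X : Type u} [Group X] (H K : Subgroup X) (x : X)

/-- the relation of the split count is an equivalence -/
theorem equiv_rel :
    Equivalence (fun y z : {y : X // Cfsg.IsConjUnder H x y} => Cfsg.IsConjUnder K y.1 z.1) := by
  refine ⟨fun y => ⟨1, K.one_mem, by group⟩, ?_, ?_⟩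
  · rintro y z ⟨k, hk, he⟩
    refine ⟨k⁻¹, K.inv_mem hk, ?_⟩
    rw [he]
    group
  · rintro y z w ⟨k, hk, he⟩ ⟨k', hk', he'⟩
    refine ⟨k' * k, K.mul_mem hk' hk, ?_⟩
    rw [he', he]
    group

/-- the map `h ↦ [h x h⁻¹]` -/
def cls (h : H) :
    Quot (fun y z : {y : X // Cfsg.IsConjUnder H x y} => Cfsg.IsConjUnder K y.1 z.1) :=
  Quot.mk _ ⟨(h : X) * x * (h : X)⁻¹, (h : X), h.2, rfl⟩

theorem cls_eq_iff (hKH : K ≤ H) [hK : K.Normal] (h h' : H) :
    cls H K x h = cls H K x h' ↔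
      ((h : X)⁻¹ * (h' : X)) ∈ K ⊔ (H ⊓ Subgroup.centralizer {x}) := by
  constructor
  · intro he
    have h1 := (equiv_rel H K x).eqvGen_iff.1 (Quot.eq.1 he)
    obtain ⟨k, hk, hk'⟩ := h1
    -- `h' x h'⁻¹ = k (h x h⁻¹) k⁻¹`
    have hk'' : (h' : X) * x * (h' : X)⁻¹ = k * ((h : X) * x * (h : X)⁻¹) * k⁻¹ := hk'
    have hc : (h' : X)⁻¹ * k * (h : X) ∈ H ⊓ Subgroup.centralizer {x} := by
      refine Subgroup.mem_inf.2 ⟨H.mul_mem (H.mul_mem (H.inv_mem h'.2) (hKH hk)) h.2, ?_⟩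
      rw [Subgroup.mem_centralizer_iff]
      intro y hy
      rw [Set.mem_singleton_iff] at hy
      subst hy
      have e1 : y = (h' : X)⁻¹ * ((h' : X) * y * (h' : X)⁻¹) * (h' : X) := by group
      nth_rewrite 1 [e1]
      rw [hk'']
      group
    have hkk : (h : X)⁻¹ * k * (h : X) ∈ K := by
      have := hK.conj_mem k hk (h : X)⁻¹
      rwa [inv_inv] at this
    have e2 : (h : X)⁻¹ * (h' : X) =
        ((h : X)⁻¹ * k * (h : X)) * ((h' : X)⁻¹ * k * (h : X))⁻¹ := by group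
    rw [e2]
    exact Subgroup.mul_mem_sup hkk (Subgroup.inv_mem _ hc)
  · intro hmem
    have hset : ((h : X)⁻¹ * (h' : X)) ∈ ((K ⊔ (H ⊓ Subgroup.centralizer {x}) : Subgroup X) : Set X) :=
      hmem
    rw [Subgroup.normal_mul, Set.mem_mul] at hset
    obtain ⟨k, hk, c, hc, he⟩ := hset
    have hcx : c * x * c⁻¹ = x := by
      have h1 := (Subgroup.mem_centralizer_iff.1 (Subgroup.mem_inf.1 hc).2) x (Set.mem_singleton x)
      rw [← h1]
      group
    apply Quot.sound
    refine ⟨(h : X) * k * (h : X)⁻¹, hK.conj_mem k hk (h : X), ?_⟩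
    show (h' : X) * x * (h' : X)⁻¹ =
      (h : X) * k * (h : X)⁻¹ * ((h : X) * x * (h : X)⁻¹) * ((h : X) * k * (h : X)⁻¹)⁻¹
    have e3 : (h' : X) = (h : X) * (k * c) := by
      rw [he]
      group
    rw [e3]
    have e4 : (h : X) * (k * c) * x * ((h : X) * (k * c))⁻¹ =
        (h : X) * k * (c * x * c⁻¹) * k⁻¹ * (h : X)⁻¹ := by group
    rw [e4, hcx]
    group

end

theorem main : Cfsg.Agent.Lib.Helper44.GFStmt.SplitIndex.{u} := by
  intro X _ H K hKH hK x
  have hwd : ∀ a b : H,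
      (QuotientGroup.leftRel ((K ⊔ (H ⊓ Subgroup.centralizer {x})).subgroupOf H)) a b →
      cls H K x a = cls H K x b := by
    intro a b hab
    rw [QuotientGroup.leftRel_apply, Subgroup.mem_subgroupOf] at hab
    exact (cls_eq_iff H K x hKH a b).2 hab
  let F : (H ⧸ (K ⊔ (H ⊓ Subgroup.centralizer {x})).subgroupOf H) →
      Quot (fun y z : {y : X // Cfsg.IsConjUnder H x y} => Cfsg.IsConjUnder K y.1 z.1) :=
    Quotient.lift (cls H K x) hwd
  have hinj : Function.Injective F := by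
    intro a b
    refine Quotient.inductionOn₂ a b ?_
    intro a b hab
    have h1 : cls H K x a = cls H K x b := hab
    apply Quotient.sound
    show (QuotientGroup.leftRel ((K ⊔ (H ⊓ Subgroup.centralizer {x})).subgroupOf H)) a b
    rw [QuotientGroup.leftRel_apply, Subgroup.mem_subgroupOf]
    exact (cls_eq_iff H K x hKH a b).1 h1
  have hsurj : Function.Surjective F := by
    intro y
    induction y using Quot.ind with
    | mk y =>
      obtain ⟨y, h, hh, rfl⟩ := y
      exact ⟨Quotient.mk _ ⟨h, hh⟩, rfl⟩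
  unfold Cfsg.splitClassCount
  rw [Subgroup.relIndex, Subgroup.index]
  exact (Nat.card_congr (Equiv.ofBijective F ⟨hinj, hsurj⟩)).symm

end Cfsg.Agent.Lib.Helper34.GFSPL
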