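import Mathlib
import Cfsg.Agent.Lib.Helper54.FpfCyclic

/-! Lemma D3 for S3070 (helper67's blueprint, board #1215): an abelian `p`-group `A` acting
faithfully on a normal abelian `p'`-subgroup `Kb` has a subgroup `A₀` with `A = ⟨a⟩ A₀`, and an
`a`-invariant nontrivial `Q ≤ Kb` centralized by `A₀` on which `a` is fixed-point-free. -/

set_option autoImplicit false

namespace Cfsg.Agent.Lib.Helper34.Gl3

open Subgroup

/-- Bezout: if `x ^ k` and `x ^ n` lie in `H` with `k`, `n` coprime then `x ∈ H`. -/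
theorem mem_of_pow_mem_of_coprime {L : Type*} [Group L] (H : Subgroup L) (x : L) {k n : ℕ}
    (hkn : Nat.Coprime k n) (hk : x ^ k ∈ H) (hn : x ^ n ∈ H) : x ∈ H := by
  have h2 : (1 : ℤ) = (k : ℤ) * Int.gcdA k n + (n : ℤ) * Int.gcdB k n := by
    have := Int.gcd_eq_gcd_ab (k : ℤ) (n : ℤ)
    rw [Int.gcd_natCast_natCast, Nat.Coprime.gcd_eq_one hkn] at this
    exact_mod_cast this
  have h3 : x = (x ^ k) ^ (Int.gcdA k n) * (x ^ n) ^ (Int.gcdB k n) := by
    rw [← zpow_natCast, ← zpow_natCast, ← zpow_mul, ← zpow_mul, ← zpow_add, ← h2, zpow_one]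
  rw [h3]
  exact H.mul_mem (H.zpow_mem hk _) (H.zpow_mem hn _)

/-- Elements of `A₀ ⊔ zpowers a` inside an abelian subgroup `A`. -/
theorem mem_sup_zpowers {L : Type*} [Group L] [Finite L] (A A₀ : Subgroup L)
    (hAab : ∀ x ∈ A, ∀ y ∈ A, x * y = y * x) (hA₀A : A₀ ≤ A) {a : L} (ha : a ∈ A) {x : L}
    (hx : x ∈ A₀ ⊔ zpowers a) : ∃ y ∈ A₀, ∃ k : ℕ, y * a ^ k = x := by
  let N : Subgroup L :=
    { carrier := {x | ∃ y ∈ A₀, ∃ k : ℤ, x = y * a ^ k}
      mul_mem' := by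
        rintro _ _ ⟨y, hy, k, rfl⟩ ⟨y', hy', k', rfl⟩
        refine ⟨y * y', A₀.mul_mem hy hy', k + k', ?_⟩
        have hc : a ^ k * y' = y' * a ^ k := hAab _ (A.zpow_mem ha k) _ (hA₀A hy')
        calc y * a ^ k * (y' * a ^ k') = y * (a ^ k * y') * a ^ k' := by group
          _ = y * (y' * a ^ k) * a ^ k' := by rw [hc]
          _ = y * y' * a ^ (k + k') := by rw [zpow_add]; group
      one_mem' := ⟨1, A₀.one_mem, 0, by simp⟩
      inv_mem' := by
        rintro _ ⟨y, hy, k, rfl⟩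
        refine ⟨y⁻¹, A₀.inv_mem hy, -k, ?_⟩
        have hc : a ^ (-k) * y⁻¹ = y⁻¹ * a ^ (-k) :=
          hAab _ (A.zpow_mem ha _) _ (hA₀A (A₀.inv_mem hy))
        calc (y * a ^ k)⁻¹ = a ^ (-k) * y⁻¹ := by group
          _ = y⁻¹ * a ^ (-k) := hc }
  have hle : A₀ ⊔ zpowers a ≤ N := by
    apply sup_le
    · intro y hy
      exact ⟨y, hy, 0, by simp⟩
    · rw [zpowers_le]
      exact ⟨1, A₀.one_mem, 1, by simp⟩
  obtain ⟨y, hy, k, rfl⟩ := hle hx
  obtain ⟨n, hn⟩ := (Submonoid.mem_powers_iff _ _).1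
    (mem_powers_iff_mem_zpowers.2 (zpow_mem_zpowers a k))
  exact ⟨y, hy, n, by rw [hn]⟩

theorem exists_cyclic_section {L : Type*} [Group L] [Finite L] (p : ℕ) [Fact p.Prime]
    (Kb A : Subgroup L) [Kb.Normal]
    (hKab : ∀ x ∈ Kb, ∀ y ∈ Kb, x * y = y * x) (hKcop : (Nat.card Kb).Coprime p)
    (hAab : ∀ x ∈ A, ∀ y ∈ A, x * y = y * x) (hAp : IsPGroup p A) (hA1 : A ≠ ⊥)
    (hfaith : ∀ x ∈ A, (∀ y ∈ Kb, x * y = y * x) → x = 1) :
    ∃ (A₀ Q : Subgroup L) (a : L), A₀ ≤ A ∧ a ∈ A ∧ Q ≤ Kb ∧ Q ≠ ⊥ ∧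
      (∀ g ∈ A, ∃ i : ℕ, ∃ u ∈ A₀, g = a ^ i * u) ∧ (∀ q ∈ Q, a * q * a⁻¹ ∈ Q) ∧
      (∀ u ∈ A₀, ∀ q ∈ Q, u * q = q * u) ∧ (∀ q ∈ Q, a * q = q * a → q = 1) := by
  classical
  have hp : p.Prime := Fact.out
  -- the fixed-point functor
  let F : Subgroup L → Subgroup L := fun X => Kb ⊓ centralizer (X : Set L)
  have hFmem : ∀ (X : Subgroup L) (d : L), d ∈ F X ↔ d ∈ Kb ∧ ∀ u ∈ X, u * d = d * u := by
    intro X d
    show d ∈ Kb ⊓ centralizer (X : Set L) ↔ _
    simp only [mem_inf, mem_centralizer_iff, SetLike.mem_coe]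
  -- elements of `A` have `p`-power order
  have hApow : ∀ g ∈ A, ∃ s : ℕ, g ^ p ^ s = 1 := by
    intro g hg
    obtain ⟨n, hn⟩ := hAp ⟨g, hg⟩
    refine ⟨n, ?_⟩
    have := congrArg Subtype.val hn
    simpa using this
  -- `p`-elements of `Kb` are trivial
  have hKtriv : ∀ q ∈ Kb, ∀ s : ℕ, q ^ p ^ s = 1 → q = 1 := by
    intro q hq s hs
    have h1 : orderOf q ∣ p ^ s := orderOf_dvd_of_pow_eq_one hs
    have h2 : orderOf q ∣ Nat.card Kb := Subgroup.orderOf_dvd_natCard Kb hq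
    have h3 : Nat.Coprime (orderOf q) (p ^ s) :=
      Nat.Coprime.coprime_dvd_left h2 (Nat.Coprime.pow_right s hKcop)
    have h4 : orderOf q = 1 := Nat.Coprime.eq_one_of_dvd h3 h1
    exact orderOf_eq_one_iff.1 h4
  -- Step 0
  have h0 : ¬ F ⊥ ≤ F A := by
    intro hle
    apply hA1
    rw [eq_bot_iff]
    intro x hx
    rw [mem_bot]
    apply hfaith x hx
    intro y hy
    have hy' : y ∈ F ⊥ := by
      rw [hFmem]
      refine ⟨hy, ?_⟩
      intro u hu
      rw [mem_bot] at hu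
      rw [hu]
      simp
    exact ((hFmem A y).1 (hle hy')).2 x hx
  -- Step 1: maximal A₀
  let T := {X : Subgroup L // X ≤ A ∧ ¬ F X ≤ F A}
  have : Nonempty T := ⟨⟨⊥, bot_le, h0⟩⟩
  have : Finite T := Subtype.finite
  obtain ⟨⟨A₀, hA₀A, hA₀F⟩, hmax⟩ := Finite.exists_max (fun X : T => Nat.card (X : Subgroup L))
  have hmaxA₀ : ∀ X : Subgroup L, X ≤ A → A₀ ≤ X → ¬ X ≤ A₀ → F X ≤ F A := by
    intro X hXA hle hne
    by_contra hcon
    have h := hmax ⟨X, hXA, hcon⟩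
    exact hne (Subgroup.eq_of_le_of_card_ge hle h).ge
  have hDK : F A₀ ≤ Kb := fun d hd => ((hFmem A₀ d).1 hd).1
  -- D = F A₀ is A-invariant
  have hDinv : ∀ x ∈ A, ∀ d ∈ F A₀, x * d * x⁻¹ ∈ F A₀ := by
    intro x hx d hd
    obtain ⟨hdK, hdc⟩ := (hFmem A₀ d).1 hd
    refine (hFmem A₀ _).2 ⟨?_, ?_⟩
    · exact Subgroup.Normal.conj_mem inferInstance d hdK x
    · intro u hu
      have h1 : u * x = x * u := hAab u (hA₀A hu) x hx
      have h2 := hdc u hu
      have hxu : x * u * x⁻¹ = u := by rw [← h1]; group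
      calc u * (x * d * x⁻¹) = (x * u * x⁻¹) * (x * d * x⁻¹) := by rw [hxu]
        _ = x * (u * d) * x⁻¹ := by group
        _ = x * (d * u) * x⁻¹ := by rw [h2]
        _ = (x * d * x⁻¹) * (x * u * x⁻¹) := by group
        _ = (x * d * x⁻¹) * u := by rw [hxu]
  -- (i)
  have hi : ∀ g ∈ A, g ∉ A₀ → ∀ d ∈ F A₀, g * d = d * g → d ∈ F A := by
    intro g hg hgA₀ d hd hgd
    have hX : F (A₀ ⊔ zpowers g) ≤ F A := by
      apply hmaxA₀ _ (sup_le hA₀A (by rw [zpowers_le]; exact hg)) le_sup_left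
      intro hle
      exact hgA₀ (hle ((le_sup_right : zpowers g ≤ A₀ ⊔ zpowers g) (mem_zpowers g)))
    apply hX
    obtain ⟨hdK, hdc⟩ := (hFmem A₀ d).1 hd
    rw [hFmem]
    refine ⟨hdK, ?_⟩
    have hle : A₀ ⊔ zpowers g ≤ centralizer ({d} : Set L) := by
      apply sup_le
      · intro u hu
        rw [mem_centralizer_iff]
        intro k hk
        rw [Set.mem_singleton_iff] at hk
        rw [hk]
        exact (hdc u hu).symm
      · rw [zpowers_le, mem_centralizer_iff]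
        intro k hk
        rw [Set.mem_singleton_iff] at hk
        rw [hk]
        exact hgd.symm
    intro u hu
    have := hle hu
    rw [mem_centralizer_iff] at this
    exact (this d rfl).symm
  -- the commutator subgroup Q_g
  have hQex : ∀ g ∈ A, g ∉ A₀ → ∃ Q : Subgroup L, Q ≤ F A₀ ∧ Q ≠ ⊥ ∧
      (∀ x ∈ A, ∀ q ∈ Q, x * q * x⁻¹ ∈ Q) ∧
      (∀ x ∈ A, x ∉ A₀ → ∀ q ∈ Q, x * q = q * x → q = 1) := by
    intro g hg hgA₀
    let Q : Subgroup L :=
      { carrier := {q | ∃ d ∈ F A₀, q = d⁻¹ * (g * d * g⁻¹)}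
        mul_mem' := by
          rintro x y ⟨d, hd, rfl⟩ ⟨d', hd', rfl⟩
          refine ⟨d' * d, (F A₀).mul_mem hd' hd, ?_⟩
          have e1 : g * d * g⁻¹ ∈ Kb := hDK (hDinv g hg d hd)
          have e2 : d'⁻¹ * (g * d' * g⁻¹) ∈ Kb :=
            Kb.mul_mem (Kb.inv_mem (hDK hd')) (hDK (hDinv g hg d' hd'))
          have e3 := hKab _ e1 _ e2
          calc d⁻¹ * (g * d * g⁻¹) * (d'⁻¹ * (g * d' * g⁻¹))
              = d⁻¹ * ((g * d * g⁻¹) * (d'⁻¹ * (g * d' * g⁻¹))) := by group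
            _ = d⁻¹ * ((d'⁻¹ * (g * d' * g⁻¹)) * (g * d * g⁻¹)) := by rw [e3]
            _ = (d' * d)⁻¹ * (g * (d' * d) * g⁻¹) := by group
        one_mem' := ⟨1, (F A₀).one_mem, by group⟩
        inv_mem' := by
          rintro x ⟨d, hd, rfl⟩
          refine ⟨d⁻¹, (F A₀).inv_mem hd, ?_⟩
          have e1 : g * d⁻¹ * g⁻¹ ∈ Kb := hDK (hDinv g hg _ ((F A₀).inv_mem hd))
          have e3 := hKab _ e1 _ (hDK hd)
          calc (d⁻¹ * (g * d * g⁻¹))⁻¹ = (g * d⁻¹ * g⁻¹) * d := by group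
            _ = d * (g * d⁻¹ * g⁻¹) := e3
            _ = (d⁻¹)⁻¹ * (g * d⁻¹ * g⁻¹) := by group }
    have hQmem : ∀ q, q ∈ Q ↔ ∃ d ∈ F A₀, q = d⁻¹ * (g * d * g⁻¹) := fun q => Iff.rfl
    have hQD : Q ≤ F A₀ := by
      intro q hq
      obtain ⟨d, hd, rfl⟩ := (hQmem q).1 hq
      exact (F A₀).mul_mem ((F A₀).inv_mem hd) (hDinv g hg d hd)
    -- (c)
    have hc : ∀ q ∈ Q, g * q = q * g → q = 1 := by
      intro q hq hcomm
      obtain ⟨d, hd, hqd⟩ := (hQmem q).1 hq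
      have hgd : g * d * g⁻¹ = d * q := by rw [hqd]; group
      have hgq : g * q * g⁻¹ = q := by rw [hcomm]; group
      have hind : ∀ i : ℕ, g ^ i * d * (g ^ i)⁻¹ = d * q ^ i := by
        intro i
        induction i with
        | zero => simp
        | succ i ih =>
          calc g ^ (i + 1) * d * (g ^ (i + 1))⁻¹ = g * (g ^ i * d * (g ^ i)⁻¹) * g⁻¹ := by
                rw [pow_succ']; group
            _ = g * (d * q ^ i) * g⁻¹ := by rw [ih]
            _ = (g * d * g⁻¹) * (g * q * g⁻¹) ^ i := by rw [conj_pow]; group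
            _ = d * q * q ^ i := by rw [hgd, hgq]
            _ = d * q ^ (i + 1) := by rw [pow_succ', mul_assoc]
      obtain ⟨s, hs⟩ := hApow g hg
      have h1 := hind (p ^ s)
      rw [hs] at h1
      have h2 : q ^ p ^ s = 1 := by simpa using h1
      exact hKtriv q (hDK (hQD hq)) s h2
    refine ⟨Q, hQD, ?_, ?_, ?_⟩
    · -- Q ≠ ⊥
      intro hbot
      apply hA₀F
      intro d hd
      apply hi g hg hgA₀ d hd
      have h1 : d⁻¹ * (g * d * g⁻¹) ∈ Q := (hQmem _).2 ⟨d, hd, rfl⟩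
      rw [hbot, mem_bot] at h1
      have h2 : g * d * g⁻¹ = d := by
        calc g * d * g⁻¹ = d * (d⁻¹ * (g * d * g⁻¹)) := by group
          _ = d := by rw [h1, mul_one]
      calc g * d = (g * d * g⁻¹) * g := by group
        _ = d * g := by rw [h2]
    · -- invariance
      intro x hx q hq
      obtain ⟨d, hd, rfl⟩ := (hQmem q).1 hq
      refine (hQmem _).2 ⟨x * d * x⁻¹, hDinv x hx d hd, ?_⟩
      have hgx : g * x = x * g := hAab g hg x hx
      have h1 : x⁻¹ * g * x = g := by rw [mul_assoc, hgx, ← mul_assoc, inv_mul_cancel, one_mul]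
      calc x * (d⁻¹ * (g * d * g⁻¹)) * x⁻¹
          = x * (d⁻¹ * (g * d * g⁻¹)) * x⁻¹ := rfl
        _ = x * (d⁻¹ * ((x⁻¹ * g * x) * d * (x⁻¹ * g * x)⁻¹)) * x⁻¹ := by rw [h1]
        _ = (x * d * x⁻¹)⁻¹ * (g * (x * d * x⁻¹) * g⁻¹) := by group
    · -- (e)
      intro x hx hxA₀ q hq hcomm
      have h1 : q ∈ F A := hi x hx hxA₀ q (hQD hq) hcomm
      exact hc q hq (((hFmem A q).1 h1).2 g hg)
  -- a general descent lemma in the p-group A
  have hL1 : ∀ (X : Subgroup L) (g : L), g ∈ A → g ∉ X →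
      ∃ g' ∈ A, g' ∉ X ∧ g' ^ p ∈ X ∧ g' ∈ zpowers g := by
    intro X g hg hgX
    obtain ⟨n, hn⟩ := hApow g hg
    have hex : ∃ j, g ^ p ^ j ∈ X := ⟨n, by rw [hn]; exact X.one_mem⟩
    have hj0 : Nat.find hex ≠ 0 := by
      intro h0
      have := Nat.find_spec hex
      rw [h0] at this
      simp at this
      exact hgX this
    obtain ⟨j, hj⟩ := Nat.exists_eq_succ_of_ne_zero hj0
    refine ⟨g ^ p ^ j, A.pow_mem hg _, ?_, ?_, ?_⟩
    · exact Nat.find_min hex (by rw [hj]; exact Nat.lt_succ_self j)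
    · have := Nat.find_spec hex
      rw [hj, pow_succ, pow_mul] at this
      exact this
    · exact Subgroup.pow_mem _ (mem_zpowers g) _
  -- Step 2: choose a
  have : Nonempty ↥A := ⟨1⟩
  obtain ⟨⟨a, ha⟩, hamax⟩ :=
    Finite.exists_max (fun b : ↥A => Nat.card ↥(A₀ ⊔ zpowers (b : L)))
  have hamax' : ∀ b ∈ A, A₀ ⊔ zpowers a ≤ A₀ ⊔ zpowers b → A₀ ⊔ zpowers b ≤ A₀ ⊔ zpowers a := by
    intro b hb hle
    exact (Subgroup.eq_of_le_of_card_ge hle (hamax ⟨b, hb⟩)).ge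
  have hX : A₀ ⊔ zpowers a = A := by
    by_contra hne
    have hXA : A₀ ⊔ zpowers a ≤ A := sup_le hA₀A (by rw [zpowers_le]; exact ha)
    have hnle : ¬ A ≤ A₀ ⊔ zpowers a := fun h => hne (le_antisymm hXA h)
    obtain ⟨g₀, hg₀A, hg₀X⟩ := SetLike.not_le_iff_exists.1 hnle
    obtain ⟨g, hgA, hgX, hgp, -⟩ := hL1 _ g₀ hg₀A hg₀X
    obtain ⟨y, hy, k, hyz⟩ := mem_sup_zpowers A A₀ hAab hA₀A ha hgp
    have haX : a ∈ A₀ ⊔ zpowers a := (le_sup_right : zpowers a ≤ A₀ ⊔ zpowers a) (mem_zpowers a)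
    by_cases hpk : p ∣ k
    · obtain ⟨k', rfl⟩ := hpk
      have hhA : g * (a ^ k')⁻¹ ∈ A := A.mul_mem hgA (A.inv_mem (A.pow_mem ha k'))
      have hhX : g * (a ^ k')⁻¹ ∉ A₀ ⊔ zpowers a := by
        intro hh
        apply hgX
        have h1 : g = g * (a ^ k')⁻¹ * a ^ k' := by group
        rw [h1]
        exact (A₀ ⊔ zpowers a).mul_mem hh ((A₀ ⊔ zpowers a).pow_mem haX k')
      have hhp : (g * (a ^ k')⁻¹) ^ p ∈ A₀ := by
        have hc : Commute g (a ^ k')⁻¹ := hAab g hgA _ (A.inv_mem (A.pow_mem ha k'))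
        have h1 : (g * (a ^ k')⁻¹) ^ p = y := by
          calc (g * (a ^ k')⁻¹) ^ p = g ^ p * ((a ^ k')⁻¹) ^ p := hc.mul_pow p
            _ = (y * a ^ (p * k')) * ((a ^ k')⁻¹) ^ p := by rw [hyz]
            _ = y := by
                rw [inv_pow, ← pow_mul, mul_comm k' p, mul_assoc, mul_inv_cancel, mul_one]
        rw [h1]
        exact hy
      set h := g * (a ^ k')⁻¹ with hh_def
      have ha₀ : a ∉ A₀ := by
        intro haA₀
        have hXeq : A₀ ⊔ zpowers a ≤ A₀ := sup_le le_rfl (by rw [zpowers_le]; exact haA₀)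
        have hle : A₀ ⊔ zpowers a ≤ A₀ ⊔ zpowers h := hXeq.trans le_sup_left
        have := hamax' h hhA hle
        exact hhX (this ((le_sup_right : zpowers h ≤ A₀ ⊔ zpowers h) (mem_zpowers h)))
      obtain ⟨e, heA, heA₀, hep, hez⟩ := hL1 A₀ a ha ha₀
      have heX : e ∈ A₀ ⊔ zpowers a := (le_sup_right : zpowers a ≤ A₀ ⊔ zpowers a) hez
      have hhi : ∀ i, 0 < i → i < p → h ^ i ∉ A₀ ⊔ zpowers a := by
        intro i hi0 hip hmem
        apply hhX
        have hcop : Nat.Coprime i p :=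
          Nat.Coprime.symm ((Nat.Prime.coprime_iff_not_dvd hp).2 (Nat.not_dvd_of_pos_of_lt hi0 hip))
        exact mem_of_pow_mem_of_coprime _ h hcop hmem
          ((le_sup_left : A₀ ≤ A₀ ⊔ zpowers a) hhp)
      have hek : ∀ k, k < p → e * h ^ k ∉ A₀ := by
        intro k hkp hmem
        rcases Nat.eq_zero_or_pos k with rfl | hk0
        · simp at hmem
          exact heA₀ hmem
        · apply hhi k hk0 hkp
          have h1 : h ^ k = e⁻¹ * (e * h ^ k) := by group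
          rw [h1]
          exact (A₀ ⊔ zpowers a).mul_mem ((A₀ ⊔ zpowers a).inv_mem heX)
            ((le_sup_left : A₀ ≤ A₀ ⊔ zpowers a) hmem)
      have hhA₀ : h ∉ A₀ := fun hh => hhX ((le_sup_left : A₀ ≤ A₀ ⊔ zpowers a) hh)
      obtain ⟨Q, hQD, hQne, hQinv, hQfpf⟩ := hQex h hhA hhA₀
      have hnorm : ∀ x ∈ A, x ∈ normalizer (Q : Set L) := by
        intro x hx
        rw [mem_normalizer_iff]
        intro q
        constructor
        · exact hQinv x hx q
        · intro hq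
          have := hQinv x⁻¹ (A.inv_mem hx) _ hq
          have h1 : x⁻¹ * (x * q * x⁻¹) * x⁻¹⁻¹ = q := by group
          rwa [h1] at this
      let ce := Cfsg.Agent.Lib.Helper54.FpfCyclic.conjEnd Q
      have hfix : ∀ (n : ↥(normalizer (Q : Set L))) (w : ↥Q), ce n w = w →
          (n : L) * (w : L) = (w : L) * (n : L) := by
        intro n w hw
        have h1 : (n : L) * (w : L) * (n : L)⁻¹ = (w : L) := congrArg Subtype.val hw
        calc (n : L) * (w : L) = (n : L) * (w : L) * (n : L)⁻¹ * (n : L) := by group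
          _ = (w : L) * (n : L) := by rw [h1]
      have htriv : ∀ (n : ↥(normalizer (Q : Set L))), (n : L) ∈ A₀ → ce n = 1 := by
        intro n hn
        apply MonoidHom.ext
        intro w
        apply Subtype.ext
        have h1 := ((hFmem A₀ _).1 (hQD w.2)).2 (n : L) hn
        show (n : L) * (w : L) * (n : L)⁻¹ = (w : L)
        rw [h1]; group
      have hM : ∀ x y : ↥Q, x * y = y * x := fun x y =>
        Subtype.ext (hKab x (hDK (hQD x.2)) y (hDK (hQD y.2)))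
      have hcomm : Commute (ce ⟨e, hnorm e heA⟩) (ce ⟨h, hnorm h hhA⟩) := by
        have : Commute (⟨e, hnorm e heA⟩ : ↥(normalizer (Q : Set L))) ⟨h, hnorm h hhA⟩ :=
          Subtype.ext (hAab e heA h hhA)
        exact this.map ce
      have hall := Cfsg.Agent.Lib.Helper54.FpfNorm.pow_eq_one_of_fpf_end hM
        (ce ⟨e, hnorm e heA⟩) (ce ⟨h, hnorm h hhA⟩) hcomm p
        (by
          rw [← map_pow]
          apply htriv
          simpa using hep)
        (by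
          rw [← map_pow]
          apply htriv
          simpa using hhp)
        (by
          intro k hk w hw
          rw [← map_pow, ← map_mul] at hw
          have h1 := hfix _ w hw
          have h2 : e * h ^ k * (w : L) = (w : L) * (e * h ^ k) := by simpa using h1
          have h3 := hQfpf (e * h ^ k) (A.mul_mem heA (A.pow_mem hhA k)) (hek k hk) w w.2 h2
          exact Subtype.ext h3)
        (by
          intro i hi0 hip w hw
          rw [← map_pow] at hw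
          have h1 := hfix _ w hw
          have h2 : h ^ i * (w : L) = (w : L) * h ^ i := by simpa using h1
          have h3 := hQfpf (h ^ i) (A.pow_mem hhA i)
            (fun hm => hhi i hi0 hip ((le_sup_left : A₀ ≤ A₀ ⊔ zpowers a) hm)) w w.2 h2
          exact Subtype.ext h3)
      apply hQne
      rw [eq_bot_iff]
      intro w hw
      rw [mem_bot]
      have h1 := hall ⟨w, hw⟩
      have h2 : w ^ p = 1 := by simpa using congrArg Subtype.val h1
      exact hKtriv w (hDK (hQD hw)) 1 (by simpa using h2)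
    · obtain ⟨s, hs⟩ := hApow a ha
      have hcop : Nat.Coprime k (p ^ s) :=
        Nat.Coprime.pow_right s ((Nat.Prime.coprime_iff_not_dvd hp).2 hpk).symm
      have hak : a ^ k ∈ A₀ ⊔ zpowers g := by
        have h1 : a ^ k = y⁻¹ * g ^ p := by rw [← hyz]; group
        rw [h1]
        exact (A₀ ⊔ zpowers g).mul_mem
          ((le_sup_left : A₀ ≤ A₀ ⊔ zpowers g) (A₀.inv_mem hy))
          ((le_sup_right : zpowers g ≤ A₀ ⊔ zpowers g) (Subgroup.pow_mem _ (mem_zpowers g) _))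
      have haX' : a ∈ A₀ ⊔ zpowers g :=
        mem_of_pow_mem_of_coprime _ a hcop hak (by rw [hs]; exact Subgroup.one_mem _)
      have hle : A₀ ⊔ zpowers a ≤ A₀ ⊔ zpowers g :=
        sup_le le_sup_left (by rw [zpowers_le]; exact haX')
      have := hamax' g hgA hle
      exact hgX (this ((le_sup_right : zpowers g ≤ A₀ ⊔ zpowers g) (mem_zpowers g)))
  -- final assembly
  have ha₀ : a ∉ A₀ := by
    intro haA₀
    apply hA₀F
    have hsub : A ≤ A₀ := by
      rw [← hX]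
      exact sup_le le_rfl (by rw [zpowers_le]; exact haA₀)
    intro d hd
    obtain ⟨hdK, hdc⟩ := (hFmem A₀ d).1 hd
    exact (hFmem A d).2 ⟨hdK, fun u hu => hdc u (hsub hu)⟩
  obtain ⟨Q, hQD, hQne, hQinv, hQfpf⟩ := hQex a ha ha₀
  refine ⟨A₀, Q, a, hA₀A, ha, hQD.trans hDK, hQne, ?_, fun q hq => hQinv a ha q hq, ?_,
    fun q hq h => hQfpf a ha ha₀ q hq h⟩
  · intro g hg
    rw [← hX] at hg
    obtain ⟨y, hy, i, rfl⟩ := mem_sup_zpowers A A₀ hAab hA₀A ha hg
    exact ⟨i, y, hy, hAab y (hA₀A hy) _ (A.pow_mem ha i)⟩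
  · intro u hu q hq
    exact ((hFmem A₀ q).1 (hQD hq)).2 u hu

end Cfsg.Agent.Lib.Helper34.Gl3
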