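import Mathlib
import Cfsg.Agent.Lib.Helper34.Alperin

set_option autoImplicit false
set_option linter.unusedSectionVars false
set_option linter.unusedSimpArgs false

namespace Cfsg.Agent.Lib.Helper34.GoodFus

open Cfsg.Agent.Lib.Helper34.Alperin

variable {G : Type*} [Group G]

/-- chain of conjugations by elements of `M` keeping the set inside `S` -/
def GChain (M : Set G) (S : Set G) : Set G → List G → Prop
  | X, [] => X ⊆ S
  | X, b :: l => X ⊆ S ∧ b ∈ M ∧ GChain M S (cj b X) l

variable {M S : Set G}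

theorem GChain.subset : ∀ {l : List G} {X : Set G}, GChain M S X l → X ⊆ S
  | [], _, h => h
  | _ :: _, _, h => h.1

theorem gchain_mono : ∀ (l : List G) {X Y : Set G}, Y ⊆ X → GChain M S X l → GChain M S Y l
  | [], _, _, hYX, h => hYX.trans h
  | b :: l, _, _, hYX, h => ⟨hYX.trans h.1, h.2.1, gchain_mono l (cj_mono hYX b) h.2.2⟩

theorem gchain_mono_left {M' : Set G} (hM : M ⊆ M') : ∀ (l : List G) {X : Set G},
    GChain M S X l → GChain M' S X l
  | [], _, h => h
  | _ :: l, _, h => ⟨h.1, hM h.2.1, gchain_mono_left hM l h.2.2⟩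

theorem gchain_append : ∀ (l₁ l₂ : List G) {X : Set G}, GChain M S X l₁ →
    GChain M S (cj l₁.prod X) l₂ → GChain M S X (l₁ ++ l₂)
  | [], l₂, X, _, h₂ => by simpa [cj_one] using h₂
  | b :: l, l₂, X, h₁, h₂ => by
    refine ⟨h₁.1, h₁.2.1, gchain_append l l₂ h₁.2.2 ?_⟩
    rw [cj_mul]
    simpa using h₂

theorem gchain_prod_subset : ∀ (l : List G) {X : Set G}, GChain M S X l → cj l.prod X ⊆ S
  | [], X, h => by
    have h' : X ⊆ S := h
    simpa [cj_one] using h'
  | b :: l, X, h => by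
    have := gchain_prod_subset l h.2.2
    rw [cj_mul] at this
    simpa using this

theorem gchain_take : ∀ (l : List G) {X : Set G}, GChain M S X l → ∀ k : ℕ, cj (l.take k).prod X ⊆ S
  | [], X, h, k => by
    have h' : X ⊆ S := h
    simpa [cj_one] using h'
  | b :: l, X, h, 0 => by simpa [cj_one] using h.1
  | b :: l, X, h, k + 1 => by
    have := gchain_take l h.2.2 k
    rw [cj_mul] at this
    simpa using this

theorem gchain_mem : ∀ (l : List G) {X : Set G}, GChain M S X l → ∀ b ∈ l, b ∈ M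
  | [], _, _, b, hb => by simp at hb
  | b' :: l, _, h, b, hb => by
    rcases List.mem_cons.mp hb with rfl | hb'
    · exact h.2.1
    · exact gchain_mem l h.2.2 b hb'

theorem gchain_of_take : ∀ (l : List G) {X : Set G}, (∀ b ∈ l, b ∈ M) →
    (∀ k : ℕ, k ≤ l.length → cj (l.take k).prod X ⊆ S) → GChain M S X l
  | [], X, _, h => by
    have h' : X ⊆ S := by simpa [cj_one] using h 0 (Nat.le_refl _)
    exact h'
  | b :: l, X, hM, h => by
    refine ⟨by simpa [cj_one] using h 0 (Nat.zero_le _), hM b (List.mem_cons_self), ?_⟩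
    apply gchain_of_take l (fun b' hb' => hM b' (List.mem_cons_of_mem _ hb'))
    intro k hk
    have := h (k + 1) (by simpa using hk)
    rw [cj_mul]
    simpa using this

theorem gchain_reverse (hM : ∀ b ∈ M, b⁻¹ ∈ M) : ∀ (l : List G) {X : Set G}, GChain M S X l →
    GChain M S (cj l.prod X) (l.reverse.map (fun b => b⁻¹))
  | [], X, h => by simpa [cj_one, GChain] using h
  | b :: l, X, h => by
    have ih := gchain_reverse hM l h.2.2
    rw [cj_mul] at ih
    have e : (b :: l).reverse.map (fun b => b⁻¹) = l.reverse.map (fun b => b⁻¹) ++ [b⁻¹] := by simp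
    rw [e]
    apply gchain_append
    · simpa using ih
    · have hp : (l.reverse.map (fun b => b⁻¹)).prod = l.prod⁻¹ := by
        rw [List.prod_inv_reverse, List.map_reverse]
      rw [hp, cj_mul]
      have e2 : (b :: l).prod * l.prod⁻¹ = b := by simp
      rw [e2]
      refine ⟨h.2.2.subset, hM b h.2.1, ?_⟩
      rw [cj_mul]
      simpa [cj_one, GChain] using h.1

theorem prod_map_conj (g : G) : ∀ l : List G, (l.map (fun b => g⁻¹ * b * g)).prod = g⁻¹ * l.prod * g
  | [] => by simp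
  | b :: l => by
    rw [List.map_cons, List.prod_cons, prod_map_conj g l, List.prod_cons]
    group

theorem gchain_conj (g : G) : ∀ (l : List G) {X : Set G}, GChain M S X l →
    GChain (cj g M) (cj g S) (cj g X) (l.map (fun b => g⁻¹ * b * g))
  | [], X, h => cj_mono h g
  | b :: l, X, h => by
    refine ⟨cj_mono h.1 g, ?_, ?_⟩
    · rw [mem_cj]
      have : g * (g⁻¹ * b * g) * g⁻¹ = b := by group
      rw [this]; exact h.2.1
    · have ih := gchain_conj g l h.2.2
      rw [cj_mul] at ih ⊢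
      have : g * (g⁻¹ * b * g) = b * g := by group
      rw [this]; exact ih

theorem cj_eq_of_mem_centralizer {c : G} {X : Set G} (hc : c ∈ Subgroup.centralizer X) : cj c X = X := by
  ext a
  rw [mem_cj]
  have h1 : ∀ x ∈ X, c * x * c⁻¹ = x := by
    intro x hx
    have := Subgroup.mem_centralizer_iff.mp hc x hx
    rw [← this, mul_inv_cancel_right]
  constructor
  · intro h
    have h2 := h1 _ h
    have h3 : c * a * c⁻¹ = a := by
      have := congrArg (fun t => c⁻¹ * t * c) h2
      simpa [mul_assoc] using this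
    rw [← h3]; exact h
  · intro h
    rw [h1 a h]; exact h

theorem conj_mem_centralizer_cj {c L : G} {X : Set G} (hc : c ∈ Subgroup.centralizer (cj L X)) :
    L * c * L⁻¹ ∈ Subgroup.centralizer X := by
  refine Subgroup.mem_centralizer_iff.mpr ?_
  intro x hx
  have h1 : L⁻¹ * x * L ∈ cj L X := ⟨x, hx, rfl⟩
  have h2 := Subgroup.mem_centralizer_iff.mp hc _ h1
  calc x * (L * c * L⁻¹) = L * ((L⁻¹ * x * L) * c) * L⁻¹ := by group
    _ = L * (c * (L⁻¹ * x * L)) * L⁻¹ := by rw [h2]
    _ = L * c * L⁻¹ * x := by group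

theorem conj_mem_centralizer_cj' {c L : G} {X : Set G} (hc : c ∈ Subgroup.centralizer X) :
    L⁻¹ * c * L ∈ Subgroup.centralizer (cj L X) := by
  refine Subgroup.mem_centralizer_iff.mpr ?_
  rintro _ ⟨x, hx, rfl⟩
  have h2 := Subgroup.mem_centralizer_iff.mp hc x hx
  calc L⁻¹ * x * L * (L⁻¹ * c * L) = L⁻¹ * (x * c) * L := by group
    _ = L⁻¹ * (c * x) * L := by rw [h2]
    _ = L⁻¹ * c * L * (L⁻¹ * x * L) := by group

/-- `a = c * b₁ ⋯ bₙ` with `c` centralizing `X`, the `bᵢ` in `M`, and all partial conjugates of `X` inside `S` -/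
def Good (M : Set G) (S : Set G) (X : Set G) (a : G) : Prop :=
  ∃ c ∈ Subgroup.centralizer X, ∃ l : List G, GChain M S X l ∧ a = c * l.prod

theorem Good.subset {X : Set G} {a : G} (h : Good M S X a) : X ⊆ S := by
  obtain ⟨c, hc, l, hl, rfl⟩ := h
  exact hl.subset

theorem Good.cj_subset {X : Set G} {a : G} (h : Good M S X a) : cj a X ⊆ S := by
  obtain ⟨c, hc, l, hl, rfl⟩ := h
  rw [← cj_mul, cj_eq_of_mem_centralizer hc]
  exact gchain_prod_subset l hl

theorem Good.one {X : Set G} (hX : X ⊆ S) : Good M S X 1 :=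
  ⟨1, Subgroup.one_mem _, [], hX, by simp⟩

theorem Good.mono {X Y : Set G} {a : G} (h : Good M S X a) (hYX : Y ⊆ X) : Good M S Y a := by
  obtain ⟨c, hc, l, hl, rfl⟩ := h
  exact ⟨c, Subgroup.centralizer_le hYX hc, l, gchain_mono l hYX hl, rfl⟩

theorem Good.mono_left {M' : Set G} {X : Set G} {a : G} (h : Good M S X a) (hM : M ⊆ M') : Good M' S X a := by
  obtain ⟨c, hc, l, hl, rfl⟩ := h
  exact ⟨c, hc, l, gchain_mono_left hM l hl, rfl⟩

theorem Good.trans {X : Set G} {a a' : G} (h₁ : Good M S X a) (h₂ : Good M S (cj a X) a') :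
    Good M S X (a * a') := by
  obtain ⟨c, hc, l, hl, rfl⟩ := h₁
  obtain ⟨c', hc', l', hl', rfl⟩ := h₂
  have hX : cj (c * l.prod) X = cj l.prod X := by
    rw [← cj_mul, cj_eq_of_mem_centralizer hc]
  rw [hX] at hc' hl'
  refine ⟨c * (l.prod * c' * l.prod⁻¹), Subgroup.mul_mem _ hc (conj_mem_centralizer_cj hc'), l ++ l',
    gchain_append l l' hl hl', ?_⟩
  rw [List.prod_append]
  group

theorem Good.of_mem {X : Set G} {b : G} (hb : b ∈ M) (hX : X ⊆ S) (hXb : cj b X ⊆ S) : Good M S X b :=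
  ⟨1, Subgroup.one_mem _, [b], ⟨hX, hb, hXb⟩, by simp⟩

theorem Good.of_centralizer {X : Set G} {c : G} (hc : c ∈ Subgroup.centralizer X) (hX : X ⊆ S) :
    Good M S X c :=
  ⟨c, hc, [], hX, by simp⟩

theorem Good.centralizer_mul {X : Set G} {a c : G} (h : Good M S X a) (hc : c ∈ Subgroup.centralizer X) :
    Good M S X (c * a) := by
  obtain ⟨c', hc', l, hl, rfl⟩ := h
  exact ⟨c * c', Subgroup.mul_mem _ hc hc', l, hl, by rw [mul_assoc]⟩

theorem Good.inv (hM : ∀ b ∈ M, b⁻¹ ∈ M) {X : Set G} {a : G} (h : Good M S X a) :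
    Good M S (cj a X) a⁻¹ := by
  obtain ⟨c, hc, l, hl, rfl⟩ := h
  have hX : cj (c * l.prod) X = cj l.prod X := by
    rw [← cj_mul, cj_eq_of_mem_centralizer hc]
  rw [hX]
  refine ⟨l.prod⁻¹ * c⁻¹ * l.prod, conj_mem_centralizer_cj' (Subgroup.inv_mem _ hc),
    l.reverse.map (fun b => b⁻¹), gchain_reverse hM l hl, ?_⟩
  have hp : (l.reverse.map (fun b => b⁻¹)).prod = l.prod⁻¹ := by
    rw [List.prod_inv_reverse, List.map_reverse]
  rw [hp]
  group

theorem Good.conj (g : G) {X : Set G} {a : G} (h : Good M S X a) :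
    Good (cj g M) (cj g S) (cj g X) (g⁻¹ * a * g) := by
  obtain ⟨c, hc, l, hl, rfl⟩ := h
  refine ⟨g⁻¹ * c * g, conj_mem_centralizer_cj' hc, l.map (fun b => g⁻¹ * b * g), gchain_conj g l hl, ?_⟩
  rw [prod_map_conj]
  group

end Cfsg.Agent.Lib.Helper34.GoodFus
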