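import Cfsg.Agent.Lib.Helper33.KBad
import Cfsg.Agent.Lib.Helper34.WCPow

set_option autoImplicit false
set_option linter.unusedSectionVars false
set_option linter.style.haveILetI false

/-! Relative forms (for a subgroup `H` of `G` with a relative Sylow subgroup `T`) of the facts
about the lower `K_∞` functor: it contains the centre, it is a conjugacy functor, and when
`K_∞(T)` is not normalized by `H` some `g ∈ T` outside `O_p(H)` acts quadratically on
`Z(O_p(H))`. -/

namespace Cfsg.Agent.Lib.Helper34.KRel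

open Cfsg
open Cfsg.Agent.Lib.Helper33
open Cfsg.Agent.Lib.Helper33.Conj
open Cfsg.Agent.Lib.Helper33.Sections
open Cfsg.Agent.Lib.Helper33.Critical
open Cfsg.Agent.Lib.Helper34.WCPow

universe u

variable {G : Type u} [Group G]

theorem center_le_induced_lower (P : Subgroup G) :
    P ⊓ Subgroup.centralizer (P : Set G) ≤ inducedFunctor (G := G) kInfLower P := by
  intro x hx
  have hxc : (⟨x, hx.1⟩ : ↥P) ∈ Subgroup.center ↥P := by
    rw [Subgroup.mem_center_iff]
    intro y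
    apply Subtype.ext
    exact hx.2 y y.2
  exact ⟨⟨x, hx.1⟩, KNormal.center_le_kInfLower ↥P hxc, rfl⟩

theorem center_le_induced_upper (P : Subgroup G) :
    P ⊓ Subgroup.centralizer (P : Set G) ≤ inducedFunctor (G := G) kInfUpper P := by
  intro x hx
  have hxc : (⟨x, hx.1⟩ : ↥P) ∈ Subgroup.center ↥P := by
    rw [Subgroup.mem_center_iff]
    intro y
    apply Subtype.ext
    exact hx.2 y y.2
  exact ⟨⟨x, hx.1⟩, KNormal.center_le_kInfUpper ↥P hxc, rfl⟩

theorem le_normalizer_map_of_normal (H : Subgroup G) (N : Subgroup ↥H) [hN : N.Normal] :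
    H ≤ Subgroup.normalizer ((N.map H.subtype : Subgroup G) : Set G) := by
  intro h hh
  rw [Subgroup.mem_normalizer_iff]
  intro x
  constructor
  · rintro ⟨y, hy, rfl⟩
    exact ⟨⟨h, hh⟩ * y * ⟨h, hh⟩⁻¹, hN.conj_mem y hy ⟨h, hh⟩, rfl⟩
  · rintro ⟨y, hy, hyx⟩
    refine ⟨⟨h, hh⟩⁻¹ * y * ⟨h, hh⟩, ?_, ?_⟩
    · have := hN.conj_mem y hy ⟨h, hh⟩⁻¹
      simpa using this
    · have e : (H.subtype (⟨h, hh⟩⁻¹ * y * ⟨h, hh⟩) : G) = h⁻¹ * (y : G) * h := rfl
      rw [e]
      have e2 : (y : G) = h * x * h⁻¹ := hyx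
      rw [e2]
      group

variable [Finite G] {p : ℕ} [Fact p.Prime]

/-- Relative form of helper33's `KBad.exists_quadratic`: the hypothesis only asks that the
value at `T` of ONE of the two `K_∞` functors is not normalized by `H`. -/
theorem exists_quadratic_rel_of {W : ∀ (Q : Type u) [Group Q], Subgroup Q}
    (hW : IsCharPFunctor.{u} p W)
    (hWn : ∀ (Y : Type u) [Group Y] [Finite Y] (S : Subgroup Y),
      ((inducedFunctor (G := Y) kInfLower S).Normal ∧
        (inducedFunctor (G := Y) kInfUpper S).Normal) → (inducedFunctor (G := Y) W S).Normal)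
    (H T : Subgroup G) (hTH : T ≤ H) (hT : IsPGroup p ↥T)
    (hi : ¬ p ∣ T.relIndex H)
    (hn : ¬ H ≤ Subgroup.normalizer ((inducedFunctor (G := G) W T : Subgroup G) : Set G)) :
    ∃ g ∈ T, g ∉ pCoreOf p H ∧
      ⁅⁅pCoreOf p H ⊓ Subgroup.centralizer ((pCoreOf p H : Subgroup G) : Set G),
        Subgroup.zpowers g⁆, Subgroup.zpowers g⁆ = ⊥ ∧
      ∀ U V : Subgroup ↥H, IsChiefFactor U V → U.map H.subtype ≤ pCoreOf p H →
        iterCommutator (U.map H.subtype) (Subgroup.zpowers g) 4 ≤ V.map H.subtype := by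
  have hsyl : IsSylIn p T H := ⟨hTH, hT, hi⟩
  have hQT : pCoreOf p H ≤ T := pCoreOf_le_of_isSylIn hsyl
  have hPS : pCore p ↥H ≤ T.subgroupOf H := by
    intro x hx
    rw [Subgroup.mem_subgroupOf]
    exact hQT ⟨x, hx, rfl⟩
  have hn' : ¬ ((inducedFunctor (G := ↥H) kInfLower (T.subgroupOf H)).Normal ∧
      (inducedFunctor (G := ↥H) kInfUpper (T.subgroupOf H)).Normal) := by
    intro hnorm
    have hnorm' := hWn ↥H (T.subgroupOf H) hnorm
    apply hn
    have h1 := KNormal.induced_eq_of_subgroupOf hW H T hT hTH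
    rw [← h1]
    haveI := hnorm'
    exact le_normalizer_map_of_normal H (inducedFunctor (G := ↥H) W (T.subgroupOf H))
  obtain ⟨g, hgS, hgP, hq, hch⟩ := KBad.exists_quadratic (T.subgroupOf H) hPS hn'
  refine ⟨(g : G), Subgroup.mem_subgroupOf.mp hgS, ?_, ?_, ?_⟩
  · rintro ⟨y, hy, hyg⟩
    have : y = g := Subtype.ext hyg
    exact hgP (this ▸ hy)
  · have hZ : pCoreOf p H ⊓ Subgroup.centralizer ((pCoreOf p H : Subgroup G) : Set G) ≤
        (pCore p ↥H ⊓ Subgroup.centralizer ((pCore p ↥H : Subgroup ↥H) : Set ↥H)).map H.subtype := by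
      rintro x ⟨⟨y, hy, rfl⟩, hxc⟩
      refine ⟨y, ⟨hy, ?_⟩, rfl⟩
      intro z hz
      apply Subtype.ext
      exact hxc (z : G) ⟨z, hz, rfl⟩
    have hzp : Subgroup.zpowers (g : G) = (Subgroup.zpowers g).map H.subtype := by
      rw [MonoidHom.map_zpowers]; rfl
    rw [eq_bot_iff]
    refine le_trans (Subgroup.commutator_mono (Subgroup.commutator_mono hZ le_rfl) le_rfl) ?_
    rw [hzp, ← Subgroup.map_commutator, ← Subgroup.map_commutator, hq, Subgroup.map_bot]
  · intro U V hUV hU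
    have hU' : U ≤ pCore p ↥H := by
      intro x hx
      obtain ⟨y, hy, hyx⟩ := hU ⟨x, hx, rfl⟩
      have : y = x := Subtype.ext hyx
      exact this ▸ hy
    have h1 := hch U V hUV hU'
    have hzp : Subgroup.zpowers (g : G) = (Subgroup.zpowers g).map H.subtype := by
      rw [MonoidHom.map_zpowers]; rfl
    rw [hzp, ← Engel.iterCommutator_map]
    exact Subgroup.map_mono h1

theorem exists_quadratic_rel_lower (H T : Subgroup G) (hTH : T ≤ H) (hT : IsPGroup p ↥T)
    (hi : ¬ p ∣ T.relIndex H)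
    (hn : ¬ H ≤ Subgroup.normalizer ((inducedFunctor (G := G) kInfLower T : Subgroup G) : Set G)) :
    ∃ g ∈ T, g ∉ pCoreOf p H ∧
      ⁅⁅pCoreOf p H ⊓ Subgroup.centralizer ((pCoreOf p H : Subgroup G) : Set G),
        Subgroup.zpowers g⁆, Subgroup.zpowers g⁆ = ⊥ ∧
      ∀ U V : Subgroup ↥H, IsChiefFactor U V → U.map H.subtype ≤ pCoreOf p H →
        iterCommutator (U.map H.subtype) (Subgroup.zpowers g) 4 ≤ V.map H.subtype :=
  exists_quadratic_rel_of (KNormal.isCharPFunctor_kInfLower p) (fun _ _ _ _ h => h.1)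
    H T hTH hT hi hn

theorem exists_quadratic_rel_upper (H T : Subgroup G) (hTH : T ≤ H) (hT : IsPGroup p ↥T)
    (hi : ¬ p ∣ T.relIndex H)
    (hn : ¬ H ≤ Subgroup.normalizer ((inducedFunctor (G := G) kInfUpper T : Subgroup G) : Set G)) :
    ∃ g ∈ T, g ∉ pCoreOf p H ∧
      ⁅⁅pCoreOf p H ⊓ Subgroup.centralizer ((pCoreOf p H : Subgroup G) : Set G),
        Subgroup.zpowers g⁆, Subgroup.zpowers g⁆ = ⊥ ∧
      ∀ U V : Subgroup ↥H, IsChiefFactor U V → U.map H.subtype ≤ pCoreOf p H →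
        iterCommutator (U.map H.subtype) (Subgroup.zpowers g) 4 ≤ V.map H.subtype :=
  exists_quadratic_rel_of (KNormal.isCharPFunctor_kInfUpper p) (fun _ _ _ _ h => h.2)
    H T hTH hT hi hn

end Cfsg.Agent.Lib.Helper34.KRel
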