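import Cfsg.Agent.Lib.Helper89.NCStmt

/-!
# S3921 piece CSPLIT (helper34)

The centralizer in `SL(2,q)` of an element with an eigenvalue `l`, `l^2 ≠ 1`, is cyclic of order
`q - 1` (conjugate to a diagonal element; its centralizer is the diagonal torus `≃* Fˣ`).
-/

set_option autoImplicit false

namespace Cfsg.Agent.Lib.Helper34.NCCSPLIT

open Cfsg.Agent.Lib.Helper89

/-- conjugation carries centralizers to centralizers -/
def centConj {G : Type*} [Group G] (c P : G) :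
    Subgroup.centralizer ({c} : Set G) ≃* Subgroup.centralizer ({P⁻¹ * c * P} : Set G) where
  toFun g := ⟨P⁻¹ * g.1 * P, by
    have h0 := Subgroup.mem_centralizer_iff.1 g.2 c rfl
    rw [Subgroup.mem_centralizer_iff]
    intro h hh
    rw [Set.mem_singleton_iff] at hh
    subst hh
    calc P⁻¹ * c * P * (P⁻¹ * g.1 * P) = P⁻¹ * (c * g.1) * P := by group
      _ = P⁻¹ * (g.1 * c) * P := by rw [h0]
      _ = P⁻¹ * g.1 * P * (P⁻¹ * c * P) := by group⟩
  invFun h := ⟨P * h.1 * P⁻¹, by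
    have h0 := Subgroup.mem_centralizer_iff.1 h.2 _ rfl
    rw [Subgroup.mem_centralizer_iff]
    intro k hk
    rw [Set.mem_singleton_iff] at hk
    subst hk
    calc k * (P * h.1 * P⁻¹) = P * (P⁻¹ * k * P * h.1) * P⁻¹ := by group
      _ = P * (h.1 * (P⁻¹ * k * P)) * P⁻¹ := by rw [h0]
      _ = P * h.1 * P⁻¹ * k := by group⟩
  left_inv g := Subtype.ext (by simp [mul_assoc])
  right_inv h := Subtype.ext (by simp [mul_assoc])
  map_mul' g h := Subtype.ext (by simp [mul_assoc])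

variable {F : Type} [Field F]

local notation "SL2" => Matrix.SpecialLinearGroup (Fin 2) F

theorem det_eq (g : SL2) : g.1 0 0 * g.1 1 1 - g.1 0 1 * g.1 1 0 = 1 := by
  have h := g.2
  rw [Matrix.det_fin_two] at h
  exact h

theorem mul_entry (g h : SL2) (i j : Fin 2) :
    (g * h).1 i j = g.1 i 0 * h.1 0 j + g.1 i 1 * h.1 1 j := by
  rw [Matrix.SpecialLinearGroup.coe_mul, Matrix.mul_apply, Fin.sum_univ_two]

theorem diag_mem_iff (e : SL2) (h01 : e.1 0 1 = 0) (h10 : e.1 1 0 = 0) (hl : e.1 0 0 ^ 2 ≠ 1)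
    (g : SL2) :
    g ∈ Subgroup.centralizer ({e} : Set SL2) ↔ g.1 0 1 = 0 ∧ g.1 1 0 = 0 := by
  have hdet : e.1 0 0 * e.1 1 1 = 1 := by
    have h := det_eq e
    rw [h01] at h
    linear_combination h
  have hne : e.1 0 0 - e.1 1 1 ≠ 0 := by
    intro h
    apply hl
    have h' : e.1 1 1 = e.1 0 0 := by linear_combination -h
    rw [h'] at hdet
    rw [pow_two]; exact hdet
  rw [Subgroup.mem_centralizer_iff]
  constructor
  · intro h
    have h1 := h e rfl
    have h3 : (e * g).1 0 1 = (g * e).1 0 1 := by rw [h1]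
    have h4 : (e * g).1 1 0 = (g * e).1 1 0 := by rw [h1]
    rw [mul_entry, mul_entry, h01] at h3
    rw [mul_entry, mul_entry, h10] at h4
    constructor
    · have h5 : g.1 0 1 * (e.1 0 0 - e.1 1 1) = 0 := by linear_combination h3
      rcases mul_eq_zero.1 h5 with h | h
      · exact h
      · exact absurd h hne
    · have h5 : g.1 1 0 * (e.1 0 0 - e.1 1 1) = 0 := by linear_combination -h4
      rcases mul_eq_zero.1 h5 with h | h
      · exact h
      · exact absurd h hne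
  · rintro ⟨g01, g10⟩ h hh
    rw [Set.mem_singleton_iff] at hh
    subst hh
    apply Subtype.ext
    ext i j
    rw [mul_entry, mul_entry]
    fin_cases i <;> fin_cases j <;> simp [h01, h10, g01, g10, mul_comm]

/-- the centralizer of a diagonal element with distinct eigenvalues is the torus `≃* Fˣ` -/
noncomputable def diagEquiv (e : SL2) (h01 : e.1 0 1 = 0) (h10 : e.1 1 0 = 0)
    (hl : e.1 0 0 ^ 2 ≠ 1) :
    Subgroup.centralizer ({e} : Set SL2) ≃* Fˣ where
  toFun g := Units.mk (g.1.1 0 0) (g.1.1 1 1)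
    (by
      have h := det_eq g.1
      rw [((diag_mem_iff e h01 h10 hl g.1).1 g.2).1] at h
      linear_combination h)
    (by
      have h := det_eq g.1
      rw [((diag_mem_iff e h01 h10 hl g.1).1 g.2).1] at h
      linear_combination h)
  invFun a := ⟨⟨!![(a : F), 0; 0, ((a⁻¹ : Fˣ) : F)], by
      rw [Matrix.det_fin_two_of]; simp⟩,
    (diag_mem_iff e h01 h10 hl _).2 ⟨by simp, by simp⟩⟩
  left_inv g := by
    obtain ⟨g01, g10⟩ := (diag_mem_iff e h01 h10 hl g.1).1 g.2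
    apply Subtype.ext
    apply Subtype.ext
    ext i j
    fin_cases i <;> fin_cases j <;> simp [g01, g10]
  right_inv a := Units.ext (by simp)
  map_mul' g h := by
    obtain ⟨g01, g10⟩ := (diag_mem_iff e h01 h10 hl g.1).1 g.2
    apply Units.ext
    show (g.1 * h.1).1 0 0 = g.1.1 0 0 * h.1.1 0 0
    rw [mul_entry, g01]; ring

/-- triangularize: an eigenvector becomes the first basis vector -/
theorem tri_step (c : SL2) (l : F) (v : Fin 2 → F) (hv : v ≠ 0)
    (hcv : (c : Matrix (Fin 2) (Fin 2) F).mulVec v = l • v) :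
    ∃ P : SL2, (P⁻¹ * c * P).1 1 0 = 0 ∧ (P⁻¹ * c * P).1 0 0 = l := by
  have hx : ∃ p q : F, v 0 * q - p * v 1 = 1 := by
    by_cases h0 : v 0 = 0
    · have h1 : v 1 ≠ 0 := by
        intro h1; apply hv; ext i; fin_cases i
        · exact h0
        · exact h1
      exact ⟨-(v 1)⁻¹, 0, by rw [mul_zero, neg_mul, inv_mul_cancel₀ h1]; ring⟩
    · exact ⟨0, (v 0)⁻¹, by rw [mul_inv_cancel₀ h0]; ring⟩
  obtain ⟨p, q, hpq⟩ := hx
  obtain ⟨P, hP⟩ : ∃ P : SL2, P.1 = !![v 0, p; v 1, q] :=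
    ⟨⟨!![v 0, p; v 1, q], by rw [Matrix.det_fin_two_of]; exact hpq⟩, rfl⟩
  refine ⟨P, ?_⟩
  have hPd : P * (P⁻¹ * c * P) = c * P := by group
  have e00 : (P * (P⁻¹ * c * P)).1 0 0 = (c * P).1 0 0 := by rw [hPd]
  have e10 : (P * (P⁻¹ * c * P)).1 1 0 = (c * P).1 1 0 := by rw [hPd]
  have c0 := congrFun hcv 0
  have c1 := congrFun hcv 1
  rw [mul_entry P, mul_entry c] at e00 e10
  simp only [hP, Matrix.of_apply, Matrix.cons_val_zero, Matrix.cons_val_one,
    Matrix.cons_val', Matrix.cons_val_fin_one] at e00 e10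
  simp only [Matrix.mulVec, dotProduct, Fin.sum_univ_two, Pi.smul_apply, smul_eq_mul] at c0 c1
  constructor
  · linear_combination (-((P⁻¹ * c * P).1 1 0)) * hpq + v 0 * e10 - v 1 * e00 + v 0 * c1 - v 1 * c0
  · linear_combination (l - (P⁻¹ * c * P).1 0 0) * hpq + q * e00 - p * e10 + q * c0 - p * c1

/-- diagonalize a triangular element with distinct eigenvalues -/
theorem diag_step (d : SL2) (h10 : d.1 1 0 = 0) (hl : d.1 0 0 ^ 2 ≠ 1) :
    ∃ U : SL2, (U⁻¹ * d * U).1 0 1 = 0 ∧ (U⁻¹ * d * U).1 1 0 = 0 ∧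
      (U⁻¹ * d * U).1 0 0 = d.1 0 0 := by
  have hdet : d.1 0 0 * d.1 1 1 = 1 := by
    have h := det_eq d
    rw [h10] at h
    linear_combination h
  have hne : d.1 0 0 - d.1 1 1 ≠ 0 := by
    intro h
    apply hl
    have h' : d.1 1 1 = d.1 0 0 := by linear_combination -h
    rw [h'] at hdet
    rw [pow_two]; exact hdet
  obtain ⟨s, hs⟩ : ∃ s : F, s * (d.1 0 0 - d.1 1 1) = - d.1 0 1 :=
    ⟨- d.1 0 1 / (d.1 0 0 - d.1 1 1), by field_simp⟩
  obtain ⟨U, hU⟩ : ∃ U : SL2, U.1 = !![1, s; 0, 1] :=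
    ⟨⟨!![1, s; 0, 1], by rw [Matrix.det_fin_two_of]; ring⟩, rfl⟩
  refine ⟨U, ?_⟩
  have hUe : U * (U⁻¹ * d * U) = d * U := by group
  have e00 : (U * (U⁻¹ * d * U)).1 0 0 = (d * U).1 0 0 := by rw [hUe]
  have e10 : (U * (U⁻¹ * d * U)).1 1 0 = (d * U).1 1 0 := by rw [hUe]
  have e01 : (U * (U⁻¹ * d * U)).1 0 1 = (d * U).1 0 1 := by rw [hUe]
  have e11 : (U * (U⁻¹ * d * U)).1 1 1 = (d * U).1 1 1 := by rw [hUe]
  rw [mul_entry U, mul_entry d] at e00 e10 e01 e11
  simp only [hU, Matrix.of_apply, Matrix.cons_val_zero, Matrix.cons_val_one,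
    Matrix.cons_val', Matrix.cons_val_fin_one] at e00 e10 e01 e11
  have h10' : (U⁻¹ * d * U).1 1 0 = 0 := by linear_combination e10 + h10
  refine ⟨?_, h10', ?_⟩
  · linear_combination e01 - s * e11 + hs - s * s * h10
  · linear_combination e00 - s * h10'

theorem main : NCStmt.CSplit := by
  intro F _ _ _ c ⟨l, v, hv, hl, hcv⟩
  obtain ⟨P, hP10, hP00⟩ := tri_step c l v hv hcv
  have hl' : (P⁻¹ * c * P).1 0 0 ^ 2 ≠ 1 := by rw [hP00]; exact hl
  obtain ⟨U, hU01, hU10, hU00⟩ := diag_step (P⁻¹ * c * P) hP10 hl'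
  have hl'' : (U⁻¹ * (P⁻¹ * c * P) * U).1 0 0 ^ 2 ≠ 1 := by rw [hU00]; exact hl'
  have E : Subgroup.centralizer ({c} : Set (Matrix.SpecialLinearGroup (Fin 2) F)) ≃* Fˣ :=
    (centConj c P).trans ((centConj (P⁻¹ * c * P) U).trans (diagEquiv _ hU01 hU10 hl''))
  constructor
  · exact E.isCyclic.2 inferInstance
  · rw [Nat.card_congr E.toEquiv, Nat.card_units, Nat.card_eq_fintype_card]

end Cfsg.Agent.Lib.Helper34.NCCSPLIT
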