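import Cfsg.Agent.Lib.Helper89.NCStmt

/-!
# S3921 piece EVENB (helper34)

An element of `s`-power order normalizing an `r`-group `Q` of order dividing `r^2`, or nonabelian
of order `r^3` (`r` odd, `r < s`), centralizes `Q`.
-/

set_option autoImplicit false

namespace Cfsg.Agent.Lib.Helper34.NCEVENB

universe u

open Cfsg.Agent.Lib.Helper89

/-- number theory core: `s ∤ r^d - 1` for `d = 1, 2`. -/
theorem nt_core (r s : ℕ) (hr : r.Prime) (hs : s.Prime) (hrs : r < s) (hodd : Odd r)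
    (i j : ℕ) (hji : j ≤ i) (hij : i ≤ j + 2) (h : r ^ i ≡ r ^ j [MOD s]) : i = j := by
  obtain ⟨d, rfl⟩ := Nat.exists_eq_add_of_le hji
  have hd : d ≤ 2 := by omega
  have hcop : Nat.gcd s (r ^ j) = 1 := by
    have h0 : Nat.Coprime s r := (Nat.coprime_primes hs hr).2 (by omega)
    exact Nat.Coprime.pow_right j h0
  have h1 : r ^ d ≡ 1 [MOD s] := by
    have h2 : r ^ j * r ^ d ≡ r ^ j * 1 [MOD s] := by
      rw [← pow_add, mul_one]; exact h
    exact Nat.ModEq.cancel_left_of_coprime hcop h2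
  have hr2 : 2 ≤ r := hr.two_le
  interval_cases d
  · rfl
  · exfalso
    rw [pow_one] at h1
    have h3 := Nat.ModEq.eq_of_lt_of_lt h1 (by omega) (by omega)
    omega
  · exfalso
    have hdvd : s ∣ r ^ 2 - 1 := (Nat.modEq_iff_dvd' (Nat.one_le_pow _ _ (by omega))).1 h1.symm
    have hfac : r ^ 2 - 1 = (r - 1) * (r + 1) := by
      obtain ⟨k, rfl⟩ : ∃ k, r = k + 1 := ⟨r - 1, by omega⟩
      simp only [Nat.add_sub_cancel]
      have : (k + 1) ^ 2 = k * (k + 1 + 1) + 1 := by ring
      omega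
    rw [hfac] at hdvd
    rcases (Nat.Prime.dvd_mul hs).1 hdvd with h3 | h3
    · have := Nat.le_of_dvd (by omega) h3; omega
    · have h4 := Nat.le_of_dvd (by omega) h3
      have hs' : s = r + 1 := by omega
      have h5 : Even s := by rw [hs']; exact hodd.add_one
      have h6 := (Nat.Prime.even_iff hs).1 h5
      omega

variable {G : Type u} [Group G]

/-- conjugation action of `zpowers g` on `Q` for `g ∈ N(Q)` -/
@[reducible] def conjAct (Q : Subgroup G) (g : G) (hg : g ∈ Subgroup.normalizer (Q : Set G)) :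
    MulAction (Subgroup.zpowers g) Q where
  smul h x := ⟨h.1 * x.1 * h.1⁻¹,
    (Subgroup.mem_normalizer_iff.1 (Subgroup.zpowers_le.2 hg h.2) x.1).1 x.2⟩
  one_smul x := Subtype.ext (by show (1 : G) * x.1 * (1 : G)⁻¹ = x.1; simp)
  mul_smul a b x := Subtype.ext (by
    show (a.1 * b.1) * x.1 * (a.1 * b.1)⁻¹ = a.1 * (b.1 * x.1 * b.1⁻¹) * a.1⁻¹
    simp [mul_assoc])

theorem core [Finite G] (r s : ℕ) (hr : r.Prime) (hs : s.Prime) (hrs : r < s) (hodd : Odd r)
    (Q : Subgroup G) (g : G) (hg : g ∈ Subgroup.normalizer (Q : Set G)) (a : ℕ)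
    (ha : orderOf g = s ^ a) (i j : ℕ) (hQ : Nat.card Q = r ^ i)
    (hC : Nat.card ((Subgroup.centralizer ({g} : Set G)).subgroupOf Q) = r ^ j)
    (hij : i ≤ j + 2) : g ∈ Subgroup.centralizer (Q : Set G) := by
  have : Fact s.Prime := ⟨hs⟩
  let _ := conjAct Q g hg
  have hP : IsPGroup s (Subgroup.zpowers g) := by
    refine IsPGroup.of_card (n := a) ?_
    rw [Nat.card_zpowers, ha]
  have hmod := hP.card_modEq_card_fixedPoints Q
  have hfix : (MulAction.fixedPoints (Subgroup.zpowers g) Q) =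
      (((Subgroup.centralizer ({g} : Set G)).subgroupOf Q : Subgroup Q) : Set Q) := by
    ext x
    simp only [MulAction.mem_fixedPoints, SetLike.mem_coe, Subgroup.mem_subgroupOf,
      Subgroup.mem_centralizer_iff, Set.mem_singleton_iff, forall_eq]
    constructor
    · intro h
      have h1 := h ⟨g, Subgroup.mem_zpowers g⟩
      have h2 : g * x.1 * g⁻¹ = x.1 := congrArg Subtype.val h1
      calc g * x.1 = g * x.1 * g⁻¹ * g := by group
        _ = x.1 * g := by rw [h2]
    · rintro h ⟨y, hy⟩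
      obtain ⟨k, rfl⟩ := Subgroup.mem_zpowers_iff.1 hy
      have hc : Commute (g ^ k) x.1 := Commute.zpow_left h k
      refine Subtype.ext ?_
      show g ^ k * x.1 * (g ^ k)⁻¹ = x.1
      rw [hc.eq, mul_inv_cancel_right]
  have hcard : Nat.card (MulAction.fixedPoints (Subgroup.zpowers g) Q) = r ^ j := by
    rw [hfix]; exact hC
  rw [hcard, hQ] at hmod
  have hji : j ≤ i := by
    have hdv : r ^ j ∣ r ^ i := by
      rw [← hC, ← hQ]; exact Subgroup.card_subgroup_dvd_card _
    exact (Nat.pow_dvd_pow_iff_le_right hr.one_lt).1 hdv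
  have hij' : i = j := nt_core r s hr hs hrs hodd i j hji hij hmod
  have htop : (Subgroup.centralizer ({g} : Set G)).subgroupOf Q = ⊤ := by
    apply (Subgroup.card_eq_iff_eq_top _).1
    rw [hC, hQ, hij']
  rw [Subgroup.mem_centralizer_iff]
  intro x hx
  have hx' : (⟨x, hx⟩ : Q) ∈ (Subgroup.centralizer ({g} : Set G)).subgroupOf Q := by
    rw [htop]; exact Subgroup.mem_top _
  rw [Subgroup.mem_subgroupOf, Subgroup.mem_centralizer_iff] at hx'
  exact (hx' g rfl).symm

theorem case1 [Finite G] (r s : ℕ) (hr : r.Prime) (hs : s.Prime) (hrs : r < s) (hodd : Odd r)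
    (Q : Subgroup G) (g : G) (hg : g ∈ Subgroup.normalizer (Q : Set G)) (a : ℕ)
    (ha : orderOf g = s ^ a) (hQ : Nat.card Q ∣ r ^ 2) :
    g ∈ Subgroup.centralizer (Q : Set G) := by
  obtain ⟨i, hi, hQi⟩ := (Nat.dvd_prime_pow hr).1 hQ
  have hdv : Nat.card ((Subgroup.centralizer ({g} : Set G)).subgroupOf Q) ∣ r ^ i :=
    hQi ▸ Subgroup.card_subgroup_dvd_card _
  obtain ⟨j, hj, hCj⟩ := (Nat.dvd_prime_pow hr).1 hdv
  exact core r s hr hs hrs hodd Q g hg a ha i j hQi hCj (by omega)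

theorem main : NCStmt.EvenB.{u} := by
  intro G _ _ r s hr hs hrs hodd Q g hg ⟨a, ha⟩ hQ
  rcases hQ with hQ | ⟨hQ, hnc⟩
  · exact case1 r s hr hs hrs hodd Q g hg a ha hQ
  · have hN := Subgroup.mem_normalizer_iff.1 hg
    have hgZ : g ∈ Subgroup.normalizer ((Q ⊓ Subgroup.centralizer (Q : Set G) : Subgroup G) : Set G) := by
      rw [Subgroup.mem_normalizer_iff]
      intro h
      constructor
      · intro hh
        obtain ⟨h1, h2⟩ := Subgroup.mem_inf.1 hh
        refine Subgroup.mem_inf.2 ⟨(hN h).1 h1, ?_⟩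
        rw [Subgroup.mem_centralizer_iff] at h2 ⊢
        intro q hq
        have hq' : g⁻¹ * q * g ∈ Q := by
          rw [hN]
          have : g * (g⁻¹ * q * g) * g⁻¹ = q := by group
          rw [this]; exact hq
        have hc := h2 _ hq'
        calc q * (g * h * g⁻¹) = g * (g⁻¹ * q * g * h) * g⁻¹ := by group
          _ = g * (h * (g⁻¹ * q * g)) * g⁻¹ := by rw [hc]
          _ = g * h * g⁻¹ * q := by group
      · intro hh
        obtain ⟨h1, h2⟩ := Subgroup.mem_inf.1 hh
        refine Subgroup.mem_inf.2 ⟨(hN h).2 h1, ?_⟩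
        rw [Subgroup.mem_centralizer_iff] at h2 ⊢
        intro q hq
        have hq' : g * q * g⁻¹ ∈ Q := (hN q).1 hq
        have hc := h2 _ hq'
        calc q * h = g⁻¹ * (g * q * g⁻¹ * (g * h * g⁻¹)) * g := by group
          _ = g⁻¹ * (g * h * g⁻¹ * (g * q * g⁻¹)) * g := by rw [hc]
          _ = h * q := by group
    have hZle : Q ⊓ Subgroup.centralizer (Q : Set G) ≤ Q := inf_le_left
    have hZdvd : Nat.card ↥(Q ⊓ Subgroup.centralizer (Q : Set G)) ∣ r ^ 3 :=
      hQ ▸ Subgroup.card_dvd_of_le hZle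
    obtain ⟨k, hk, hZk⟩ := (Nat.dvd_prime_pow hr).1 hZdvd
    have hk3 : k ≠ 3 := by
      rintro rfl
      have hEq : Q ⊓ Subgroup.centralizer (Q : Set G) = Q :=
        Subgroup.eq_of_le_of_card_ge hZle (by rw [hZk, hQ])
      apply hnc
      refine ⟨⟨fun x y => Subtype.ext ?_⟩⟩
      have hx : x.1 ∈ Q ⊓ Subgroup.centralizer (Q : Set G) := by rw [hEq]; exact x.2
      exact (Subgroup.mem_centralizer_iff.1 (Subgroup.mem_inf.1 hx).2 y.1 y.2).symm
    have hZ2 : Nat.card ↥(Q ⊓ Subgroup.centralizer (Q : Set G)) ∣ r ^ 2 := by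
      rw [hZk]; exact pow_dvd_pow r (by omega)
    have hgZc := case1 r s hr hs hrs hodd _ g hgZ a ha hZ2
    have hQp : IsPGroup r Q := IsPGroup.of_card hQ
    have : Fact r.Prime := ⟨hr⟩
    have : Nontrivial Q := by
      apply (Finite.one_lt_card_iff_nontrivial).1
      rw [hQ]; exact Nat.one_lt_pow (by norm_num) hr.one_lt
    have := hQp.center_nontrivial
    obtain ⟨z, hz⟩ := exists_ne (1 : Subgroup.center Q)
    have hzZ : z.1.1 ∈ Q ⊓ Subgroup.centralizer (Q : Set G) := by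
      refine Subgroup.mem_inf.2 ⟨z.1.2, ?_⟩
      rw [Subgroup.mem_centralizer_iff]
      intro q hq
      have := Subgroup.mem_center_iff.1 z.2 ⟨q, hq⟩
      exact congrArg Subtype.val this
    have hdv : Nat.card ((Subgroup.centralizer ({g} : Set G)).subgroupOf Q) ∣ r ^ 3 :=
      hQ ▸ Subgroup.card_subgroup_dvd_card _
    obtain ⟨j, hj, hCj⟩ := (Nat.dvd_prime_pow hr).1 hdv
    have hj0 : j ≠ 0 := by
      rintro rfl
      rw [pow_zero, Subgroup.card_eq_one] at hCj
      have hzC : z.1 ∈ (Subgroup.centralizer ({g} : Set G)).subgroupOf Q := by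
        rw [Subgroup.mem_subgroupOf, Subgroup.mem_centralizer_iff]
        intro y hy
        rw [Set.mem_singleton_iff] at hy
        subst hy
        exact (Subgroup.mem_centralizer_iff.1 hgZc _ hzZ).symm
      rw [hCj, Subgroup.mem_bot] at hzC
      exact hz (Subtype.ext hzC)
    exact core r s hr hs hrs hodd Q g hg a ha 3 j hQ hCj (by omega)

end Cfsg.Agent.Lib.Helper34.NCEVENB
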