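import Cfsg.Agent.Lib.Helper88.ORStmt
import Cfsg.Agent.H85.Sat
import Cfsg.Agent.S5097

/-!
# S5202 piece TRIV (helper34)

If `Aut_{F₀}(T) ≤ Aut_E(T)` and the focal subgroup of `C_F(T)` lies in `T`, then every map of `F₀`
(over `T C_S(T)`) is trivial modulo `T`.
-/

set_option autoImplicit false

namespace Cfsg.Agent.Lib.Helper34.ORTRIV

open Cfsg Cfsg.FusionSystem Cfsg.Agent.H85 Cfsg.Agent.Lib.Helper88

universe u

variable {Ω : Type u} [Group Ω] {S : Subgroup Ω}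

/-- The restriction to a strongly closed `T` of a map of `F` whose source contains `T` is an
element of `Aut_F(T)`. -/
theorem exists_resHom (F : FusionSystem S) {T Y : Subgroup Ω} [Finite T]
    (hT : F.StronglyClosed T) (hTY : T ≤ Y) {ψ : Y →* Ω} (hψ : ψ ∈ F.Hom Y) :
    ∃ γ ∈ F.autGroup T, ∀ t : T, ((γ t : T) : Ω) = ψ ⟨t, hTY t.2⟩ := by
  have hc := restrict_mem F hψ hTY
  have hinj := F.injective_of_mem hc
  have hle : (ψ.comp (Subgroup.inclusion hTY)).range ≤ T := by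
    rintro y ⟨x, rfl⟩
    exact hT.2 T le_rfl _ hc x
  have hr : (ψ.comp (Subgroup.inclusion hTY)).range = T := by
    apply Subgroup.eq_of_le_of_card_ge hle
    exact (Nat.card_congr (MonoidHom.ofInjective hinj).toEquiv).le
  exact ⟨isoOf F hc hr, (mem_autGroup_iff F hT.1 _).mpr (isIso_isoOf F hc hr), fun t => rfl⟩

/-- the product of two elementwise commuting subgroups -/
def prodSub (T C : Subgroup Ω) (hcomm : ∀ t ∈ T, ∀ c ∈ C, t * c = c * t) : Subgroup Ω where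
  carrier := {x | ∃ t ∈ T, ∃ c ∈ C, x = t * c}
  mul_mem' := by
    rintro _ _ ⟨t, ht, c, hc, rfl⟩ ⟨t', ht', c', hc', rfl⟩
    refine ⟨t * t', mul_mem ht ht', c * c', mul_mem hc hc', ?_⟩
    calc t * c * (t' * c') = t * (c * t') * c' := by group
      _ = t * (t' * c) * c' := by rw [hcomm t' ht' c hc]
      _ = t * t' * (c * c') := by group
  one_mem' := ⟨1, one_mem _, 1, one_mem _, by simp⟩
  inv_mem' := by
    rintro _ ⟨t, ht, c, hc, rfl⟩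
    refine ⟨t⁻¹, inv_mem ht, c⁻¹, inv_mem hc, ?_⟩
    rw [mul_inv_rev]
    exact (hcomm t⁻¹ (inv_mem ht) c⁻¹ (inv_mem hc)).symm

theorem exists_mul_of_mem_sup {T C : Subgroup Ω} (hcomm : ∀ t ∈ T, ∀ c ∈ C, t * c = c * t)
    {x : Ω} (hx : x ∈ T ⊔ C) : ∃ t ∈ T, ∃ c ∈ C, x = t * c := by
  have h1 : T ≤ prodSub T C hcomm := fun t ht => ⟨t, ht, 1, one_mem _, by simp⟩
  have h2 : C ≤ prodSub T C hcomm := fun c hc => ⟨1, one_mem _, c, hc, by simp⟩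
  exact sup_le h1 h2 hx

theorem main (hEXTT : ORStmt.ExtModT.{u}) : ORStmt.TrivModT.{u} := by
  intro Ω _ S _ p _ hS F hF T E F₀ hE hF₀ hsub hAut hfoc P φ hφ x
  have hT : F.StronglyClosed T := hE.1.2.2.2.1
  have hTS : T ≤ S := hT.1
  have hQS : T ⊔ centralizerIn S T ≤ S := sup_le hTS inf_le_left
  have hfinQ : Finite ↥(T ⊔ centralizerIn S T) :=
    Finite.of_injective _ (Subgroup.inclusion_injective hQS)
  have hfinT : Finite ↥T := Finite.of_injective _ (Subgroup.inclusion_injective hTS)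
  have hQp : IsPGroup p ↥(T ⊔ centralizerIn S T) := hS.to_le hQS
  have hT₀ : F₀.StronglyClosed T :=
    ⟨le_sup_left, fun R hR ψ hψ y => hT.2 R hR ψ (hsub R hψ) y⟩
  have hTY : T ≤ P ⊔ T := le_sup_right
  have hPY : P ≤ P ⊔ T := le_sup_left
  obtain ⟨ψ, hψ, hψx⟩ := hEXTT p hQp F₀ hF₀ T hT₀ P φ hφ
  obtain ⟨γ, hγ, hγt⟩ := exists_resHom F₀ hT₀ hTY hψ
  obtain ⟨β, hβ, hβT, hβC⟩ := hE.2 γ (hAut hγ)
  have hβi : (T ⊔ centralizerIn S T).subtype.comp (β⁻¹).toMonoidHom ∈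
      F.Hom (T ⊔ centralizerIn S T) :=
    (mem_autGroup_iff F hQS β⁻¹).mp (Subgroup.inv_mem _ hβ)
  have hψF : ψ ∈ F.Hom (P ⊔ T) := hsub _ hψ
  have hψQ : ∀ y : ↥(P ⊔ T), ψ y ∈ T ⊔ centralizerIn S T := (F₀.le_of_mem hψ).2
  obtain ⟨κ, hκ, hκdef⟩ : ∃ κ : ↥(P ⊔ T) →* Ω, κ ∈ F.Hom (P ⊔ T) ∧
      ∀ y, κ y = ((β⁻¹ ⟨ψ y, hψQ y⟩ : ↥(T ⊔ centralizerIn S T)) : Ω) :=
    ⟨_, F.comp_mem hψF hβi hψQ, fun y => rfl⟩
  -- `κ` fixes `T`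
  have hκT : ∀ t : T, κ ⟨t, hTY t.2⟩ = t := by
    intro t
    rw [hκdef]
    have h1 : (⟨ψ ⟨t, hTY t.2⟩, hψQ _⟩ : ↥(T ⊔ centralizerIn S T)) =
        β (Subgroup.inclusion le_sup_left t) := by
      apply Subtype.ext
      rw [hβT t, hγt t]
    rw [h1, MulAut.inv_apply_self]
    rfl
  -- the centralizer system
  obtain ⟨D, hD⟩ := Cfsg.Agent.S5097.result F T hTS
  have hRY : (P ⊔ T) ⊓ centralizerIn S T ≤ P ⊔ T := inf_le_left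
  have hRT : (P ⊔ T) ⊓ centralizerIn S T ⊔ T ≤ P ⊔ T := sup_le hRY hTY
  have hκR : κ.comp (Subgroup.inclusion hRY) ∈ D.Hom ((P ⊔ T) ⊓ centralizerIn S T) := by
    rw [hD]
    refine ⟨restrict_mem F hκ hRY, inf_le_right, fun y => ?_,
      ⟨κ.comp (Subgroup.inclusion hRT), restrict_mem F hκ hRT, fun y => rfl, fun t => hκT t⟩⟩
    refine Subgroup.mem_inf.2 ⟨(F.le_of_mem hκ).2 _, ?_⟩
    rw [Subgroup.mem_centralizer_iff]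
    intro t ht
    have hy : (y : Ω) ∈ Subgroup.centralizer (T : Set Ω) :=
      (Subgroup.mem_inf.1 (Subgroup.mem_inf.1 y.2).2).2
    have hty : t * (y : Ω) = (y : Ω) * t := Subgroup.mem_centralizer_iff.1 hy t ht
    have e0 : (⟨t, hTY ht⟩ : ↥(P ⊔ T)) * Subgroup.inclusion hRY y =
        Subgroup.inclusion hRY y * ⟨t, hTY ht⟩ := Subtype.ext hty
    show t * κ (Subgroup.inclusion hRY y) = κ (Subgroup.inclusion hRY y) * t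
    calc t * κ (Subgroup.inclusion hRY y)
        = κ ⟨t, hTY ht⟩ * κ (Subgroup.inclusion hRY y) := by rw [hκT ⟨t, ht⟩]
      _ = κ (⟨t, hTY ht⟩ * Subgroup.inclusion hRY y) := (map_mul κ _ _).symm
      _ = κ (Subgroup.inclusion hRY y * ⟨t, hTY ht⟩) := by rw [e0]
      _ = κ (Subgroup.inclusion hRY y) * κ ⟨t, hTY ht⟩ := map_mul κ _ _
      _ = κ (Subgroup.inclusion hRY y) * t := by rw [hκT ⟨t, ht⟩]
  have hfocal : ∀ c : ↥((P ⊔ T) ⊓ centralizerIn S T),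
      (c : Ω)⁻¹ * κ (Subgroup.inclusion hRY c) ∈ T := fun c =>
    hfoc D hD (Subgroup.subset_closure ⟨_, _, c, hκR, rfl⟩)
  -- decompose `x = t * c`
  have hxQ : (x : Ω) ∈ T ⊔ centralizerIn S T := (F₀.le_of_mem hφ).1 x.2
  have hcomm : ∀ t ∈ T, ∀ c ∈ centralizerIn S T, t * c = c * t := fun t ht c hc =>
    Subgroup.mem_centralizer_iff.1 (Subgroup.mem_inf.1 hc).2 t ht
  obtain ⟨t, ht, c, hc, hxtc⟩ := exists_mul_of_mem_sup hcomm hxQ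
  have hcY : c ∈ P ⊔ T := by
    have e : c = t⁻¹ * (x : Ω) := by rw [hxtc]; group
    rw [e]
    exact mul_mem (inv_mem (hTY ht)) (hPY x.2)
  have hcQ : c ∈ T ⊔ centralizerIn S T := (le_sup_right : centralizerIn S T ≤ _) hc
  have ht₁ : c⁻¹ * κ ⟨c, hcY⟩ ∈ T := hfocal ⟨c, Subgroup.mem_inf.2 ⟨hcY, hc⟩⟩
  -- `ψ c = β c * γ t₁`
  have e1 : (⟨ψ ⟨c, hcY⟩, hψQ _⟩ : ↥(T ⊔ centralizerIn S T)) =
      β (⟨c, hcQ⟩ * Subgroup.inclusion le_sup_left ⟨c⁻¹ * κ ⟨c, hcY⟩, ht₁⟩) := by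
    have e2 : β⁻¹ ⟨ψ ⟨c, hcY⟩, hψQ _⟩ =
        ⟨c, hcQ⟩ * Subgroup.inclusion le_sup_left ⟨c⁻¹ * κ ⟨c, hcY⟩, ht₁⟩ := by
      apply Subtype.ext
      rw [← hκdef]
      show κ ⟨c, hcY⟩ = c * (c⁻¹ * κ ⟨c, hcY⟩)
      group
    rw [← e2, MulAut.apply_inv_self]
  have e3 : ψ ⟨c, hcY⟩ = ((β ⟨c, hcQ⟩ : ↥(T ⊔ centralizerIn S T)) : Ω) *
      ((γ ⟨c⁻¹ * κ ⟨c, hcY⟩, ht₁⟩ : T) : Ω) := by
    have e4 := congrArg Subtype.val e1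
    rw [map_mul] at e4
    rw [← hβT]
    exact e4
  have hz : c⁻¹ * ((β ⟨c, hcQ⟩ : ↥(T ⊔ centralizerIn S T)) : Ω) ∈ T :=
    (Subgroup.mem_inf.1 (hβC ⟨c, hcQ⟩ hc)).1
  have hcψ : c⁻¹ * ψ ⟨c, hcY⟩ ∈ T := by
    rw [e3, ← mul_assoc]
    exact mul_mem hz (γ _).2
  -- `ψ x = γ t * ψ c`
  have e5 : ψ (Subgroup.inclusion hPY x) = ((γ ⟨t, ht⟩ : T) : Ω) * ψ ⟨c, hcY⟩ := by
    have e6 : Subgroup.inclusion hPY x = (⟨t, hTY ht⟩ : ↥(P ⊔ T)) * ⟨c, hcY⟩ := Subtype.ext hxtc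
    rw [e6, map_mul, hγt]
  have hu : t⁻¹ * ((γ ⟨t, ht⟩ : T) : Ω) ∈ T := mul_mem (inv_mem ht) (γ _).2
  have hxψ : (x : Ω)⁻¹ * ψ (Subgroup.inclusion hPY x) ∈ T := by
    have e7 : (x : Ω)⁻¹ * ψ (Subgroup.inclusion hPY x) =
        t⁻¹ * ((γ ⟨t, ht⟩ : T) : Ω) * (c⁻¹ * ψ ⟨c, hcY⟩) := by
      rw [e5, hxtc]
      have e8 := hcomm _ hu c hc
      calc (t * c)⁻¹ * (((γ ⟨t, ht⟩ : T) : Ω) * ψ ⟨c, hcY⟩)
          = c⁻¹ * (t⁻¹ * ((γ ⟨t, ht⟩ : T) : Ω) * c) * (c⁻¹ * ψ ⟨c, hcY⟩) := by group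
        _ = c⁻¹ * (c * (t⁻¹ * ((γ ⟨t, ht⟩ : T) : Ω))) * (c⁻¹ * ψ ⟨c, hcY⟩) := by rw [e8]
        _ = t⁻¹ * ((γ ⟨t, ht⟩ : T) : Ω) * (c⁻¹ * ψ ⟨c, hcY⟩) := by group
    rw [e7]
    exact mul_mem hu hcψ
  have e9 : (x : Ω)⁻¹ * φ x = (x : Ω)⁻¹ * ψ (Subgroup.inclusion hPY x) *
      ((φ x)⁻¹ * ψ (Subgroup.inclusion le_sup_left x))⁻¹ := by group
  rw [e9]
  exact mul_mem hxψ (inv_mem (hψx x))

end Cfsg.Agent.Lib.Helper34.ORTRIV
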