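import Cfsg.Agent.Lib.Helper88.ORStmt
import Cfsg.Agent.H85.Sat

/-!
# S5202 piece WNT (helper34)

`D` normal in `F'`, `F'` normal in `F`, the group `S''` of `D` strongly closed in `F` and `D`
invariant under `Aut_F(S'')`: then `D` is weakly normal in `F` (compose the two Frattini
factorizations).
-/

set_option autoImplicit false

namespace Cfsg.Agent.Lib.Helper34.ORWNT

open Cfsg Cfsg.FusionSystem Cfsg.Agent.H85 Cfsg.Agent.Lib.Helper88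

universe u

variable {Ω : Type u} [Group Ω] {S : Subgroup Ω}

/-- The restriction to the strongly closed `T ≤ S'` of an element of `Aut_F(S')`. -/
theorem exists_res (F : FusionSystem S) {T S' : Subgroup Ω} (hT : F.StronglyClosed T)
    (hTS' : T ≤ S') (hS' : S' ≤ S) {α : MulAut S'} (hα : α ∈ F.autGroup S') :
    ∃ γ ∈ F.autGroup T, ∀ t : T, ((γ t : T) : Ω) = ((α ⟨t, hTS' t.2⟩ : S') : Ω) := by
  have hα' := (mem_autGroup_iff F hS' α).mp hα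
  have hc := restrict_mem F hα' hTS'
  have hαi : α⁻¹ ∈ F.autGroup S' := Subgroup.inv_mem _ hα
  have hc' := restrict_mem F ((mem_autGroup_iff F hS' α⁻¹).mp hαi) hTS'
  have hr : ((S'.subtype.comp α.toMonoidHom).comp (Subgroup.inclusion hTS')).range = T := by
    ext y
    constructor
    · rintro ⟨x, rfl⟩
      exact hT.2 T le_rfl _ hc x
    · intro hy
      have h1 := hT.2 T le_rfl _ hc' ⟨y, hy⟩
      refine ⟨⟨_, h1⟩, ?_⟩
      show ((α (α⁻¹ ⟨y, hTS' hy⟩) : S') : Ω) = y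
      rw [MulAut.apply_inv_self]
  exact ⟨isoOf F hc hr, (mem_autGroup_iff F hT.1 _).mpr (isIso_isoOf F hc hr), fun t => rfl⟩

theorem main : ORStmt.WNTrans.{u} := by
  intro Ω _ S _ p _ hS F hF S' S'' F' D hF'F hDF' hSC hInv
  have hDsat : D.IsSaturated p := hDF'.1.1
  have hF'inv : F'.IsInvariantIn F := hF'F.1.2.2
  have hDinv : D.IsInvariantIn F' := hDF'.1.2.2
  have hS''S' : S'' ≤ S' := hDinv.2.1.1
  have hS'S : S' ≤ S := hF'inv.2.1.1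
  have hsub : D.IsSubsystemOf F := fun P φ hφ => hF'inv.1 P (hDinv.1 P hφ)
  refine ⟨hDsat, hF, hsub, hSC, hInv, ?_⟩
  intro P hP φ hφ
  obtain ⟨α₁, hα₁, φ₁, hφ₁, h1⟩ := hF'inv.2.2.2 P (hP.trans hS''S') φ hφ
  obtain ⟨α₂, hα₂, φ₂, hφ₂, h2⟩ := hDinv.2.2.2 P hP φ₁ hφ₁
  obtain ⟨γ, hγ, hγx⟩ := exists_res F hSC hS''S' hS'S hα₁
  have hα₂F : α₂ ∈ F.autGroup S'' :=
    (mem_autGroup_iff F hSC.1 α₂).mpr (hF'inv.1 _ ((mem_autGroup_iff F' hS''S' α₂).mp hα₂))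
  refine ⟨γ * α₂, mul_mem hγ hα₂F, φ₂, hφ₂, fun x hx => ?_⟩
  have e2 := h2 x hx
  have hφ₁x : φ₁ x ∈ S' := by rw [e2]; exact hS''S' (α₂ _).2
  have e1 := h1 x hφ₁x
  rw [e1]
  show ((α₁ ⟨φ₁ x, hφ₁x⟩ : S') : Ω) = ((γ (α₂ ⟨φ₂ x, hx⟩) : S'') : Ω)
  rw [hγx]
  have e3 : (⟨φ₁ x, hφ₁x⟩ : S') = ⟨((α₂ ⟨φ₂ x, hx⟩ : S'') : Ω), hS''S' (α₂ ⟨φ₂ x, hx⟩).2⟩ :=
    Subtype.ext e2
  rw [e3]

end Cfsg.Agent.Lib.Helper34.ORWNT
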