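import Mathlib
import Cfsg.Agent.Lib.Helper87.PCStmt
import Cfsg.Agent.S5077
import Cfsg.Agent.H84.FusSat2
import Cfsg.Agent.H85.Sat
import Cfsg.Agent.H85.Aut
import Cfsg.Agent.H85.FullyNorm

/-! Piece KF of S5243: an `F`-centric `P` with `P ∩ T` not `E`-centric has an `F`-conjugate `P'`
with `C_T(P' ∩ T)` not contained in `P' ∩ T`. -/

set_option autoImplicit false

namespace Cfsg.Agent.Lib.Helper34.PCKF

open Cfsg Cfsg.FusionSystem Cfsg.Agent.H85 Cfsg.Agent.Lib.Helper87.PCStmt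

universe u

theorem main : KF.{u} := by
  intro Ω _ S T _ p _ F E K c P hPc hnc
  have hTS : T ≤ S := c.hTS
  have hT : F.StronglyClosed T := c.hT
  have hEF := c.hEF
  have hPS : P ≤ S := hPc.1
  have hQ0T : P ⊓ T ≤ T := inf_le_right
  have hQ0S : P ⊓ T ≤ S := inf_le_left.trans hPS
  -- some `E`-conjugate `Q1` of `P ⊓ T` has `c0 ∈ C_T(Q1) \ Q1`
  have h1 : ∃ Q1, E.IsConj (P ⊓ T) Q1 ∧ ¬ centralizerIn T Q1 ≤ Q1 := by
    by_contra hcon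
    push Not at hcon
    exact hnc ⟨hQ0T, hcon⟩
  obtain ⟨Q1, hQ01, hQ1n⟩ := h1
  obtain ⟨c0, hc0, hc0n⟩ := SetLike.not_le_iff_exists.mp hQ1n
  have hFQ01 : F.IsConj (P ⊓ T) Q1 := by
    obtain ⟨φ, hφ, hr⟩ := hQ01
    exact ⟨φ, hEF _ hφ, hr⟩
  obtain ⟨Q', hQ0Q', hQ'fn⟩ := Cfsg.Agent.S5077.exists_fullyNormalized F hQ0S
  have hfa := Cfsg.Agent.H84.fullyAutomized_of_fn c.hS F c.hF hQ'fn
  have hfc := Cfsg.Agent.H84.fullyCentralized_of_fn c.hS F c.hF hQ'fn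
  have hrec := Cfsg.Agent.H84.receptive_of_fc c.hS F c.hF hfc
  have hQ'T : Q' ≤ T := by
    obtain ⟨φ0, hφ0, hφ0r⟩ := hQ0Q'
    intro y hy
    rw [← hφ0r] at hy
    obtain ⟨x, rfl⟩ := hy
    exact hT.2 _ hQ0T φ0 hφ0 x
  -- (a) the image of `c0` under an extension of an `F`-isomorphism `Q1 → Q'`
  have hQ1Q' : F.IsConj Q1 Q' := isConj_trans F (isConj_symm F hFQ01) hQ0Q'
  obtain ⟨φa, hφa, hφar⟩ := hQ1Q'
  obtain ⟨ψa, hψa, hψax⟩ := receptive_extend_sup F hrec hφa hφar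
  have hc0S : c0 ∈ centralizerIn S Q1 := ⟨hTS hc0.1, hc0.2⟩
  have hc0m : c0 ∈ Q1 ⊔ centralizerIn S Q1 :=
    (le_sup_right : centralizerIn S Q1 ≤ Q1 ⊔ centralizerIn S Q1) hc0S
  have hd1 : ψa ⟨c0, hc0m⟩ ∈ centralizerIn S Q' := by
    refine map_centralizer_mem F hψa ?_ ⟨c0, hc0m⟩ hc0S
    intro y hy
    rw [← hφar] at hy
    obtain ⟨x, rfl⟩ := hy
    exact ⟨x, hψax x⟩
  have hd2 : ψa ⟨c0, hc0m⟩ ∈ T := by
    have hz : Subgroup.zpowers c0 ≤ Q1 ⊔ centralizerIn S Q1 := by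
      rw [Subgroup.zpowers_le]; exact hc0m
    have hzT : Subgroup.zpowers c0 ≤ T := by
      rw [Subgroup.zpowers_le]; exact hc0.1
    exact hT.2 _ hzT _ (restrict_mem F hψa hz) ⟨c0, Subgroup.mem_zpowers c0⟩
  have hd3 : ψa ⟨c0, hc0m⟩ ∉ Q' := by
    intro hmem
    rw [← hφar] at hmem
    obtain ⟨x, hx⟩ := hmem
    rw [← hψax x] at hx
    have h2 := F.injective_of_mem hψa hx
    have h3 : (x : Ω) = c0 := congrArg Subtype.val h2
    apply hc0n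
    rw [← h3]; exact x.2
  -- (b) an `F`-map on `N_S(P ⊓ T)` carrying `P ⊓ T` onto `Q'`
  obtain ⟨e, he⟩ := exists_isIso_of_isConj F hQ0Q'
  obtain ⟨χ, ψ, hχ, hψ, hψx⟩ := exists_normalizer_extension c.hS F he hfa hrec
  have hST : ∀ g ∈ S, ∀ t ∈ T, g * t * g⁻¹ ∈ T := by
    intro g hg t ht
    exact hT.2 T le_rfl _ (F.conj_mem hTS hg) ⟨t, ht⟩
  have hPN : P ≤ normalizerIn S (P ⊓ T) := by
    intro g hg
    refine ⟨hPS hg, mem_normalizer_of_forall ?_ ?_⟩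
    · intro t ht
      exact ⟨P.mul_mem (P.mul_mem hg ht.1) (P.inv_mem hg), hST g (hPS hg) t ht.2⟩
    · intro t ht
      refine ⟨P.mul_mem (P.mul_mem (P.inv_mem hg) ht.1) hg, ?_⟩
      have h2 := hST g⁻¹ (S.inv_mem (hPS hg)) t ht.2
      rwa [inv_inv] at h2
  have hψP := restrict_mem F hψ hPN
  refine ⟨(ψ.comp (Subgroup.inclusion hPN)).range, ⟨_, hψP, rfl⟩, ?_⟩
  have hQ'eq : (ψ.comp (Subgroup.inclusion hPN)).range ⊓ T = Q' := by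
    ext y
    constructor
    · rintro ⟨⟨x, rfl⟩, hyT⟩
      have hxT : (x : Ω) ∈ T := by
        have hz : Subgroup.zpowers ((ψ.comp (Subgroup.inclusion hPN)) x) ≤
            (ψ.comp (Subgroup.inclusion hPN)).range := by
          rw [Subgroup.zpowers_le]; exact ⟨x, rfl⟩
        obtain ⟨ι, hι, hιx⟩ := inv_mem' F hψP hz
        have hzT : Subgroup.zpowers ((ψ.comp (Subgroup.inclusion hPN)) x) ≤ T := by
          rw [Subgroup.zpowers_le]; exact hyT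
        have h2 := hT.2 _ hzT ι hι ⟨_, Subgroup.mem_zpowers _⟩
        rw [hιx x (Subgroup.mem_zpowers _)] at h2
        exact h2
      have hxQ0 : (x : Ω) ∈ P ⊓ T := ⟨x.2, hxT⟩
      have h3 := hψx ⟨x, hxQ0⟩ (hPN x.2)
      show ψ (Subgroup.inclusion hPN x) ∈ Q'
      have e1 : Subgroup.inclusion hPN x = ⟨((⟨x, hxQ0⟩ : ↥(P ⊓ T)) : Ω), hPN x.2⟩ := rfl
      rw [e1, h3]
      exact (χ (e ⟨x, hxQ0⟩)).2
    · intro hy
      obtain ⟨x, hxdef⟩ : ∃ x : ↥(P ⊓ T), x = e.symm (χ⁻¹ ⟨y, hy⟩) := ⟨_, rfl⟩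
      have h3 := hψx x (hPN x.2.1)
      have h4 : ((χ (e x) : Q') : Ω) = y := by
        rw [hxdef, e.apply_symm_apply, MulAut.apply_inv_self]
      refine ⟨⟨⟨x, x.2.1⟩, ?_⟩, hQ'T hy⟩
      show ψ ⟨x, _⟩ = y
      rw [h3, h4]
  rw [hQ'eq]
  intro hle
  exact hd3 (hle ⟨hd2, hd1.2⟩)

end Cfsg.Agent.Lib.Helper34.PCKF
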