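import Mathlib
import Cfsg.Agent.Lib.Helper7.ReeSolvStmt

/-!
# S2361 / C3F (helper34): no element of order 3 centralizes a subgroup of order 4
-/

set_option autoImplicit false

namespace Cfsg.Agent.Lib.Helper34.RSC3F

open Cfsg.Agent.Lib.Helper42.ReeSpStmt Cfsg.Agent.Lib.Helper18.ReeHallStmt
  Cfsg.Agent.Lib.Helper7.ReeSolvStmt

universe u v

theorem qq_mod4 (m : ℕ) : qq m % 4 = 3 := by
  show 3 ^ (2 * m + 1) % 4 = 3
  rw [pow_succ, pow_mul, Nat.mul_mod, Nat.pow_mod]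
  norm_num

theorem card_mod4 (m : ℕ) : qq m ^ 3 * (qq m - 1) % 4 = 2 := by
  have h := qq_mod4 m
  have h1 : (qq m - 1) % 4 = 2 := by omega
  rw [Nat.mul_mod, Nat.pow_mod, h, h1]

theorem main : C3F.{u, v} := by
  intro G _ _ U H A K _ _ m hAx hS F hF y hy hy3
  by_contra hy1
  obtain ⟨x, hx⟩ := hS.2.2 y ⟨1, by simpa using hy3⟩
  have hy'1 : x * y * x⁻¹ ≠ 1 := by
    intro h
    apply hy1
    have : y = x⁻¹ * (x * y * x⁻¹) * x := by group
    rw [this, h]; group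
  have key : ∀ f ∈ F, ∀ u ∈ U, (x * f * x⁻¹) * u * (x * f * x⁻¹)⁻¹ ∈ U := by
    intro f hf
    apply hAx.ti
    refine ⟨x * y * x⁻¹, hx, hy'1, ?_⟩
    have hc : f * y = y * f := (Subgroup.mem_centralizer_iff.1 hy f hf)
    have e1 : x * f * x⁻¹ * (x * y * x⁻¹) * (x * f * x⁻¹)⁻¹ = x * (f * y) * f⁻¹ * x⁻¹ := by
      group
    rw [e1, hc]
    have e2 : x * (y * f) * f⁻¹ * x⁻¹ = x * y * x⁻¹ := by group
    rw [e2]; exact hx
  have hN : F.map (MulAut.conj x).toMonoidHom ≤ Subgroup.normalizer (U : Set G) := by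
    rintro _ ⟨f, hf, rfl⟩
    rw [Subgroup.mem_normalizer_iff]
    intro h
    constructor
    · intro hh
      exact key f hf h hh
    · intro hh
      have h0 := key f⁻¹ (F.inv_mem hf) _ hh
      have e : x * f⁻¹ * x⁻¹ * ((MulAut.conj x).toMonoidHom f * h *
          ((MulAut.conj x).toMonoidHom f)⁻¹) * (x * f⁻¹ * x⁻¹)⁻¹ = h := by
        simp only [MulEquiv.toMonoidHom_eq_coe, MonoidHom.coe_coe, MulAut.conj_apply]
        group
      rwa [e] at h0
  have hcard : Nat.card ↥(F.map (MulAut.conj x).toMonoidHom) = 4 := by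
    rw [Subgroup.card_map_of_injective (MulAut.conj x).injective]
    exact hF
  have hdvd := Subgroup.card_dvd_of_le hN
  rw [hcard, hS.1] at hdvd
  have := card_mod4 m
  omega

end Cfsg.Agent.Lib.Helper34.RSC3F
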